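import Mathlib
import Cfsg.Agent.H4.TnDefs
import Cfsg.Agent.H82.Irr

set_option autoImplicit false

/-!
# TN-F0 (helper30, parallel take for helper4's S3805 project TN)

Case F0 (no fusion among `u`, `v`, `uv`): `χ₁` and its mirror `θ₁` are linear and trivial on `T`,
`K = ker χ₁ ∩ ker θ₁` is a normal subgroup containing `T` but none of `u`, `v`, `uv`, and FIN
gives `N_G(T) = G`.
-/

universe u

namespace Cfsg.Agent.Lib.Helper30.Tn

open Subgroup Cfsg.Agent.H4.Tn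

/-- If no conjugate of the involution `x` inverts `a`, INV gives `χ₁ x = χ₁ 1`. -/
theorem inv_zero {G : Type u} [Group G] [Finite G] (hI : StInv.{u}) {T : Subgroup G}
    {a b u v : G} (cfg : Cfg G T a b u v) (χ₁ χ₂ : Cfsg.IrrCharacter G)
    (hdec : IsDec a b u χ₁ χ₂) (x : G) (hx : x * x = 1)
    (hemp : ∀ y : G, IsConj x y → y * a * y⁻¹ = a⁻¹ → False) : χ₁.1 x = χ₁.1 1 := by
  have h := hI G T a b u v cfg χ₁ χ₂ hdec x hx
  have h0 : Nat.card {y : G // IsConj x y ∧ y * a * y⁻¹ = a⁻¹} = 0 := by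
    haveI : IsEmpty {y : G // IsConj x y ∧ y * a * y⁻¹ = a⁻¹} :=
      ⟨fun y => hemp y.1 y.2.1 y.2.2⟩
    exact Nat.card_of_isEmpty
  rw [h0] at h
  have hk : (Nat.card {y : G // IsConj x y} : ℂ) ≠ 0 := by
    haveI : Nonempty {y : G // IsConj x y} := ⟨⟨x, IsConj.refl x⟩⟩
    exact_mod_cast (Nat.card_pos (α := {y : G // IsConj x y})).ne'
  have h3 : 18 * (Nat.card {y : G // IsConj x y} : ℂ) ^ 2 * (χ₁.1 1 - χ₁.1 x) ^ 2 = 0 := by
    rw [h]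
    simp
  have h2 : (χ₁.1 1 - χ₁.1 x) ^ 2 = 0 := by
    rcases mul_eq_zero.mp h3 with h4 | h4
    · exfalso
      rcases mul_eq_zero.mp h4 with h5 | h5
      · norm_num at h5
      · exact hk ((pow_eq_zero_iff (by norm_num : (2 : ℕ) ≠ 0)).mp h5)
    · exact h4
  have h6 : χ₁.1 1 - χ₁.1 x = 0 := (pow_eq_zero_iff (by norm_num : (2 : ℕ) ≠ 0)).mp h2
  exact (sub_eq_zero.mp h6).symm

/-- If the involution `x` itself inverts `a` and `χ₁` is linear, INV gives `χ₁ x ≠ 1`. -/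
theorem inv_ne {G : Type u} [Group G] [Finite G] (hI : StInv.{u}) {T : Subgroup G}
    {a b u v : G} (cfg : Cfg G T a b u v) (χ₁ χ₂ : Cfsg.IrrCharacter G)
    (hdec : IsDec a b u χ₁ χ₂) (x : G) (hx : x * x = 1) (hxa : x * a * x⁻¹ = a⁻¹)
    (h1 : χ₁.1 1 = 1) : χ₁.1 x ≠ 1 := by
  intro hc
  have h := hI G T a b u v cfg χ₁ χ₂ hdec x hx
  rw [h1, hc] at h
  have hi : (Nat.card {y : G // IsConj x y ∧ y * a * y⁻¹ = a⁻¹} : ℂ) ≠ 0 := by
    haveI : Nonempty {y : G // IsConj x y ∧ y * a * y⁻¹ = a⁻¹} :=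
      ⟨⟨x, IsConj.refl x, hxa⟩⟩
    exact_mod_cast (Nat.card_pos (α := {y : G // IsConj x y ∧ y * a * y⁻¹ = a⁻¹})).ne'
  have hG : (Nat.card G : ℂ) ≠ 0 := by
    exact_mod_cast (Nat.card_pos (α := G)).ne'
  have h2 : (1 : ℂ) * (1 + 1) * (Nat.card G : ℂ) *
      (Nat.card {y : G // IsConj x y ∧ y * a * y⁻¹ = a⁻¹} : ℂ) ^ 2 = 0 := by
    rw [← h]
    ring
  have h3 : (1 : ℂ) * (1 + 1) * (Nat.card G : ℂ) *
      (Nat.card {y : G // IsConj x y ∧ y * a * y⁻¹ = a⁻¹} : ℂ) ^ 2 ≠ 0 :=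
    mul_ne_zero (mul_ne_zero (by norm_num) hG) (pow_ne_zero 2 hi)
  exact h3 h2

/-- A linear irreducible character with `χ a = χ b = 1` is trivial on `a ^ i * b ^ j`. -/
theorem lin_pow {G : Type u} [Group G] [Finite G] (χ : Cfsg.IrrCharacter G) (h1 : χ.1 1 = 1)
    {a b : G} (ha : χ.1 a = 1) (hb : χ.1 b = 1) (i j : ℕ) : χ.1 (a ^ i * b ^ j) = 1 := by
  have hp : ∀ (g : G), χ.1 g = 1 → ∀ n : ℕ, χ.1 (g ^ n) = 1 := by
    intro g hg n
    induction n with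
    | zero => rw [pow_zero]; exact h1
    | succ n ih => rw [pow_succ, Cfsg.Agent.H82.irr_linear_mul χ h1, ih, hg, mul_one]
  rw [Cfsg.Agent.H82.irr_linear_mul χ h1, hp a ha i, hp b hb j, mul_one]

theorem f0 (hD : StDecomp.{u}) (hS : StSwap.{u}) (hI : StInv.{u}) (hA : StInvA.{u})
    (hL : StL1.{u}) (hF : StFin.{u}) : StF0.{u} := by
  intro G _ _ T a b u v cfg huv h1 h2
  have cfg' : Cfg G T b a v u := hS G T a b u v cfg
  obtain ⟨χ₁, χ₂, hdec⟩ := hD G T a b u v cfg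
  obtain ⟨θ₁, θ₂, hdec'⟩ := hD G T b a v u cfg'
  have hinv : ∀ x y : G, x * x = 1 → IsConj x y → y * y = 1 := by
    intro x y hx hxy
    obtain ⟨c, hc⟩ := isConj_iff.mp hxy
    rw [← hc]
    calc c * x * c⁻¹ * (c * x * c⁻¹) = c * (x * x) * c⁻¹ := by group
      _ = 1 := by rw [hx]; group
  have e1 : χ₁.1 u = χ₁.1 1 := by
    apply inv_zero hI cfg χ₁ χ₂ hdec u cfg.u2
    intro y hy hya
    rcases hA G T a b u v cfg y (hinv u y cfg.u2 hy) hya with h | h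
    · exact huv (hy.trans h.symm)
    · exact h1 (h.trans hy.symm)
  obtain ⟨l1, l2, l3⟩ := hL G T a b u v cfg χ₁ χ₂ hdec e1
  have hva : v * a * v⁻¹ = a⁻¹ := by rw [cfg.va, mul_assoc, mul_inv_cancel, mul_one]
  have e2 : χ₁.1 v ≠ 1 := inv_ne hI cfg χ₁ χ₂ hdec v cfg.v2 hva l1
  have e1' : θ₁.1 v = θ₁.1 1 := by
    apply inv_zero hI cfg' θ₁ θ₂ hdec' v cfg.v2
    intro y hy hyb
    rcases hA G T b a v u cfg' y (hinv v y cfg.v2 hy) hyb with h | h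
    · exact huv (h.trans hy.symm)
    · rw [← cfg.uv] at h
      exact h2 (h.trans hy.symm)
  obtain ⟨m1, m2, m3⟩ := hL G T b a v u cfg' θ₁ θ₂ hdec' e1'
  have hub : u * b * u⁻¹ = b⁻¹ := by rw [cfg.ub, mul_assoc, mul_inv_cancel, mul_one]
  have e2' : θ₁.1 u ≠ 1 := inv_ne hI cfg' θ₁ θ₂ hdec' u cfg.u2 hub m1
  refine hF G T a b u v cfg (Cfsg.Agent.H82.irrKer χ₁ ⊓ Cfsg.Agent.H82.irrKer θ₁)
    inferInstance ?_ ?_ ?_ ?_
  · intro t ht
    obtain ⟨i, j, rfl⟩ := cfg.Telts t ht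
    refine Subgroup.mem_inf.mpr ⟨?_, ?_⟩
    · rw [Cfsg.Agent.H82.mem_irrKer, lin_pow χ₁ l1 l2 l3 i j, l1]
    · rw [Cfsg.Agent.H82.mem_irrKer, lin_pow θ₁ m1 m3 m2 i j, m1]
  · intro hu
    have h3 := (Subgroup.mem_inf.mp hu).2
    rw [Cfsg.Agent.H82.mem_irrKer, m1] at h3
    exact e2' h3
  · intro hv
    have h3 := (Subgroup.mem_inf.mp hv).1
    rw [Cfsg.Agent.H82.mem_irrKer, l1] at h3
    exact e2 h3
  · intro huv'
    have h3 := (Subgroup.mem_inf.mp huv').1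
    rw [Cfsg.Agent.H82.mem_irrKer, Cfsg.Agent.H82.irr_linear_mul χ₁ l1, e1, l1, one_mul] at h3
    exact e2 h3

example (hD : StDecomp.{u}) (hS : StSwap.{u}) (hI : StInv.{u}) (hA : StInvA.{u})
    (hL : StL1.{u}) (hF : StFin.{u}) : Cfsg.Agent.H4.Tn.StF0.{u} := f0 hD hS hI hA hL hF

end Cfsg.Agent.Lib.Helper30.Tn
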