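import Cfsg.Agent.H87.BCDefs
import Cfsg.Agent.H87.NK
import Cfsg.Agent.H87.Class2

set_option autoImplicit false

/-!
# Marked pairs (piece S5110-MP of the BCGLO saturation criterion)
-/

namespace Cfsg.Agent.Lib.Helper30.BC

open Cfsg Cfsg.FusionSystem Cfsg.Agent.H86 Cfsg.Agent.H87

variable {Ω : Type*} [Group Ω] {S : Subgroup Ω}

/-- An image point lies in the image of a smaller subgroup iff the point lies in it. -/
theorem apply_mem_imgS_iff {F : FusionSystem S} {T P : Subgroup Ω} {f : Ω → Ω} (hf : Mor F T f)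
    (hPT : P ≤ T) {x : Ω} (hx : x ∈ T) : f x ∈ imgS P f ↔ x ∈ P := by
  rw [(hf.restrict hPT).mem_imgS]
  constructor
  · rintro ⟨x', hx', h⟩
    have h1 := hf.injOn (hPT hx') hx h
    rwa [← h1]
  · intro h
    exact ⟨x, h, rfl⟩

theorem aut_mem_imgS_iff {F : FusionSystem S} {T P : Subgroup Ω} {β : MulAut T}
    (hβ : Mor F T (autFun T β)) (hPT : P ≤ T) (x : T) :
    ((β x : T) : Ω) ∈ imgS P (autFun T β) ↔ (x : Ω) ∈ P := by
  rw [← autFun_apply β x]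
  exact apply_mem_imgS_iff hβ hPT x.2

/-- The stabilizer of the image of `P` under `β` is the conjugate by `β` of the stabilizer of `P`. -/
theorem mem_stabAut_img_iff {F : FusionSystem S} {T P : Subgroup Ω} {β : MulAut T}
    (hβ : Mor F T (autFun T β)) (hPT : P ≤ T) (γ : MulAut T) :
    γ ∈ stabAut T (imgS P (autFun T β)) ↔ β⁻¹ * γ * β ∈ stabAut T P := by
  rw [mem_stabAut, mem_stabAut]
  constructor
  · intro h x
    have h1 := h (β x)
    rw [aut_mem_imgS_iff hβ hPT] at h1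
    have h2 := aut_mem_imgS_iff hβ hPT (β⁻¹ (γ (β x)))
    rw [MulAut.apply_inv_self] at h2
    rw [MulAut.mul_apply, MulAut.mul_apply, ← h2]
    exact h1
  · intro h y
    have h1 := h (β⁻¹ y)
    rw [MulAut.mul_apply, MulAut.mul_apply, MulAut.apply_inv_self] at h1
    have h2 := aut_mem_imgS_iff hβ hPT (β⁻¹ (γ y))
    rw [MulAut.apply_inv_self] at h2
    have h3 := aut_mem_imgS_iff hβ hPT (β⁻¹ y)
    rw [MulAut.apply_inv_self] at h3
    rw [h3, h2]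
    exact h1

/-- Automorphisms induced by `N_S(T) ∩ N_S(P)` lie in the system and stabilize `P`. -/
theorem autInducedBy_le_stab {F : FusionSystem S} {T P : Subgroup Ω} (hTS : T ≤ S) :
    autInducedBy (normalizerIn S T ⊓ normalizerIn S P) T ≤ F.autGroup T ⊓ stabAut T P := by
  intro α hα
  obtain ⟨d, hd, H⟩ := (Cfsg.Agent.H86.mem_autInducedBy_iff _ T α).1 hα
  have hdS : d ∈ S := (mem_normalizerIn_iff.1 hd.1).1
  have hdP : d ∈ Subgroup.normalizer (P : Set Ω) := (mem_normalizerIn_iff.1 hd.2).2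
  refine ⟨autInducedBy_le_autGroup F hTS ((Cfsg.Agent.H86.mem_autInducedBy_iff S T α).2 ⟨d, hdS, H⟩), ?_⟩
  show α ∈ stabAut T P
  rw [mem_stabAut]
  intro x
  rw [H x]
  exact Subgroup.mem_normalizer_iff.1 hdP x

/-- An automorphism induced by `S` that stabilizes `P` is induced by `N_S(T) ∩ N_S(P)`. -/
theorem mem_autInducedBy_stab {T P : Subgroup Ω} (hPT : P ≤ T) {α : MulAut T}
    (h1 : α ∈ autInducedBy S T) (h2 : α ∈ stabAut T P) :
    α ∈ autInducedBy (normalizerIn S T ⊓ normalizerIn S P) T := by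
  obtain ⟨d, hdS, H⟩ := (Cfsg.Agent.H86.mem_autInducedBy_iff S T α).1 h1
  have hdT : d ∈ Subgroup.normalizer (T : Set Ω) := Cfsg.Agent.H86.mem_normalizer_of_induces H
  have hdP : d ∈ Subgroup.normalizer (P : Set Ω) := by
    rw [Subgroup.mem_normalizer_iff]
    intro y
    constructor
    · intro hy
      have h3 := (mem_stabAut.1 h2 ⟨y, hPT hy⟩).1 hy
      rwa [H] at h3
    · intro hy
      have hyT : y ∈ T := (Subgroup.mem_normalizer_iff.1 hdT y).2 (hPT hy)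
      apply (mem_stabAut.1 h2 ⟨y, hyT⟩).2
      rw [H]
      exact hy
  exact (Cfsg.Agent.H86.mem_autInducedBy_iff _ T α).2
    ⟨d, ⟨mem_normalizerIn_iff.2 ⟨hdS, hdT⟩, mem_normalizerIn_iff.2 ⟨hdS, hdP⟩⟩, H⟩

/-- **S5110-MP**, existence of a marked pair in the class of `(T, P)`. -/
theorem exists_maxPair [Finite S] {p : ℕ} [Fact p.Prime] (hS : IsPGroup p S) {F : FusionSystem S}
    {T P : Subgroup Ω} (hT : SatClass F p T) (hPT : P ≤ T) (hTN : T ≤ normalizerIn S P) :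
    ∃ (T' P' : Subgroup Ω) (f₀ : Ω → Ω), Mor F T f₀ ∧ imgS T f₀ = T' ∧ imgS P f₀ = P' ∧
      MaxPair F p T' P' := by
  obtain ⟨T₀, hconj, hfa, hrc⟩ := hT
  obtain ⟨f₁, hf₁, himg₁⟩ := isConj_iff.1 hconj
  have hT₀S : T₀ ≤ S := hfa.1
  have : Finite T₀ := finite_of_le hT₀S
  have hmaps₁ : ∀ x ∈ T, f₁ x ∈ T₀ := fun x hx => by
    rw [← himg₁]; exact hf₁.mem_imgS_of_mem hx
  have hP₁T₀ : imgS P f₁ ≤ T₀ := by
    rw [← himg₁]; exact hf₁.imgS_mono hPT
  obtain ⟨U, -, hUK, hUsyl⟩ := exists_isSylIn_ge (p := p)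
    (bot_le : (⊥ : Subgroup (MulAut T₀)) ≤ F.autGroup T₀ ⊓ stabAut T₀ (imgS P f₁)) IsPGroup.of_bot
  have hUp : IsPGroup p U := hUsyl.isPGroup hUK
  have hsyl : IsSylIn p (autInducedBy S T₀) (F.autGroup T₀) := hfa.2
  obtain ⟨β, hβ, hβconj⟩ := hsyl.exists_conj_le (hUK.trans inf_le_left) hUp
  have hβm : Mor F T₀ (autFun T₀ β) := (mem_autGroup_iff hT₀S β).1 hβ
  have hf₀ : Mor F T (autFun T₀ β ∘ f₁) := hf₁.comp hβm hmaps₁
  have hf₀T : imgS T (autFun T₀ β ∘ f₁) = T₀ := by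
    rw [hf₁.imgS_comp hβm hmaps₁, himg₁, imgS_autFun hβm]
  have hf₀P : imgS P (autFun T₀ β ∘ f₁) = imgS (imgS P f₁) (autFun T₀ β) :=
    (hf₁.restrict hPT).imgS_comp hβm (fun x hx => hmaps₁ x (hPT hx))
  have hP'T₀ : imgS (imgS P f₁) (autFun T₀ β) ≤ T₀ := by
    have h1 := hβm.imgS_mono hP₁T₀
    rwa [imgS_autFun hβm] at h1
  refine ⟨T₀, imgS (imgS P f₁) (autFun T₀ β), autFun T₀ β ∘ f₁, hf₀, hf₀T, hf₀P, hP'T₀, ?_, hfa, hrc, ?_⟩
  · intro y hy
    rw [mem_normalizerIn_iff]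
    refine ⟨hT₀S hy, ?_⟩
    rw [← hf₀T] at hy
    obtain ⟨x, hx, rfl⟩ := hf₀.mem_imgS.1 hy
    have h1 := hf₀.mem_normalizer_imgS hPT (fun g hg => (mem_normalizerIn_iff.1 (hTN hg)).2) hx
    rwa [hf₀P] at h1
  · have hK' : F.autGroup T₀ ⊓ stabAut T₀ (imgS (imgS P f₁) (autFun T₀ β)) =
        (F.autGroup T₀ ⊓ stabAut T₀ (imgS P f₁)).map (MulAut.conj β).toMonoidHom := by
      ext γ
      rw [mem_map_conj, Subgroup.mem_inf, Subgroup.mem_inf, mem_stabAut_img_iff hβm hP₁T₀]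
      constructor
      · rintro ⟨h1, h2⟩
        exact ⟨(F.autGroup T₀).mul_mem ((F.autGroup T₀).mul_mem ((F.autGroup T₀).inv_mem hβ) h1) hβ, h2⟩
      · rintro ⟨h1, h2⟩
        refine ⟨?_, h2⟩
        have h3 : γ = β * (β⁻¹ * γ * β) * β⁻¹ := by group
        rw [h3]
        exact (F.autGroup T₀).mul_mem ((F.autGroup T₀).mul_mem hβ h1) ((F.autGroup T₀).inv_mem hβ)
    have hAle : autInducedBy (normalizerIn S T₀ ⊓ normalizerIn S (imgS (imgS P f₁) (autFun T₀ β))) T₀ ≤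
        F.autGroup T₀ ⊓ stabAut T₀ (imgS (imgS P f₁) (autFun T₀ β)) := autInducedBy_le_stab hT₀S
    have hAp : IsPGroup p (autInducedBy
        (normalizerIn S T₀ ⊓ normalizerIn S (imgS (imgS P f₁) (autFun T₀ β))) T₀) :=
      autInducedBy_isPGroup (hS.to_le (inf_le_left.trans (normalizerIn_le_left S T₀))) T₀
    refine isSylIn_of_card_le hAle hAp ?_
    have hU'le : U.map (MulAut.conj β).toMonoidHom ≤ autInducedBy
        (normalizerIn S T₀ ⊓ normalizerIn S (imgS (imgS P f₁) (autFun T₀ β))) T₀ := by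
      rw [map_conj_le_iff]
      intro u hu
      apply mem_autInducedBy_stab hP'T₀ (hβconj u hu)
      rw [mem_stabAut_img_iff hβm hP₁T₀]
      have h3 : β⁻¹ * (β * u * β⁻¹) * β = u := by group
      rw [h3]
      exact (hUK hu).2
    have hcard : Nat.card (U.map (MulAut.conj β).toMonoidHom) =
        p ^ (Nat.card ↥(F.autGroup T₀ ⊓ stabAut T₀ (imgS (imgS P f₁) (autFun T₀ β)))).factorization p := by
      rw [card_map_conj, hK', card_map_conj]
      exact (isSylIn_iff_card hUK).1 hUsyl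
    rw [← hcard]
    exact Subgroup.card_dvd_of_le hU'le

/-- **S5110-MP**, the extension property of a marked pair (posted as `MaxPair.extend`). -/
theorem maxPair_extend [Finite S] {p : ℕ} [Fact p.Prime] (hS : IsPGroup p S) {F : FusionSystem S}
    {T' P' : Subgroup Ω} (h : MaxPair F p T' P') {T₁ P₁ : Subgroup Ω} {g : Ω → Ω} (hP₁ : P₁ ≤ T₁)
    (hT₁ : T₁ ≤ normalizerIn S P₁) (hg : Mor F T₁ g) (hgT : imgS T₁ g = T') (hgP : imgS P₁ g = P') :
    ∃ ψ, Mor F (normalizerIn S T₁ ⊓ normalizerIn S P₁) ψ ∧ imgS T₁ ψ = T' ∧ imgS P₁ ψ = P' := by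
  have hT₁S : T₁ ≤ S := hg.le
  have hT'S : T' ≤ S := h.fa.1
  have : Finite T₁ := finite_of_le hT₁S
  have : Finite T' := finite_of_le hT'S
  have hmaps : ∀ x ∈ T₁, g x ∈ T' := fun x hx => by
    rw [← hgT]; exact hg.mem_imgS_of_mem hx
  have hA₁le : autInducedBy (normalizerIn S T₁ ⊓ normalizerIn S P₁) T₁ ≤
      F.autGroup T₁ ⊓ stabAut T₁ P₁ := autInducedBy_le_stab hT₁S
  have hA₁p : IsPGroup p (autInducedBy (normalizerIn S T₁ ⊓ normalizerIn S P₁) T₁) :=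
    autInducedBy_isPGroup (hS.to_le (inf_le_left.trans (normalizerIn_le_left S T₁))) T₁
  have hBle : (autInducedBy (normalizerIn S T₁ ⊓ normalizerIn S P₁) T₁).map
      (MulAut.congr (isoEquiv hg hgT)).toMonoidHom ≤ F.autGroup T' ⊓ stabAut T' P' := by
    rintro _ ⟨α, hα, rfl⟩
    refine ⟨congr_mem_autGroup hg hgT _ (isoEquiv_apply hg hgT) (hA₁le hα).1, ?_⟩
    show MulAut.congr (isoEquiv hg hgT) α ∈ stabAut T' P'
    rw [mem_stabAut]
    intro y
    obtain ⟨x, rfl⟩ := (isoEquiv hg hgT).surjective y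
    show ((isoEquiv hg hgT x : T') : Ω) ∈ P' ↔
      (((MulAut.congr (isoEquiv hg hgT) α) (isoEquiv hg hgT x) : T') : Ω) ∈ P'
    rw [congr_apply_apply, isoEquiv_apply, isoEquiv_apply, ← hgP, apply_mem_imgS_iff hg hP₁ x.2,
      apply_mem_imgS_iff hg hP₁ (α x).2]
    exact mem_stabAut.1 (hA₁le hα).2 x
  have hBp : IsPGroup p ((autInducedBy (normalizerIn S T₁ ⊓ normalizerIn S P₁) T₁).map
      (MulAut.congr (isoEquiv hg hgT)).toMonoidHom) := hA₁p.map _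
  obtain ⟨γ, hγ, hγconj⟩ := h.syl.exists_conj_le hBle hBp
  have hγm : Mor F T' (autFun T' γ) := (mem_autGroup_iff hT'S γ).1 hγ.1
  have hh' : Mor F T₁ (autFun T' γ ∘ g) := hg.comp hγm hmaps
  have hh'T : imgS T₁ (autFun T' γ ∘ g) = T' := by
    rw [hg.imgS_comp hγm hmaps, hgT, imgS_autFun hγm]
  have hγP : imgS P' (autFun T' γ) = P' := by
    ext y
    rw [(hγm.restrict h.le).mem_imgS]
    constructor
    · rintro ⟨x, hx, rfl⟩
      rw [autFun_of_mem γ (h.le hx)]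
      exact (mem_stabAut.1 hγ.2 ⟨x, h.le hx⟩).1 hx
    · intro hy
      have hyT : y ∈ T' := h.le hy
      refine ⟨autFun T' γ⁻¹ y, ?_, autFun_apply_inv γ hyT⟩
      rw [autFun_of_mem γ⁻¹ hyT]
      apply (mem_stabAut.1 hγ.2 (γ⁻¹ ⟨y, hyT⟩)).2
      rw [MulAut.apply_inv_self]
      exact hy
  have hh'P : imgS P₁ (autFun T' γ ∘ g) = P' := by
    rw [(hg.restrict hP₁).imgS_comp hγm (fun x hx => hmaps x (hP₁ hx)), hgP, hγP]
  have hT₁D : T₁ ≤ normalizerIn S T₁ ⊓ normalizerIn S P₁ :=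
    le_inf (Cfsg.Agent.H86.le_normalizerIn hT₁S) hT₁
  obtain ⟨f', hf', hf'eq⟩ := receptive_extend h.rc hh' hh'T hT₁D (fun d hd => by
    have hdS : d ∈ S := (mem_normalizerIn_iff.1 hd.1).1
    have hdT : d ∈ Subgroup.normalizer (T₁ : Set Ω) := (mem_normalizerIn_iff.1 hd.1).2
    refine ⟨hdS, hdT, ?_⟩
    obtain ⟨α, hα⟩ := exists_conjAut hdT
    have hαA : α ∈ autInducedBy (normalizerIn S T₁ ⊓ normalizerIn S P₁) T₁ :=
      (Cfsg.Agent.H86.mem_autInducedBy_iff _ T₁ α).2 ⟨d, hd, hα⟩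
    have hb := hγconj _ (Subgroup.mem_map_of_mem _ hαA)
    obtain ⟨s, hs, Hs⟩ := (Cfsg.Agent.H86.mem_autInducedBy_iff _ T' _).1 hb
    refine ⟨s, (mem_normalizerIn_iff.1 hs.1).1, fun x hx => ?_⟩
    have h3 := Hs (γ (isoEquiv hg hgT ⟨x, hx⟩))
    rw [MulAut.mul_apply, MulAut.mul_apply, MulAut.inv_apply_self] at h3
    have h4 : (MulAut.congr (isoEquiv hg hgT)).toMonoidHom α (isoEquiv hg hgT ⟨x, hx⟩) =
        isoEquiv hg hgT (α ⟨x, hx⟩) := congr_apply_apply _ α _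
    rw [h4] at h3
    have e1 : isoEquiv hg hgT ⟨x, hx⟩ = ⟨g x, hmaps x hx⟩ :=
      Subtype.ext (isoEquiv_apply hg hgT ⟨x, hx⟩)
    have hdx : d * x * d⁻¹ ∈ T₁ := conj_mem_of_mem_normalizer hdT hx
    have e2 : isoEquiv hg hgT (α ⟨x, hx⟩) = ⟨g (d * x * d⁻¹), hmaps _ hdx⟩ := by
      apply Subtype.ext
      rw [isoEquiv_apply, hα]
    show autFun T' γ (g (d * x * d⁻¹)) = s * autFun T' γ (g x) * s⁻¹
    rw [autFun_of_mem γ (hmaps x hx), autFun_of_mem γ (hmaps _ hdx), ← e1, ← e2, h3])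
  refine ⟨f', hf', ?_, ?_⟩
  · rw [(hf'.restrict hT₁D).imgS_congr hf'eq]
    exact hh'T
  · rw [(hf'.restrict (hP₁.trans hT₁D)).imgS_congr (fun x hx => hf'eq x (hP₁ hx))]
    exact hh'P

end Cfsg.Agent.Lib.Helper30.BC
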