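import Cfsg.Agent.Lib.Helper30.Generation
import Cfsg.Agent.H1.PQLemma

/-!
# Generation by centralizers of co-cyclic subgroups (helper30)

Coprime action of an abelian group `A` on `K`:
* `genSet_eq` : relative form of `genCent_eq` (the elements `x ^ p`, `y ^ p` only centralize `K`).
* `genCo_eq` : `K = ⟨C_K(B) : A₀ ≤ B ≤ A, A / B cyclic⟩` when `A₀` centralizes `K`.
* `genCoComm_eq` : `[K, A] = ⟨[C_K(B), A] : B ≤ A, A / B cyclic⟩`.
-/

set_option autoImplicit false

namespace Cfsg.Agent.Lib.Helper30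

open Cfsg
open scoped Pointwise commutatorElement

variable {G : Type*} [Group G]

/-- An element of `N(N) ∩ N(M)` centralizing `N` acts trivially on the section `N / M`. -/
theorem secHom_eq_one_of_mem_centralizer (N M : Subgroup G) [(M.subgroupOf N).Normal]
    (T : ↥(Subgroup.normalizer (N : Set G) ⊓ Subgroup.normalizer (M : Set G)))
    (hT : (T : G) ∈ Subgroup.centralizer (N : Set G)) : secHom N M T = 1 := by
  apply DFunLike.ext
  intro v
  induction v using QuotientGroup.induction_on with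
  | H n =>
    rw [secHom_mk]
    show _ = QuotientGroup.mk n
    congr 1
    ext
    rw [conjHom_apply]
    have := Subgroup.mem_centralizer_iff.mp hT n n.2
    rw [← this, mul_inv_cancel_right]

/-- Fixed points on an abelian section; the `p`-th powers of `x`, `y` only centralize `N`. -/
theorem exists_fixed_coset' [Finite G] {p : ℕ} [Fact p.Prime] {N M : Subgroup G}
    (hNM : N ≤ Subgroup.normalizer (M : Set G)) (hab : ⁅N, N⁆ ≤ M) (hne : ¬ N ≤ M)
    (hcop : (Nat.card N).Coprime p) {x y : G} (hxy : x * y = y * x)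
    (hx : x ^ p ∈ Subgroup.centralizer (N : Set G))
    (hy : y ^ p ∈ Subgroup.centralizer (N : Set G))
    (hxN : x ∈ Subgroup.normalizer (N : Set G)) (hyN : y ∈ Subgroup.normalizer (N : Set G))
    (hxM : x ∈ Subgroup.normalizer (M : Set G)) (hyM : y ∈ Subgroup.normalizer (M : Set G)) :
    ∃ i j : ℕ, ¬ (p ∣ i ∧ p ∣ j) ∧ ∃ k ∈ N, k ∉ M ∧
      (x ^ i * y ^ j) * k * (x ^ i * y ^ j)⁻¹ * k⁻¹ ∈ M := by
  by_contra hcon
  apply hne
  have hn : (M.subgroupOf N).Normal := Subgroup.normal_subgroupOf_of_le_normalizer hNM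
  have hV : ∀ a b : ↥N ⧸ M.subgroupOf N, a * b = b * a := by
    intro a b
    induction a using QuotientGroup.induction_on with
    | H a =>
      induction b using QuotientGroup.induction_on with
      | H b =>
        rw [← QuotientGroup.mk_mul, ← QuotientGroup.mk_mul, QuotientGroup.eq, Subgroup.mem_subgroupOf]
        apply hab
        have h1 : (((a * b)⁻¹ * (b * a) : N) : G) = ⁅(b : G)⁻¹, (a : G)⁻¹⁆ := by
          rw [commutatorElement_def]
          push_cast
          group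
        rw [h1]
        exact Subgroup.commutator_mem_commutator (N.inv_mem b.2) (N.inv_mem a.2)
  have hcopV : (Nat.card (↥N ⧸ M.subgroupOf N)).Coprime p := by
    have h1 : Nat.card (↥N ⧸ M.subgroupOf N) ∣ Nat.card N := by
      have := Subgroup.card_quotient_dvd_card (M.subgroupOf N)
      exact this
    exact Nat.Coprime.coprime_dvd_left h1 hcop
  set X : ↥(Subgroup.normalizer (N : Set G) ⊓ Subgroup.normalizer (M : Set G)) :=
    ⟨x, Subgroup.mem_inf.mpr ⟨hxN, hxM⟩⟩ with hX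
  set Y : ↥(Subgroup.normalizer (N : Set G) ⊓ Subgroup.normalizer (M : Set G)) :=
    ⟨y, Subgroup.mem_inf.mpr ⟨hyN, hyM⟩⟩ with hY
  have hXY : X * Y = Y * X := Subtype.ext hxy
  have hfg : Commute (secHom N M X) (secHom N M Y) := by
    show secHom N M X * secHom N M Y = secHom N M Y * secHom N M X
    rw [← map_mul, ← map_mul, hXY]
  have hf : (secHom N M X) ^ p = 1 := by
    rw [← map_pow]
    exact secHom_eq_one_of_mem_centralizer N M (X ^ p) (by rw [Subgroup.coe_pow]; exact hx)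
  have hg : (secHom N M Y) ^ p = 1 := by
    rw [← map_pow]
    exact secHom_eq_one_of_mem_centralizer N M (Y ^ p) (by rw [Subgroup.coe_pow]; exact hy)
  have key := eq_one_of_fixedPointFree' hV hcopV hfg hf hg (fun i j hij v hv => ?_)
  · intro k hk
    have := key (QuotientGroup.mk ⟨k, hk⟩)
    rw [QuotientGroup.eq_one_iff, Subgroup.mem_subgroupOf] at this
    exact this
  · induction v using QuotientGroup.induction_on with
    | H n =>
      by_contra hv1
      apply hcon
      rw [QuotientGroup.eq_one_iff, Subgroup.mem_subgroupOf] at hv1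
      refine ⟨i, j, hij, n, n.2, hv1, ?_⟩
      rw [← map_pow, ← map_pow, ← map_mul, secHom_mk, QuotientGroup.eq, Subgroup.mem_subgroupOf] at hv
      have h1 : ((((conjHom N ((X ^ i * Y ^ j : ↥(Subgroup.normalizer (N : Set G) ⊓ Subgroup.normalizer (M : Set G))) : G) (Subgroup.mem_inf.mp (X ^ i * Y ^ j).2).1) n)⁻¹ * n : N) : G)
          = ((x ^ i * y ^ j) * n * (x ^ i * y ^ j)⁻¹)⁻¹ * (n : G) := by
        rw [Subgroup.coe_mul, Subgroup.coe_inv, conjHom_apply]
        simp [hX, hY]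
      rw [h1] at hv
      have h2 := (Subgroup.mem_normalizer_iff.mp (hNM n.2) _).mp (M.inv_mem hv)
      have h3 : (n : G) * (((x ^ i * y ^ j) * n * (x ^ i * y ^ j)⁻¹)⁻¹ * (n : G))⁻¹ * (n : G)⁻¹
          = (x ^ i * y ^ j) * n * (x ^ i * y ^ j)⁻¹ * (n : G)⁻¹ := by group
      rw [h3] at h2
      exact h2

/-! ### The subgroup generated by the centralizers of the elements of a set -/

/-- `⟨C_K(a) : a ∈ S⟩`. -/
def genSet (S : Set G) (K : Subgroup G) : Subgroup G :=
  ⨆ a ∈ S, K ⊓ Subgroup.centralizer {a}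

theorem genSet_le (S : Set G) (K : Subgroup G) : genSet S K ≤ K :=
  iSup₂_le fun _ _ => inf_le_left

theorem genSet_mono (S : Set G) {K₁ K₂ : Subgroup G} (h : K₁ ≤ K₂) :
    genSet S K₁ ≤ genSet S K₂ :=
  iSup₂_mono fun _ _ => inf_le_inf_right _ h

theorem le_genSet {S : Set G} (K : Subgroup G) {a : G} (ha : a ∈ S) :
    K ⊓ Subgroup.centralizer {a} ≤ genSet S K :=
  le_iSup₂ (f := fun a (_ : a ∈ S) => K ⊓ Subgroup.centralizer {a}) a ha

/-- If `C` normalizes every member of a family, it normalizes the join. -/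
theorem le_normalizer_biSup {ι : Type*} (s : Set ι) (f : ι → Subgroup G) (C : Subgroup G)
    (h : ∀ i ∈ s, C ≤ Subgroup.normalizer (f i : Set G)) :
    C ≤ Subgroup.normalizer ((⨆ i ∈ s, f i : Subgroup G) : Set G) := by
  have key : ∀ c ∈ C, ∀ z ∈ (⨆ i ∈ s, f i : Subgroup G), c * z * c⁻¹ ∈ (⨆ i ∈ s, f i : Subgroup G) := by
    intro c hc z hz
    have hle : (⨆ i ∈ s, f i : Subgroup G)
        ≤ (⨆ i ∈ s, f i : Subgroup G).comap (MulAut.conj c).toMonoidHom := by
      apply iSup₂_le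
      intro i hi w hw
      rw [Subgroup.mem_comap]
      have : c * w * c⁻¹ ∈ f i := (Subgroup.mem_normalizer_iff.mp (h i hi hc) w).mp hw
      exact le_iSup₂ (f := fun i (_ : i ∈ s) => f i) i hi this
    exact hle hz
  intro b hb
  rw [Subgroup.mem_normalizer_iff]
  intro z
  constructor
  · exact key b hb z
  · intro hz
    have := key b⁻¹ (C.inv_mem hb) _ hz
    simpa [mul_assoc] using this

theorem le_normalizer_genSet {A K : Subgroup G} {S : Set G}
    (hS : ∀ a ∈ S, ∀ b ∈ A, a * b = b * a) (hAK : A ≤ Subgroup.normalizer (K : Set G)) :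
    A ≤ Subgroup.normalizer (genSet S K : Set G) := by
  apply le_normalizer_biSup
  intro a ha b hb
  exact Subgroup.inf_normalizer_le_normalizer_inf
    (Subgroup.mem_inf.mpr ⟨hAK hb, mem_normalizer_centralizer_singleton (hS a ha b hb)⟩)

open scoped IsMulCommutative in
/-- Relative form of `genCent_eq`: `K = ⟨C_K(a) : a ∈ S⟩` as soon as `S ⊆ A` contains all
`x ^ i * y ^ j` with `(i, j) ≢ (0, 0)` mod `p`, where `x ^ p` and `y ^ p` centralize `K`. -/
theorem genSet_eq [Finite G] {A : Subgroup G} [hAc : IsMulCommutative A] {p : ℕ} (hp : p.Prime)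
    (hpA : p ∣ Nat.card A) {x y : G} (hxA : x ∈ A) (hyA : y ∈ A) {S : Set G}
    (hSA : ∀ a ∈ S, a ∈ A) (hS : ∀ i j : ℕ, ¬ (p ∣ i ∧ p ∣ j) → x ^ i * y ^ j ∈ S) :
    ∀ (n : ℕ) (K : Subgroup G), Nat.card K = n → A ≤ Subgroup.normalizer (K : Set G) →
      (Nat.card A).Coprime (Nat.card K) → x ^ p ∈ Subgroup.centralizer (K : Set G) →
      y ^ p ∈ Subgroup.centralizer (K : Set G) → genSet S K = K := by
  have hp' : Fact p.Prime := ⟨hp⟩
  have hcomm : ∀ a ∈ A, ∀ b ∈ A, a * b = b * a := by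
    intro a ha b hb
    have := mul_comm (⟨a, ha⟩ : A) ⟨b, hb⟩
    exact congrArg Subtype.val this
  have hxy : x * y = y * x := hcomm x hxA y hyA
  intro n
  induction n using Nat.strong_induction_on with
  | _ n ih =>
  intro K hKn hAK hcop hxK hyK
  by_contra hne
  have hMK : genSet S K ≤ K := genSet_le S K
  have hMlt : genSet S K < K := lt_of_le_of_ne hMK hne
  have hAM : A ≤ Subgroup.normalizer (genSet S K : Set G) :=
    le_normalizer_genSet (fun a ha b hb => hcomm a (hSA a ha) b hb) hAK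
  have hprop : ∀ K₁ : Subgroup G, K₁ < K → A ≤ Subgroup.normalizer (K₁ : Set G) →
      K₁ ≤ genSet S K := by
    intro K₁ hlt hAK₁
    have h1 : genSet S K₁ = K₁ := ih (Nat.card K₁) (hKn ▸ card_lt_card_of_lt hlt) K₁ rfl hAK₁
      (Nat.Coprime.coprime_dvd_right (Subgroup.card_dvd_of_le hlt.le) hcop)
      (Subgroup.centralizer_le (SetLike.coe_subset_coe.mpr hlt.le) hxK)
      (Subgroup.centralizer_le (SetLike.coe_subset_coe.mpr hlt.le) hyK)
    rw [← h1]
    exact genSet_mono S hlt.le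
  have hAsolv : Group.IsSolvable A := inferInstance
  -- `K` is a `q`-group for some prime `q`
  have hKp : ∃ q : ℕ, q.Prime ∧ IsPGroup q K := by
    by_contra hcon
    push Not at hcon
    apply hne
    apply le_antisymm hMK
    rw [← Subgroup.relIndex_eq_one]
    by_contra h1
    obtain ⟨q, hq, hqdvd⟩ := Nat.exists_prime_and_dvd h1
    have hq' : Fact q.Prime := ⟨hq⟩
    obtain ⟨P, hP⟩ := coprime_exists_invariant_sylow A K hAK hcop (Or.inl hAsolv) q
    have hP'K : (P : Subgroup K).map K.subtype ≤ K := by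
      rintro z ⟨w, -, rfl⟩
      exact w.2
    have hP'ne : (P : Subgroup K).map K.subtype ≠ K := by
      intro h
      apply hcon q hq
      have h2 : IsPGroup q ((P : Subgroup K).map K.subtype) := P.isPGroup'.map K.subtype
      rwa [h] at h2
    have hP'M := hprop _ (lt_of_le_of_ne hP'K hP'ne) hP
    have h2 : (genSet S K).relIndex K ∣ ((P : Subgroup K).map K.subtype).relIndex K :=
      Subgroup.relIndex_dvd_of_le_left K hP'M
    have h3 : ((P : Subgroup K).map K.subtype).relIndex K = (P : Subgroup K).index := by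
      show (((P : Subgroup K).map K.subtype).comap K.subtype).index = _
      rw [Subgroup.comap_map_eq_self_of_injective (Subgroup.subtype_injective K)]
    have h4 : ¬ q ∣ (P : Subgroup K).index := P.not_dvd_index
    exact h4 (h3 ▸ hqdvd.trans h2)
  obtain ⟨q, hq, hKq⟩ := hKp
  have hq' : Fact q.Prime := ⟨hq⟩
  have hKne : K ≠ ⊥ := by
    intro h
    rw [h] at hMlt
    exact not_lt_bot hMlt
  have hKsolv : Group.IsSolvable K := by
    have : Group.IsNilpotent K := hKq.isNilpotent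
    infer_instance
  have hK' : ⁅K, K⁆ ≤ genSet S K := by
    apply hprop
    · exact Cfsg.Agent.H1.commutator_lt_of_isSolvable K hKne
    · exact Cfsg.Agent.H1.le_normalizer_commutator A K K hAK hAK
  have hKM : K ≤ Subgroup.normalizer (genSet S K : Set G) := by
    have key : ∀ c ∈ K, ∀ z ∈ genSet S K, c * z * c⁻¹ ∈ genSet S K := by
      intro c hc z hz
      have e : c * z * c⁻¹ = ⁅c, z⁆ * z := by rw [commutatorElement_def]; group
      rw [e]
      exact Subgroup.mul_mem _ (hK' (Subgroup.commutator_mem_commutator hc (hMK hz))) hz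
    intro c hc
    rw [Subgroup.mem_normalizer_iff]
    intro z
    constructor
    · exact key c hc z
    · intro hz
      have := key c⁻¹ (K.inv_mem hc) _ hz
      simpa [mul_assoc] using this
  have hcopK : (Nat.card K).Coprime p :=
    (Nat.Coprime.coprime_dvd_left hpA hcop).symm
  obtain ⟨i, j, hij, k, hkK, hkM, hfix⟩ := exists_fixed_coset' hKM hK' (not_le_of_gt hMlt) hcopK
    hxy hxK hyK (hAK hxA) (hAK hyA) (hAM hxA) (hAM hyA)
  have haA : x ^ i * y ^ j ∈ A := A.mul_mem (A.pow_mem hxA i) (A.pow_mem hyA j)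
  have haS := hS i j hij
  have hzA : Subgroup.zpowers (x ^ i * y ^ j) ≤ A := Subgroup.zpowers_le.mpr haA
  have hcopa : (Nat.card (Subgroup.zpowers (x ^ i * y ^ j))).Coprime (Nat.card K) :=
    Nat.Coprime.coprime_dvd_left (Subgroup.card_dvd_of_le hzA) hcop
  obtain ⟨c, hc, hkc⟩ := Cfsg.Agent.H1.coprime_fixed_points_quotient
    (Subgroup.zpowers (x ^ i * y ^ j)) K hcopa (Or.inr hKsolv) (genSet S K) hMK hKM
    (hzA.trans hAM) k hkK (zpowers_commutator_mem (hAM haA) hfix)
  have hcM : c ∈ genSet S K := by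
    apply le_genSet K haS
    refine Subgroup.mem_inf.mpr ⟨(Subgroup.mem_inf.mp hc).1, ?_⟩
    exact Subgroup.centralizer_le (Set.singleton_subset_iff.mpr (Subgroup.mem_zpowers _))
      (Subgroup.mem_inf.mp hc).2
  apply hkM
  have h := (genSet S K).mul_mem hcM ((genSet S K).inv_mem hkc)
  simpa using h

/-! ### Co-cyclic subgroups -/

/-- `⟨C_K(B) : A₀ ≤ B ≤ A, A / B cyclic⟩`. -/
def genCo (A A₀ K : Subgroup G) : Subgroup G :=
  ⨆ B ∈ {B : Subgroup G | A₀ ≤ B ∧ B ≤ A ∧ ∃ a ∈ A, B ⊔ Subgroup.zpowers a = A},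
    K ⊓ Subgroup.centralizer (B : Set G)

theorem genCo_le (A A₀ K : Subgroup G) : genCo A A₀ K ≤ K :=
  iSup₂_le fun _ _ => inf_le_left

theorem genCo_mono (A : Subgroup G) {A₀ A₁ K₁ K : Subgroup G} (hA : A₀ ≤ A₁) (hK : K₁ ≤ K) :
    genCo A A₁ K₁ ≤ genCo A A₀ K :=
  iSup₂_le fun B hB => le_iSup₂_of_le B ⟨hA.trans hB.1, hB.2⟩ (inf_le_inf_right _ hK)

open scoped IsMulCommutative in
/-- If `A / A₀` is not cyclic, it contains a copy of `C_p × C_p`. -/
theorem exists_independent_mod [Finite G] {A A₀ : Subgroup G} [hAc : IsMulCommutative A]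
    (hA₀ : A₀ ≤ A) (hcyc : ¬ ∃ a ∈ A, A₀ ⊔ Subgroup.zpowers a = A) :
    ∃ p : ℕ, p.Prime ∧ p ∣ Nat.card A ∧ ∃ x ∈ A, ∃ y ∈ A, x ^ p ∈ A₀ ∧ y ^ p ∈ A₀ ∧
      ∀ i j : ℕ, ¬ (p ∣ i ∧ p ∣ j) → x ^ i * y ^ j ∉ A₀ := by
  have hQ : ¬ IsCyclic (↥A ⧸ A₀.subgroupOf A) := by
    intro hc
    obtain ⟨g, hg⟩ := hc.exists_generator
    obtain ⟨a, rfl⟩ := QuotientGroup.mk_surjective g
    apply hcyc
    refine ⟨a, a.2, le_antisymm (sup_le hA₀ (Subgroup.zpowers_le.mpr a.2)) ?_⟩
    intro b hb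
    obtain ⟨n, hn⟩ := Subgroup.mem_zpowers_iff.mp (hg (QuotientGroup.mk ⟨b, hb⟩))
    rw [← QuotientGroup.mk_zpow, QuotientGroup.eq, Subgroup.mem_subgroupOf] at hn
    have : b = (a : G) ^ n * (((a ^ n)⁻¹ * ⟨b, hb⟩ : A) : G) := by
      push_cast
      group
    rw [this]
    exact Subgroup.mul_mem _ (Subgroup.mem_sup_right (Subgroup.zpow_mem_zpowers _ _))
      (Subgroup.mem_sup_left hn)
  obtain ⟨p, hp, x', y', hx', hy', hx1', hyx'⟩ := exists_independent_of_not_isCyclic hQ
  obtain ⟨x, rfl⟩ := QuotientGroup.mk_surjective x'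
  obtain ⟨y, rfl⟩ := QuotientGroup.mk_surjective y'
  have hp' : Fact p.Prime := ⟨hp⟩
  refine ⟨p, hp, ?_, x, x.2, y, y.2, ?_, ?_, ?_⟩
  · have h1 : orderOf (QuotientGroup.mk x : ↥A ⧸ A₀.subgroupOf A) = p :=
      orderOf_eq_prime hx' hx1'
    have h2 := orderOf_dvd_natCard (QuotientGroup.mk x : ↥A ⧸ A₀.subgroupOf A)
    rw [h1] at h2
    exact h2.trans (Subgroup.card_quotient_dvd_card _)
  · have h := hx'
    rw [← QuotientGroup.mk_pow, QuotientGroup.eq_one_iff, Subgroup.mem_subgroupOf] at h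
    simpa using h
  · have h := hy'
    rw [← QuotientGroup.mk_pow, QuotientGroup.eq_one_iff, Subgroup.mem_subgroupOf] at h
    simpa using h
  · intro i j hij hmem
    apply pow_mul_pow_ne_one hp hx' hy' hx1' hyx' hij
    rw [← QuotientGroup.mk_pow, ← QuotientGroup.mk_pow, ← QuotientGroup.mk_mul,
      QuotientGroup.eq_one_iff, Subgroup.mem_subgroupOf]
    simpa using hmem

open scoped IsMulCommutative in
/-- Coprime action of an abelian group `A` on `K`, `A₀ ≤ A` centralizing `K`: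
`K = ⟨C_K(B) : A₀ ≤ B ≤ A, A / B cyclic⟩`. -/
theorem genCo_eq [Finite G] {A : Subgroup G} [hAc : IsMulCommutative A] (A₀ : Subgroup G) :
    A₀ ≤ A → ∀ K : Subgroup G, A ≤ Subgroup.normalizer (K : Set G) →
      (Nat.card A).Coprime (Nat.card K) → A₀ ≤ Subgroup.centralizer (K : Set G) →
      genCo A A₀ K = K := by
  have hcomm : ∀ a ∈ A, ∀ b ∈ A, a * b = b * a := by
    intro a ha b hb
    have := mul_comm (⟨a, ha⟩ : A) ⟨b, hb⟩
    exact congrArg Subtype.val this
  induction A₀ using WellFoundedGT.induction with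
  | ind A₀ ih =>
  intro hA₀ K hAK hcop hA₀K
  apply le_antisymm (genCo_le A A₀ K)
  by_cases hcyc : ∃ a ∈ A, A₀ ⊔ Subgroup.zpowers a = A
  · refine le_trans ?_ (le_iSup₂ (f := fun B (_ : B ∈ {B : Subgroup G | A₀ ≤ B ∧ B ≤ A ∧
      ∃ a ∈ A, B ⊔ Subgroup.zpowers a = A}) => K ⊓ Subgroup.centralizer (B : Set G)) A₀
      ⟨le_rfl, hA₀, hcyc⟩)
    exact le_inf le_rfl (Subgroup.le_centralizer_iff.mp hA₀K)
  · obtain ⟨p, hp, hpA, x, hxA, y, hyA, hx, hy, hind⟩ := exists_independent_mod hA₀ hcyc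
    have hgen : genSet {a : G | a ∈ A ∧ a ∉ A₀} K = K :=
      genSet_eq hp hpA hxA hyA (S := {a : G | a ∈ A ∧ a ∉ A₀}) (fun a ha => ha.1)
        (fun i j hij => ⟨A.mul_mem (A.pow_mem hxA i) (A.pow_mem hyA j), hind i j hij⟩)
        (Nat.card K) K rfl hAK hcop (hA₀K hx) (hA₀K hy)
    refine hgen.ge.trans ?_
    apply iSup₂_le
    intro a ha
    have hlt : A₀ < A₀ ⊔ Subgroup.zpowers a := by
      refine lt_of_le_of_ne le_sup_left (fun h => ha.2 ?_)
      rw [h]; exact Subgroup.mem_sup_right (Subgroup.mem_zpowers a)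
    have hA₁ : A₀ ⊔ Subgroup.zpowers a ≤ A := sup_le hA₀ (Subgroup.zpowers_le.mpr ha.1)
    have hAK₁ : A ≤ Subgroup.normalizer ((K ⊓ Subgroup.centralizer {a} : Subgroup G) : Set G) := by
      intro b hb
      exact Subgroup.inf_normalizer_le_normalizer_inf
        (Subgroup.mem_inf.mpr ⟨hAK hb, mem_normalizer_centralizer_singleton (hcomm a ha.1 b hb)⟩)
    have hcop₁ : (Nat.card A).Coprime (Nat.card (K ⊓ Subgroup.centralizer {a} : Subgroup G)) :=
      Nat.Coprime.coprime_dvd_right (Subgroup.card_dvd_of_le inf_le_left) hcop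
    have hcent₁ : A₀ ⊔ Subgroup.zpowers a
        ≤ Subgroup.centralizer ((K ⊓ Subgroup.centralizer {a} : Subgroup G) : Set G) := by
      refine sup_le (hA₀K.trans (Subgroup.centralizer_le
        (SetLike.coe_subset_coe.mpr inf_le_left))) ?_
      rw [Subgroup.zpowers_le, Subgroup.mem_centralizer_iff]
      intro z hz
      exact Subgroup.mem_centralizer_singleton_iff.mp (Subgroup.mem_inf.mp hz).2
    have h1 := ih (A₀ ⊔ Subgroup.zpowers a) hlt hA₁ _ hAK₁ hcop₁ hcent₁
    rw [← h1]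
    exact genCo_mono A le_sup_left inf_le_left

open scoped IsMulCommutative in
/-- Coprime action of an abelian group `A` on `K`:
`[K, A] = ⟨[C_K(B), A] : B ≤ A, A / B cyclic⟩`. -/
theorem genCoComm_eq [Finite G] {A K : Subgroup G} [hAc : IsMulCommutative A]
    (hAK : A ≤ Subgroup.normalizer (K : Set G)) (hcop : (Nat.card A).Coprime (Nat.card K)) :
    (⨆ B ∈ {B : Subgroup G | B ≤ A ∧ ∃ a ∈ A, B ⊔ Subgroup.zpowers a = A},
      ⁅K ⊓ Subgroup.centralizer (B : Set G), A⁆) = ⁅K, A⁆ := by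
  have hcomm : ∀ a ∈ A, ∀ b ∈ A, a * b = b * a := by
    intro a ha b hb
    have := mul_comm (⟨a, ha⟩ : A) ⟨b, hb⟩
    exact congrArg Subtype.val this
  have hAsolv : Group.IsSolvable A := inferInstance
  apply le_antisymm
  · exact iSup₂_le fun B _ => Subgroup.commutator_mono inf_le_left le_rfl
  · have hK₁K : ⁅K, A⁆ ≤ K := Cfsg.Agent.H1.commutator_le_of_le_normalizer A K hAK
    have hAK₁ : A ≤ Subgroup.normalizer ((⁅K, A⁆ : Subgroup G) : Set G) :=
      Cfsg.Agent.H1.le_normalizer_commutator A K A hAK Subgroup.le_normalizer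
    have hcop₁ : (Nat.card A).Coprime (Nat.card (⁅K, A⁆ : Subgroup G)) :=
      Nat.Coprime.coprime_dvd_right (Subgroup.card_dvd_of_le hK₁K) hcop
    have hK₁ : ⁅⁅K, A⁆, A⁆ = ⁅K, A⁆ :=
      Cfsg.Agent.H1.coprime_commutator_commutator A K hAK hcop (Or.inl hAsolv)
    generalize hK₁def : (⁅K, A⁆ : Subgroup G) = K₁ at hK₁K hAK₁ hcop₁ hK₁ ⊢
    have hM₁le : (⨆ B ∈ {B : Subgroup G | B ≤ A ∧ ∃ a ∈ A, B ⊔ Subgroup.zpowers a = A},
        ⁅K₁ ⊓ Subgroup.centralizer (B : Set G), A⁆)
        ≤ ⨆ B ∈ {B : Subgroup G | B ≤ A ∧ ∃ a ∈ A, B ⊔ Subgroup.zpowers a = A},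
          ⁅K ⊓ Subgroup.centralizer (B : Set G), A⁆ :=
      iSup₂_mono fun B _ => Subgroup.commutator_mono (inf_le_inf_right _ hK₁K) le_rfl
    refine le_trans ?_ hM₁le
    generalize hM₁ : (⨆ B ∈ {B : Subgroup G | B ≤ A ∧ ∃ a ∈ A, B ⊔ Subgroup.zpowers a = A},
        ⁅K₁ ⊓ Subgroup.centralizer (B : Set G), A⁆) = M₁
    have hAB : ∀ B : Subgroup G, B ≤ A → A ≤ Subgroup.centralizer (B : Set G) := by
      intro B hB a ha
      rw [Subgroup.mem_centralizer_iff]
      intro b hb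
      exact hcomm b (hB hb) a ha
    have hAKB : ∀ B : Subgroup G, B ≤ A → A ≤ Subgroup.normalizer
        ((K₁ ⊓ Subgroup.centralizer (B : Set G) : Subgroup G) : Set G) := by
      intro B hB a ha
      exact Subgroup.inf_normalizer_le_normalizer_inf
        (Subgroup.mem_inf.mpr ⟨hAK₁ ha, Subgroup.le_normalizer (hAB B hB ha)⟩)
    have hCM : K₁ ⊓ Subgroup.centralizer (A : Set G) ≤ Subgroup.normalizer (M₁ : Set G) := by
      rw [← hM₁]
      apply le_normalizer_biSup
      intro B hB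
      apply Cfsg.Agent.H1.le_normalizer_commutator
      · intro c hc
        refine Subgroup.inf_normalizer_le_normalizer_inf (Subgroup.mem_inf.mpr
          ⟨Subgroup.le_normalizer (Subgroup.mem_inf.mp hc).1, Subgroup.le_normalizer ?_⟩)
        exact Subgroup.centralizer_le (SetLike.coe_subset_coe.mpr hB.1) (Subgroup.mem_inf.mp hc).2
      · exact inf_le_right.trans (Subgroup.centralizer_le_normalizer (A : Set G))
    have hAM : A ≤ Subgroup.normalizer (M₁ : Set G) := by
      rw [← hM₁]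
      apply le_normalizer_biSup
      intro B hB
      exact Cfsg.Agent.H1.le_normalizer_commutator A _ A (hAKB B hB.1) Subgroup.le_normalizer
    have hK₁le : K₁ ≤ M₁ ⊔ (K₁ ⊓ Subgroup.centralizer (A : Set G)) := by
      have h1 : genCo A ⊥ K₁ = K₁ := genCo_eq ⊥ bot_le K₁ hAK₁ hcop₁ bot_le
      refine h1.ge.trans ?_
      apply iSup₂_le
      intro B hB
      have h2 := Cfsg.Agent.H1.coprime_commutator_sup_centralizer A
        (K₁ ⊓ Subgroup.centralizer (B : Set G)) (hAKB B hB.2.1)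
        (Nat.Coprime.coprime_dvd_right (Subgroup.card_dvd_of_le inf_le_left) hcop₁)
        (Or.inl hAsolv)
      refine h2.ge.trans (sup_le (le_sup_of_le_left ?_) (le_sup_of_le_right ?_))
      · rw [← hM₁]
        exact le_iSup₂ (f := fun B (_ : B ∈ {B : Subgroup G | B ≤ A ∧
          ∃ a ∈ A, B ⊔ Subgroup.zpowers a = A}) => ⁅K₁ ⊓ Subgroup.centralizer (B : Set G), A⁆)
          B ⟨hB.2.1, hB.2.2⟩
      · exact inf_le_inf_right _ inf_le_left
    refine hK₁.ge.trans ?_
    rw [Subgroup.commutator_le]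
    intro g hg a ha
    have h1 : g ∈ ((M₁ ⊔ (K₁ ⊓ Subgroup.centralizer (A : Set G)) : Subgroup G) : Set G) :=
      hK₁le hg
    rw [Subgroup.coe_mul_of_right_le_normalizer_left M₁ _ hCM] at h1
    obtain ⟨m, hm, c, hc, rfl⟩ := Set.mem_mul.mp h1
    have hca : c * a = a * c :=
      ((Subgroup.mem_centralizer_iff.mp (Subgroup.mem_inf.mp hc).2) a ha).symm
    have h3 : c * a * c⁻¹ = a := by rw [hca]; group
    have h2 : ⁅m * c, a⁆ = m * (a * m⁻¹ * a⁻¹) := by
      rw [commutatorElement_def]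
      calc m * c * a * (m * c)⁻¹ * a⁻¹ = m * (c * a * c⁻¹) * m⁻¹ * a⁻¹ := by group
        _ = m * (a * m⁻¹ * a⁻¹) := by rw [h3]; group
    rw [h2]
    exact M₁.mul_mem hm ((Subgroup.mem_normalizer_iff.mp (hAM ha) _).mp (M₁.inv_mem hm))

end Cfsg.Agent.Lib.Helper30
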