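import Cfsg.Agent.Lib.Helper30.Generation
import Cfsg.Agent.H1.PQLemma
import Cfsg.Agent.H1.Index

/-!
# Coprime action on abelian sections; fixed points of prime index (helper30)
-/

set_option autoImplicit false

namespace Cfsg.Agent.Lib.Helper30

open Finset

section Abstract

variable {V : Type*} [CommGroup V] {A : Type*} [Group A] [Fintype A]

/-- The norm map of an action of `A` on the abelian group `V`. -/
noncomputable def actNorm (F : A →* Monoid.End V) (v : V) : V := ∏ a : A, F a v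

theorem actNorm_mul (F : A →* Monoid.End V) (v w : V) :
    actNorm F (v * w) = actNorm F v * actNorm F w := by
  unfold actNorm
  rw [← Finset.prod_mul_distrib]
  exact Finset.prod_congr rfl fun a _ => map_mul (F a) v w

theorem actNorm_one (F : A →* Monoid.End V) : actNorm F (1 : V) = 1 := by
  unfold actNorm
  simp

theorem actNorm_inv (F : A →* Monoid.End V) (v : V) : actNorm F v⁻¹ = (actNorm F v)⁻¹ := by
  unfold actNorm
  rw [← Finset.prod_inv_distrib]
  exact Finset.prod_congr rfl fun a _ => map_inv (F a) v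

theorem actNorm_apply (F : A →* Monoid.End V) (b : A) (v : V) :
    actNorm F (F b v) = actNorm F v := by
  unfold actNorm
  have : ∀ a : A, F a (F b v) = F (a * b) v := by
    intro a
    rw [map_mul]
    rfl
  simp_rw [this]
  exact Fintype.prod_equiv (Equiv.mulRight b) _ _ (fun a => rfl)

theorem actNorm_fixed (F : A →* Monoid.End V) {v : V} (hv : ∀ a : A, F a v = v) :
    actNorm F v = v ^ Fintype.card A := by
  unfold actNorm
  simp_rw [hv]
  rw [Finset.prod_const, Finset.card_univ]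

/-- Coprime action on an abelian group: `C_V(A) ∩ [V, A] = 1`. -/
theorem eq_one_of_fixed_of_mem_closure [Finite V] (F : A →* Monoid.End V)
    (hcop : (Nat.card A).Coprime (Nat.card V)) {v : V} (hv : ∀ a : A, F a v = v)
    (hmem : v ∈ Subgroup.closure {w : V | ∃ (a : A) (u : V), w = F a u * u⁻¹}) : v = 1 := by
  have hker : actNorm F v = 1 := by
    refine Subgroup.closure_induction (p := fun w _ => actNorm F w = 1) ?_ ?_ ?_ ?_ hmem
    · rintro w ⟨a, u, rfl⟩
      rw [actNorm_mul, actNorm_apply, actNorm_inv, mul_inv_cancel]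
    · exact actNorm_one F
    · intro x y _ _ hx hy
      rw [actNorm_mul, hx, hy, mul_one]
    · intro x _ hx
      rw [actNorm_inv, hx, inv_one]
  rw [actNorm_fixed F hv] at hker
  have h1 : orderOf v ∣ Fintype.card A := orderOf_dvd_of_pow_eq_one hker
  have h2 : orderOf v ∣ Nat.card V := orderOf_dvd_natCard v
  rw [← Nat.card_eq_fintype_card] at h1
  have : orderOf v = 1 := Nat.eq_one_of_dvd_coprimes hcop h1 h2
  exact orderOf_eq_one_iff.mp this

end Abstract

/-- Group version. -/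
theorem eq_one_of_fixed_of_mem_closure' {V : Type*} [Group V] [Finite V]
    (hV : ∀ a b : V, a * b = b * a) {A : Type*} [Group A] [Finite A]
    (F : A →* Monoid.End V)
    (hcop : (Nat.card A).Coprime (Nat.card V)) {v : V} (hv : ∀ a : A, F a v = v)
    (hmem : v ∈ Subgroup.closure {w : V | ∃ (a : A) (u : V), w = F a u * u⁻¹}) : v = 1 := by
  let _ : CommGroup V := { ‹Group V› with mul_comm := hV }
  have : Fintype A := Fintype.ofFinite A
  exact eq_one_of_fixed_of_mem_closure F hcop hv hmem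

variable {G : Type*} [Group G]

open scoped commutatorElement

/-- Coprime action on an abelian section `D / M` with `D / M = [D / M, A]`: no fixed points. -/
theorem mem_of_fixed_of_abelian_section [Finite G] {A D M : Subgroup G}
    (hAD : A ≤ Subgroup.normalizer (D : Set G)) (hAM : A ≤ Subgroup.normalizer (M : Set G))
    (hDM : D ≤ Subgroup.normalizer (M : Set G)) (hMD : M ≤ D) (hab : ⁅D, D⁆ ≤ M)
    (hcop : (Nat.card A).Coprime (Nat.card D)) (hgen : D ≤ ⁅D, A⁆ ⊔ M)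
    {k : G} (hk : k ∈ D) (hfix : ∀ a ∈ A, a * k * a⁻¹ * k⁻¹ ∈ M) : k ∈ M := by
  have hn : (M.subgroupOf D).Normal := Subgroup.normal_subgroupOf_of_le_normalizer hDM
  have hV : ∀ a b : ↥D ⧸ M.subgroupOf D, a * b = b * a := by
    intro a b
    induction a using QuotientGroup.induction_on with
    | H a =>
      induction b using QuotientGroup.induction_on with
      | H b =>
        rw [← QuotientGroup.mk_mul, ← QuotientGroup.mk_mul, QuotientGroup.eq, Subgroup.mem_subgroupOf]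
        apply hab
        have h1 : (((a * b)⁻¹ * (b * a) : D) : G) = ⁅(b : G)⁻¹, (a : G)⁻¹⁆ := by
          rw [commutatorElement_def]
          push_cast
          group
        rw [h1]
        exact Subgroup.commutator_mem_commutator (D.inv_mem b.2) (D.inv_mem a.2)
  have hcopV : (Nat.card A).Coprime (Nat.card (↥D ⧸ M.subgroupOf D)) :=
    Nat.Coprime.coprime_dvd_right (Subgroup.card_quotient_dvd_card (M.subgroupOf D)) hcop
  have hAT : A ≤ Subgroup.normalizer (D : Set G) ⊓ Subgroup.normalizer (M : Set G) :=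
    le_inf hAD hAM
  set F : ↥A →* Monoid.End (↥D ⧸ M.subgroupOf D) :=
    (secHom D M).comp (Subgroup.inclusion hAT) with hF
  have hFmk : ∀ (a : A) (d : D), F a (QuotientGroup.mk d)
      = QuotientGroup.mk (conjHom D (a : G) (hAD a.2) d) := fun a d => rfl
  -- the subgroup of elements of `D` whose class lies in `[V, A]`
  set S : Subgroup (↥D ⧸ M.subgroupOf D) :=
    Subgroup.closure {w | ∃ (a : A) (u : ↥D ⧸ M.subgroupOf D), w = F a u * u⁻¹} with hS
  have hW : ⁅D, A⁆ ⊔ M ≤ (S.comap (QuotientGroup.mk' (M.subgroupOf D))).map D.subtype := by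
    apply sup_le
    · rw [Subgroup.commutator_le]
      intro d hd a ha
      refine ⟨⟨d, hd⟩ * (conjHom D a (hAD ha) ⟨d, hd⟩)⁻¹, ?_, ?_⟩
      · show QuotientGroup.mk' (M.subgroupOf D) _ ∈ S
        rw [map_mul, map_inv]
        have h1 : QuotientGroup.mk' (M.subgroupOf D) (conjHom D a (hAD ha) ⟨d, hd⟩)
            = F ⟨a, ha⟩ (QuotientGroup.mk ⟨d, hd⟩) := rfl
        rw [h1]
        have h2 : F ⟨a, ha⟩ (QuotientGroup.mk ⟨d, hd⟩) * (QuotientGroup.mk ⟨d, hd⟩)⁻¹ ∈ S :=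
          Subgroup.subset_closure ⟨⟨a, ha⟩, _, rfl⟩
        have h3 := S.inv_mem h2
        rw [mul_inv_rev, inv_inv] at h3
        exact h3
      · show ((⟨d, hd⟩ * (conjHom D a (hAD ha) ⟨d, hd⟩)⁻¹ : D) : G) = ⁅d, a⁆
        rw [Subgroup.coe_mul, Subgroup.coe_inv, conjHom_apply, commutatorElement_def]
        group
    · intro m hm
      refine ⟨⟨m, hMD hm⟩, ?_, rfl⟩
      show QuotientGroup.mk' (M.subgroupOf D) _ ∈ S
      have : QuotientGroup.mk' (M.subgroupOf D) ⟨m, hMD hm⟩ = 1 := by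
        rw [QuotientGroup.mk'_apply, QuotientGroup.eq_one_iff, Subgroup.mem_subgroupOf]
        exact hm
      rw [this]
      exact S.one_mem
  obtain ⟨x, hxS, hxk⟩ := hW (hgen hk)
  have hxk' : x = ⟨k, hk⟩ := Subtype.ext hxk
  subst hxk'
  have hmem : (QuotientGroup.mk ⟨k, hk⟩ : ↥D ⧸ M.subgroupOf D) ∈ S := hxS
  have hv : ∀ a : A, F a (QuotientGroup.mk ⟨k, hk⟩) = QuotientGroup.mk ⟨k, hk⟩ := by
    intro a
    rw [hFmk, QuotientGroup.eq, Subgroup.mem_subgroupOf]
    have h1 := hfix a a.2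
    have h2 := (Subgroup.mem_normalizer_iff.mp (hDM (D.inv_mem hk)) _).mp (M.inv_mem h1)
    have h3 : ((((conjHom D (a : G) (hAD a.2)) ⟨k, hk⟩)⁻¹ * ⟨k, hk⟩ : D) : G)
        = k⁻¹ * ((a : G) * k * (a : G)⁻¹ * k⁻¹)⁻¹ * k⁻¹⁻¹ := by
      rw [Subgroup.coe_mul, Subgroup.coe_inv, conjHom_apply]
      group
    rw [h3]
    exact h2
  have key := eq_one_of_fixed_of_mem_closure' hV F hcopV hv hmem
  rw [QuotientGroup.eq_one_iff, Subgroup.mem_subgroupOf] at key
  exact key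


/-- A `p`-group that is generated by its derived subgroup and one element is abelian. -/
theorem derived_eq_bot_of_cyclic_quotient [Finite G] {p : ℕ} [Fact p.Prime] {D : Subgroup G}
    (hD : IsPGroup p D) {x : G} (hx : x ∈ D) (hgen : D ≤ Subgroup.zpowers x ⊔ ⁅D, D⁆) :
    ⁅D, D⁆ = ⊥ := by
  by_contra hne
  have hD'D : ⁅D, D⁆ ≤ D := Subgroup.commutator_le_self D
  have hDD' : D ≤ Subgroup.normalizer ((⁅D, D⁆ : Subgroup G) : Set G) :=
    Cfsg.Agent.H1.le_normalizer_commutator D D D Subgroup.le_normalizer Subgroup.le_normalizer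
  have hD'p : IsPGroup p (⁅D, D⁆ : Subgroup G) := hD.to_le hD'D
  have hlt : ⁅⁅D, D⁆, D⁆ < ⁅D, D⁆ :=
    Cfsg.Agent.H1.commutator_lt_of_pgroup p D ⁅D, D⁆ hD hD'p hDD' hne
  apply not_le_of_gt hlt
  have hDL : D ≤ Subgroup.normalizer ((⁅⁅D, D⁆, D⁆ : Subgroup G) : Set G) :=
    Cfsg.Agent.H1.le_normalizer_commutator D ⁅D, D⁆ D hDD' Subgroup.le_normalizer
  have hdec : ∀ u ∈ D, ∃ i : ℤ, ∃ d ∈ ⁅D, D⁆, u = x ^ i * d := by
    intro u hu
    have h1 := hgen hu
    have hxn : Subgroup.zpowers x ≤ Subgroup.normalizer ((⁅D, D⁆ : Subgroup G) : Set G) :=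
      (Subgroup.zpowers_le.mpr hx).trans hDD'
    have h2 : (u : G) ∈ ((Subgroup.zpowers x ⊔ ⁅D, D⁆ : Subgroup G) : Set G) := h1
    rw [Subgroup.coe_mul_of_left_le_normalizer_right (Subgroup.zpowers x) ⁅D, D⁆ hxn] at h2
    obtain ⟨y, hy, d, hd, rfl⟩ := Set.mem_mul.mp h2
    obtain ⟨i, rfl⟩ := Subgroup.mem_zpowers_iff.mp hy
    exact ⟨i, d, hd, rfl⟩
  rw [Subgroup.commutator_le]
  intro u hu v hv
  obtain ⟨i, d₁, hd₁, rfl⟩ := hdec u hu
  obtain ⟨j, d₂, hd₂, rfl⟩ := hdec v hv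
  have hxi : x ^ i ∈ D := D.zpow_mem hx i
  have hxj : x ^ j ∈ D := D.zpow_mem hx j
  have e : ⁅x ^ i * d₁, x ^ j * d₂⁆
      = (x ^ i * ⁅d₁, x ^ j * d₂⁆ * (x ^ i)⁻¹) * (x ^ j * ⁅x ^ i, d₂⁆ * (x ^ j)⁻¹) := by
    simp only [commutatorElement_def]
    group
  rw [e]
  refine Subgroup.mul_mem _ ?_ ?_
  · apply (Subgroup.mem_normalizer_iff.mp (hDL hxi) _).mp
    exact Subgroup.commutator_mem_commutator hd₁ (D.mul_mem hxj (hD'D hd₂))
  · apply (Subgroup.mem_normalizer_iff.mp (hDL hxj) _).mp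
    rw [Subgroup.commutator_comm]
    exact Subgroup.commutator_mem_commutator hxi hd₂

/-- A subgroup of index `p` meets a `p`-subgroup not contained in it in a subgroup of index `p`. -/
theorem relIndex_eq_prime [Finite G] {p : ℕ} (hp : p.Prime) {C P K : Subgroup G} (hPK : P ≤ K)
    (hPp : IsPGroup p P) (hidx : C.relIndex K = p) (hPC : ¬ P ≤ C) : C.relIndex P = p := by
  have : Fact p.Prime := ⟨hp⟩
  have h1 : C.relIndex P ≤ C.relIndex K :=
    Subgroup.relIndex_le_of_le_right hPK (by rw [hidx]; exact hp.ne_zero)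
  have h2 : C.relIndex P ∣ Nat.card P := Subgroup.relIndex_dvd_card C P
  have h3 : C.relIndex P ≠ 1 := fun h => hPC (Subgroup.relIndex_eq_one.mp h)
  obtain ⟨n, hn⟩ := IsPGroup.iff_card.mp hPp
  rw [hn] at h2
  obtain ⟨j, -, hj'⟩ := (Nat.dvd_prime_pow hp).mp h2
  rw [hidx, hj'] at h1
  rw [hj'] at h3 ⊢
  rcases j with _ | _ | j
  · simp at h3
  · simp
  · exfalso
    have h4 : p ^ 1 < p ^ (j + 1 + 1) := Nat.pow_lt_pow_right hp.one_lt (by omega)
    rw [pow_one] at h4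
    omega

/-- Coprime action with fixed points of prime index `p`: the commutator has order `p`. -/
theorem card_commutator_of_relIndex_prime [Finite G] (A K : Subgroup G)
    (hAK : A ≤ Subgroup.normalizer (K : Set G))
    (hcop : (Nat.card A).Coprime (Nat.card K)) (hsolv : Group.IsSolvable A ∨ Group.IsSolvable K)
    (p : ℕ) (hp : p.Prime) (hidx : (K ⊓ Subgroup.centralizer (A : Set G)).relIndex K = p) :
    Nat.card (⁅K, A⁆ : Subgroup G) = p := by
  have : Fact p.Prime := ⟨hp⟩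
  obtain ⟨P₀, hP₀⟩ := coprime_exists_invariant_sylow A K hAK hcop hsolv p
  have hPK : (P₀ : Subgroup K).map K.subtype ≤ K := by
    rintro z ⟨w, -, rfl⟩
    exact w.2
  have hPp : IsPGroup p ((P₀ : Subgroup K).map K.subtype) := P₀.isPGroup'.map K.subtype
  have hPC : ¬ (P₀ : Subgroup K).map K.subtype ≤ K ⊓ Subgroup.centralizer (A : Set G) := by
    intro h
    have h2 := Subgroup.relIndex_dvd_of_le_left K h
    have h3 : ((P₀ : Subgroup K).map K.subtype).relIndex K = (P₀ : Subgroup K).index := by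
      show (((P₀ : Subgroup K).map K.subtype).comap K.subtype).index = _
      rw [Subgroup.comap_map_eq_self_of_injective (Subgroup.subtype_injective K)]
    have h4 : ¬ p ∣ (P₀ : Subgroup K).index := P₀.not_dvd_index
    rw [hidx, h3] at h2
    exact h4 h2
  have hrelP := relIndex_eq_prime hp hPK hPp hidx hPC
  have hdec : ∀ k ∈ K, ∃ u ∈ (P₀ : Subgroup K).map K.subtype,
      ∃ c ∈ K ⊓ Subgroup.centralizer (A : Set G), k = u * c := by
    intro k hk
    have h1 : ((K ⊓ Subgroup.centralizer (A : Set G)).subgroupOf K).relIndex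
        (((P₀ : Subgroup K).map K.subtype).subgroupOf K)
        = ((K ⊓ Subgroup.centralizer (A : Set G)).subgroupOf K).index := by
      rw [Subgroup.relIndex_subgroupOf hPK, hrelP]
      exact hidx.symm
    obtain ⟨x, hx, y, hy, hxy⟩ := Cfsg.Agent.H1.exists_mul_of_relIndex_eq_index _ _ h1 ⟨k, hk⟩
    exact ⟨x, hx, y, hy, congrArg Subtype.val hxy⟩
  have hDP : ⁅K, A⁆ ≤ (P₀ : Subgroup K).map K.subtype := by
    rw [Subgroup.commutator_le]
    intro k hk a ha
    obtain ⟨u, hu, c, hc, rfl⟩ := hdec k hk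
    have hca : a * c = c * a := by
      have := (Subgroup.mem_inf.mp hc).2
      rw [Subgroup.mem_centralizer_iff] at this
      exact this a ha
    have e : ⁅u * c, a⁆ = u * (a * u⁻¹ * a⁻¹) := by
      rw [commutatorElement_def]
      have e1 : u * c * a * (u * c)⁻¹ * a⁻¹ = u * (c * a) * c⁻¹ * u⁻¹ * a⁻¹ := by group
      rw [e1, ← hca]
      group
    rw [e]
    exact Subgroup.mul_mem _ hu
      ((Subgroup.mem_normalizer_iff.mp (hP₀ ha) _).mp (Subgroup.inv_mem _ hu))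
  have hDp : IsPGroup p (⁅K, A⁆ : Subgroup G) := hPp.to_le hDP
  have hDK : ⁅K, A⁆ ≤ K := Cfsg.Agent.H1.commutator_le_of_le_normalizer A K hAK
  have hAD : A ≤ Subgroup.normalizer ((⁅K, A⁆ : Subgroup G) : Set G) :=
    Cfsg.Agent.H1.le_normalizer_commutator A K A hAK Subgroup.le_normalizer
  have hDD : ⁅⁅K, A⁆, A⁆ = ⁅K, A⁆ := Cfsg.Agent.H1.coprime_commutator_commutator A K hAK hcop hsolv
  have hcopD : (Nat.card A).Coprime (Nat.card (⁅K, A⁆ : Subgroup G)) :=
    Nat.Coprime.coprime_dvd_right (Subgroup.card_dvd_of_le hDK) hcop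
  have hDne : (⁅K, A⁆ : Subgroup G) ≠ ⊥ := by
    intro h
    have h1 := Cfsg.Agent.H1.coprime_commutator_sup_centralizer A K hAK hcop hsolv
    rw [h, bot_sup_eq] at h1
    have h2 : (K ⊓ Subgroup.centralizer (A : Set G)).relIndex K = 1 :=
      Subgroup.relIndex_eq_one.mpr (by rw [h1])
    rw [hidx] at h2
    exact hp.one_lt.ne' h2
  -- the fixed points in `D`
  have hDC : ¬ (⁅K, A⁆ : Subgroup G) ≤ K ⊓ Subgroup.centralizer (A : Set G) := by
    intro h
    apply hDne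
    rw [← hDD, Subgroup.commutator_eq_bot_iff_le_centralizer]
    exact h.trans inf_le_right
  have hrelD := relIndex_eq_prime hp hDK hDp hidx hDC
  have hC₁ : (⁅K, A⁆ ⊓ Subgroup.centralizer (A : Set G)).relIndex ⁅K, A⁆ = p := by
    rw [← hrelD, ← Subgroup.inf_relIndex_right (K ⊓ Subgroup.centralizer (A : Set G)) ⁅K, A⁆]
    congr 1
    rw [inf_comm K, inf_assoc, inf_of_le_right hDK, inf_comm]
  -- the derived subgroup
  have hD'D : ⁅⁅K, A⁆, ⁅K, A⁆⁆ ≤ ⁅K, A⁆ := Subgroup.commutator_le_self _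
  have hDD' : ⁅K, A⁆ ≤ Subgroup.normalizer ((⁅⁅K, A⁆, ⁅K, A⁆⁆ : Subgroup G) : Set G) :=
    Cfsg.Agent.H1.le_normalizer_commutator _ _ _ Subgroup.le_normalizer Subgroup.le_normalizer
  have hAD' : A ≤ Subgroup.normalizer ((⁅⁅K, A⁆, ⁅K, A⁆⁆ : Subgroup G) : Set G) :=
    Cfsg.Agent.H1.le_normalizer_commutator _ _ _ hAD hAD
  have hC₁D' : ⁅K, A⁆ ⊓ Subgroup.centralizer (A : Set G) ≤ ⁅⁅K, A⁆, ⁅K, A⁆⁆ := by
    intro k hk
    refine mem_of_fixed_of_abelian_section hAD hAD' hDD' hD'D le_rfl hcopD ?_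
      (Subgroup.mem_inf.mp hk).1 ?_
    · rw [hDD]
      exact le_sup_left
    · intro a ha
      have := (Subgroup.mem_inf.mp hk).2
      rw [Subgroup.mem_centralizer_iff] at this
      have e : a * k * a⁻¹ * k⁻¹ = 1 := by
        rw [this a ha]
        group
      rw [e]
      exact Subgroup.one_mem _
  have hlt : ⁅⁅K, A⁆, ⁅K, A⁆⁆ < ⁅K, A⁆ :=
    Cfsg.Agent.H1.commutator_lt_of_pgroup p _ _ hDp hDp Subgroup.le_normalizer hDne
  obtain ⟨x, hxD, hxD'⟩ := SetLike.exists_of_lt hlt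
  have hdvd : (⁅⁅K, A⁆, ⁅K, A⁆⁆ : Subgroup G).relIndex ⁅K, A⁆ ∣ p := by
    rw [← hC₁]
    exact Subgroup.relIndex_dvd_of_le_left _ hC₁D'
  have hM : Subgroup.zpowers x ⊔ ⁅⁅K, A⁆, ⁅K, A⁆⁆ ≤ ⁅K, A⁆ :=
    sup_le (Subgroup.zpowers_le.mpr hxD) hD'D
  have hgen : ⁅K, A⁆ ≤ Subgroup.zpowers x ⊔ ⁅⁅K, A⁆, ⁅K, A⁆⁆ := by
    rw [← Subgroup.relIndex_eq_one]
    have h1 := Subgroup.relIndex_mul_relIndex (⁅⁅K, A⁆, ⁅K, A⁆⁆ : Subgroup G)
      (Subgroup.zpowers x ⊔ ⁅⁅K, A⁆, ⁅K, A⁆⁆) ⁅K, A⁆ le_sup_right hM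
    have h2 : (⁅⁅K, A⁆, ⁅K, A⁆⁆ : Subgroup G).relIndex (Subgroup.zpowers x ⊔ ⁅⁅K, A⁆, ⁅K, A⁆⁆) ≠ 1 := by
      intro h
      apply hxD'
      exact (Subgroup.relIndex_eq_one.mp h) (Subgroup.mem_sup_left (Subgroup.mem_zpowers x))
    rw [← h1] at hdvd
    have h3 : (⁅⁅K, A⁆, ⁅K, A⁆⁆ : Subgroup G).relIndex (Subgroup.zpowers x ⊔ ⁅⁅K, A⁆, ⁅K, A⁆⁆) ∣ p :=
      (Dvd.intro _ rfl).trans hdvd
    have h4 := (Nat.dvd_prime hp).mp h3
    rcases h4 with h4 | h4
    · exact absurd h4 h2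
    · rw [h4] at hdvd
      have h5 : p * (Subgroup.zpowers x ⊔ ⁅⁅K, A⁆, ⁅K, A⁆⁆).relIndex ⁅K, A⁆ ∣ p * 1 := by
        rw [mul_one]
        exact hdvd
      exact Nat.dvd_one.mp (Nat.dvd_of_mul_dvd_mul_left hp.pos h5)
  have hD'bot := derived_eq_bot_of_cyclic_quotient hDp hxD hgen
  have hC₁bot : ⁅K, A⁆ ⊓ Subgroup.centralizer (A : Set G) = ⊥ := by
    rw [← le_bot_iff, ← hD'bot]
    exact hC₁D'
  rw [hC₁bot, Subgroup.relIndex_bot_left] at hC₁
  exact hC₁

end Cfsg.Agent.Lib.Helper30
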