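import Cfsg.Agent.Lib.Helper30.Trans3

/-!
# Bender–Glauberman §7: Theorem 7.5, part (d) and the subnormal induction (helper30)
-/

set_option autoImplicit false

namespace Cfsg.Agent.Lib.Helper30

open Cfsg
open scoped Pointwise commutatorElement

variable {G : Type*} [Group G]

/-- Frattini argument: if `L` is transitive on a family `Ω` stable under `N_G(P)`, then
`N_G(P) = L (N_G(P) ∩ N_G(Q))` for `Q ∈ Ω`. -/
theorem normalizer_eq_sup_of_transitive {P L Q : Subgroup G}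
    (hLP : L ≤ Subgroup.normalizer (P : Set G)) {Ω : Set (Subgroup G)}
    (hΩ : ∀ g ∈ Subgroup.normalizer (P : Set G), Q.map (MulAut.conj g).toMonoidHom ∈ Ω)
    (htr : ∀ Q₂ ∈ Ω, ∃ k ∈ L, Q₂ = Q.map (MulAut.conj k).toMonoidHom) :
    Subgroup.normalizer (P : Set G)
      = L ⊔ (Subgroup.normalizer (P : Set G) ⊓ Subgroup.normalizer (Q : Set G)) := by
  apply le_antisymm
  · intro g hg
    obtain ⟨k, hk, hkQ⟩ := htr _ (hΩ g hg)
    have h1 : k⁻¹ * g ∈ Subgroup.normalizer (Q : Set G) :=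
      inv_mul_mem_normalizer_of_map_conj_eq hkQ
    have h2 : k⁻¹ * g ∈ Subgroup.normalizer (P : Set G) :=
      Subgroup.mul_mem _ (Subgroup.inv_mem _ (hLP hk)) hg
    have h3 : g = k * (k⁻¹ * g) := by group
    rw [h3]
    exact Subgroup.mul_mem _ (Subgroup.mem_sup_left hk)
      (Subgroup.mem_sup_right (Subgroup.mem_inf.mpr ⟨h2, h1⟩))
  · exact sup_le hLP inf_le_left

/-- If `N = L S` with `L` normalized by `N`, then `N' ≤ L S'`. -/
theorem commutator_le_sup_commutator {N L S : Subgroup G} (hSN : S ≤ N)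
    (hNL : N ≤ Subgroup.normalizer (L : Set G)) (hN : N = L ⊔ S) :
    ⁅N, N⁆ ≤ L ⊔ ⁅S, S⁆ := by
  have hSL : S ≤ Subgroup.normalizer (L : Set G) := hSN.trans hNL
  have hmem : ∀ a ∈ N, ∃ l ∈ L, ∃ s ∈ S, a = l * s := by
    intro a ha
    rw [hN] at ha
    have h1 : (a : G) ∈ ((L ⊔ S : Subgroup G) : Set G) := ha
    rw [Subgroup.coe_mul_of_right_le_normalizer_left L S hSL] at h1
    obtain ⟨l, hl, s, hs, rfl⟩ := Set.mem_mul.mp h1
    exact ⟨l, hl, s, hs, rfl⟩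
  have hconj : ∀ n ∈ N, ∀ l ∈ L, n * l * n⁻¹ ∈ L := fun n hn l hl =>
    (Subgroup.le_normalizer_iff.mp hNL) n hn l hl
  rw [Subgroup.commutator_le]
  intro a ha b hb
  obtain ⟨l₁, hl₁, s₁, hs₁, rfl⟩ := hmem a ha
  obtain ⟨l₂, hl₂, s₂, hs₂, rfl⟩ := hmem b hb
  have hs₁N := hSN hs₁
  have hs₂N := hSN hs₂
  have hc : ⁅s₁, s₂⁆ ∈ ⁅S, S⁆ := Subgroup.commutator_mem_commutator hs₁ hs₂
  have hcN : ⁅s₁, s₂⁆ ∈ N := by
    rw [commutatorElement_def]
    exact N.mul_mem (N.mul_mem (N.mul_mem hs₁N hs₂N) (N.inv_mem hs₁N)) (N.inv_mem hs₂N)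
  have key : ⁅l₁ * s₁, l₂ * s₂⁆
      = l₁ * (s₁ * l₂ * s₁⁻¹) * ((s₁ * s₂ * s₁⁻¹) * l₁⁻¹ * (s₁ * s₂ * s₁⁻¹)⁻¹)
          * (⁅s₁, s₂⁆ * l₂⁻¹ * ⁅s₁, s₂⁆⁻¹) * ⁅s₁, s₂⁆ := by
    simp only [commutatorElement_def]
    group
  rw [key]
  refine Subgroup.mul_mem _ (Subgroup.mem_sup_left ?_) (Subgroup.mem_sup_right hc)
  refine L.mul_mem (L.mul_mem (L.mul_mem hl₁ (hconj _ hs₁N _ hl₂)) ?_) ?_
  · exact hconj _ (N.mul_mem (N.mul_mem hs₁N hs₂N) (N.inv_mem hs₁N)) _ (L.inv_mem hl₁)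
  · exact hconj _ hcN _ (L.inv_mem hl₂)

/-- Theorem 7.5(d), focal part: `P ∩ N_G(P)' ≤ N_G(Q)'`. -/
theorem inf_commutator_normalizer_le [Finite G] {P L Q : Subgroup G}
    (hLC : L ≤ Subgroup.centralizer (P : Set G))
    (hNL : Subgroup.normalizer (P : Set G) ≤ Subgroup.normalizer (L : Set G))
    (hcop : (Nat.card P).Coprime (Nat.card L))
    (hN : Subgroup.normalizer (P : Set G)
      = L ⊔ (Subgroup.normalizer (P : Set G) ⊓ Subgroup.normalizer (Q : Set G))) :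
    P ⊓ ⁅Subgroup.normalizer (P : Set G), Subgroup.normalizer (P : Set G)⁆
      ≤ ⁅Subgroup.normalizer (Q : Set G), Subgroup.normalizer (Q : Set G)⁆ := by
  set N := Subgroup.normalizer (P : Set G) with hNdef
  set S := N ⊓ Subgroup.normalizer (Q : Set G) with hSdef
  have hLN : L ≤ N := hLC.trans (centralizer_le_normalizer' P)
  have hSN : S ≤ N := inf_le_left
  have hcomm := commutator_le_sup_commutator hSN hNL hN
  have hSS : ⁅S, S⁆ ≤ ⁅Subgroup.normalizer (Q : Set G), Subgroup.normalizer (Q : Set G)⁆ :=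
    Subgroup.commutator_mono inf_le_right inf_le_right
  have hSSS : ⁅S, S⁆ ≤ S := Subgroup.commutator_le_self S
  intro x hx
  obtain ⟨hxP, hxN⟩ := Subgroup.mem_inf.mp hx
  have hx' := hcomm hxN
  have hSSL : ⁅S, S⁆ ≤ Subgroup.normalizer (L : Set G) := hSSS.trans (hSN.trans hNL)
  have h1 : (x : G) ∈ ((L ⊔ ⁅S, S⁆ : Subgroup G) : Set G) := hx'
  rw [Subgroup.coe_mul_of_right_le_normalizer_left L ⁅S, S⁆ hSSL] at h1
  obtain ⟨l, hl, c, hc, hlc⟩ := Set.mem_mul.mp h1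
  -- `l` commutes with `x`
  have hlx : Commute l x := by
    have := hLC hl
    rw [Subgroup.mem_centralizer_iff] at this
    exact (this x hxP).symm
  -- `c = l⁻¹ x`
  have hc' : c = l⁻¹ * x := by rw [← hlc]; group
  set m := Nat.card L with hm
  have hlm : l ^ m = 1 := by
    have : (⟨l, hl⟩ : L) ^ Nat.card L = 1 := pow_card_eq_one'
    have h2 : (((⟨l, hl⟩ : L) ^ Nat.card L : L) : G) = ((1 : L) : G) := congrArg Subtype.val this
    rw [Subgroup.coe_pow, Subgroup.coe_one] at h2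
    exact h2
  have hcm : c ^ m = x ^ m := by
    rw [hc', (hlx.inv_left).mul_pow, inv_pow, hlm, inv_one, one_mul]
  have hxm : x ^ m ∈ ⁅S, S⁆ := hcm ▸ Subgroup.pow_mem _ hc m
  have hord : orderOf x ∣ Nat.card P := by
    have : orderOf (⟨x, hxP⟩ : P) ∣ Nat.card P := orderOf_dvd_natCard _
    rwa [Subgroup.orderOf_mk] at this
  have hcop' : Nat.Coprime m (orderOf x) := (Nat.Coprime.coprime_dvd_left hord hcop).symm
  obtain ⟨n, hn⟩ := exists_pow_eq_self_of_coprime hcop'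
  rw [← hn]
  exact hSS (Subgroup.pow_mem _ hxm n)

/-! ### The subnormal induction -/

/-- Theorem 7.5 (b), (c) by induction along a subnormal series. -/
theorem thm75_bc_aux (hG : IsMinSimpleOddOrder G) [Finite G] {P : Subgroup G} (hP : P ≠ ⊤)
    {q : ℕ} (hq : q.Prime) (H : Subgroup P) (hsn : H.IsSubnormal) :
    ∀ A : Subgroup G, A = H.map P.subtype → TransitivityHypothesis A → ¬ q ∣ Nat.card A →
      primesNotDvd (Nat.card P) = primesNotDvd (Nat.card A) →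
      (∀ Q₁ ∈ maxInvSubgroups ⊤ A {q}, ∀ Q₂ ∈ maxInvSubgroups ⊤ A {q},
        ∃ k ∈ piCoreOf (primesNotDvd (Nat.card A)) (Subgroup.centralizer (A : Set G)),
          Q₂ = Q₁.map (MulAut.conj k).toMonoidHom) →
      (∀ Q₁ ∈ maxInvSubgroups ⊤ P {q}, ∀ Q₂ ∈ maxInvSubgroups ⊤ P {q},
        ∃ k ∈ piCoreOf (primesNotDvd (Nat.card P)) (Subgroup.centralizer (P : Set G)),
          Q₂ = Q₁.map (MulAut.conj k).toMonoidHom) ∧
      maxInvSubgroups ⊤ P {q} ⊆ maxInvSubgroups ⊤ A {q} := by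
  induction hsn with
  | top =>
    intro A hAe hTH hqA hπ htr
    have e : A = P := by
      rw [hAe]
      ext x
      simp
    subst e
    exact ⟨htr, subset_rfl⟩
  | step H K h_le hSubn hN ih =>
    intro A hAe hTH hqA hπ htr
    set B := K.map P.subtype with hB
    have hAB : A ≤ B := by rw [hAe]; exact Subgroup.map_mono h_le
    have hBP : B ≤ P := by
      rintro x ⟨k, -, rfl⟩
      exact k.2
    have hBtop : B ≠ ⊤ := fun h => hP (top_le_iff.mp (h ▸ hBP))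
    have hnorm : B ≤ Subgroup.normalizer (A : Set G) := by
      rw [Subgroup.le_normalizer_iff]
      rintro x ⟨k, hk, rfl⟩ a ha
      rw [hAe] at ha ⊢
      obtain ⟨h, hh, rfl⟩ := ha
      have h1 : (⟨h, h_le hh⟩ : K) ∈ H.subgroupOf K := by
        rw [Subgroup.mem_subgroupOf]; exact hh
      have h2 := hN.conj_mem _ h1 ⟨k, hk⟩
      rw [Subgroup.mem_subgroupOf] at h2
      exact ⟨_, h2, by simp⟩
    have hπB : primesNotDvd (Nat.card B) = primesNotDvd (Nat.card A) :=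
      primesNotDvd_eq_of_le hAB hBP hπ
    have hTHB : TransitivityHypothesis B := transitivityHypothesis_of_le hTH hAB hBtop hπB
    have hqB : ¬ q ∣ Nat.card B := by
      have : q ∈ primesNotDvd (Nat.card A) := ⟨hq, hqA⟩
      rw [← hπB] at this
      exact this.2
    have htrB := trans_of_normal hG hTH hq hqA hAB hnorm hBtop hπB htr
    rw [← hπB] at htrB
    obtain ⟨hb, hc⟩ := ih B rfl hTHB hqB (hπ.trans hπB.symm) htrB
    exact ⟨hb, hc.trans (maxInv_subset_of_normal hG hTH hq hqA hAB hnorm hBtop hπB htr)⟩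

/-- Bender–Glauberman Theorem 7.5. -/
theorem thm75 [Finite G] (hG : IsMinSimpleOddOrder G)
    (A : Subgroup G) (hA : TransitivityHypothesis A) (q : ℕ) (hq : q.Prime)
    (hqA : ¬ q ∣ Nat.card A) (P : Subgroup G) (hP : P ≠ ⊤)
    (hPπ : (∀ r : ℕ, r.Prime → r ∣ Nat.card P → r ∣ Nat.card A)) (hAP : A ≤ P)
    (hsn : (A.subgroupOf P).IsSubnormal)
    (htr : ∀ Q₁ ∈ maxInvSubgroups ⊤ A {q}, ∀ Q₂ ∈ maxInvSubgroups ⊤ A {q},
      ∃ k ∈ piCoreOf (primesNotDvd (Nat.card A)) (Subgroup.centralizer (A : Set G)),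
        Q₂ = Q₁.map (MulAut.conj k).toMonoidHom) :
    piCoreOf (primesNotDvd (Nat.card A)) (Subgroup.centralizer (A : Set G))
        ⊓ Subgroup.centralizer (P : Set G)
      = piCoreOf (primesNotDvd (Nat.card A)) (Subgroup.centralizer (P : Set G)) ∧
    (∀ Q₁ ∈ maxInvSubgroups ⊤ P {q}, ∀ Q₂ ∈ maxInvSubgroups ⊤ P {q},
      ∃ k ∈ piCoreOf (primesNotDvd (Nat.card A)) (Subgroup.centralizer (P : Set G)),
        Q₂ = Q₁.map (MulAut.conj k).toMonoidHom) ∧
    maxInvSubgroups ⊤ P {q} ⊆ maxInvSubgroups ⊤ A {q} ∧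
    ∀ Q ∈ maxInvSubgroups ⊤ P {q},
      P ⊓ ⁅Subgroup.normalizer (P : Set G), Subgroup.normalizer (P : Set G)⁆
          ≤ ⁅Subgroup.normalizer (Q : Set G), Subgroup.normalizer (Q : Set G)⁆ ∧
      Subgroup.normalizer (P : Set G)
        = piCoreOf (primesNotDvd (Nat.card A)) (Subgroup.centralizer (P : Set G))
          ⊔ (Subgroup.normalizer (P : Set G) ⊓ Subgroup.normalizer (Q : Set G)) := by
  have hπ : primesNotDvd (Nat.card P) = primesNotDvd (Nat.card A) := by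
    ext r
    constructor
    · rintro ⟨hr, hrP⟩
      exact ⟨hr, fun h => hrP (dvd_trans h (Subgroup.card_dvd_of_le hAP))⟩
    · rintro ⟨hr, hrA⟩
      exact ⟨hr, fun h => hrA (hPπ r hr h)⟩
  have hAe : A = (A.subgroupOf P).map P.subtype :=
    (Subgroup.map_subgroupOf_eq_of_le hAP).symm
  obtain ⟨hb, hc⟩ := thm75_bc_aux hG hP hq (A.subgroupOf P) hsn A hAe hA hqA hπ htr
  rw [hπ] at hb
  refine ⟨K_inf_centralizer_eq hG hA hAP, hb, hc, fun Q hQ => ?_⟩
  set L := piCoreOf (primesNotDvd (Nat.card A)) (Subgroup.centralizer (P : Set G)) with hL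
  have hLC : L ≤ Subgroup.centralizer (P : Set G) := piCoreOf_le _ _
  have hLN : L ≤ Subgroup.normalizer (P : Set G) := hLC.trans (centralizer_le_normalizer' P)
  have hNL : Subgroup.normalizer (P : Set G) ≤ Subgroup.normalizer (L : Set G) :=
    normalizer_le_normalizer_K _ P
  have hLπ : IsPi (primesNotDvd (Nat.card P)) L := hπ ▸ piCoreOf_isPi _ _
  have hcop : (Nat.card P).Coprime (Nat.card L) := hLπ.coprime.symm
  have hd2 := normalizer_eq_sup_of_transitive hLN (Ω := maxInvSubgroups ⊤ P {q})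
    (fun g hg => map_conj_mem_maxInvSubgroups hg hQ) (fun Q₂ hQ₂ => hb Q hQ Q₂ hQ₂)
  exact ⟨inf_commutator_normalizer_le hLC hNL hcop hd2, hd2⟩

end Cfsg.Agent.Lib.Helper30
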