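import Cfsg.Agent.Lib.Helper30.CoprimeAb
import Cfsg.Agent.Lib.Helper30.Trans4
import Cfsg.Agent.H1.HallHigman

/-!
# Derived subgroups, complements and coprime action (helper30)

* `conj_mem_commutator_of_mem_left`, `le_normalizer_commutator_left'` : `A ≤ N(⁅A, B⁆)`.
* `le_commutator_sup_derived` : if `G = H K`, `H ⊴ G`, `H ∩ K = 1` and `H ≤ G'` then
  `H ≤ [H, K] H'`.
* `le_of_le_sup_derived` : in a solvable group, `L ≤ H ≤ N(L)` and `H ≤ L H'` give `H ≤ L`.
* `complement_commutator_eq` : BG-style statement `H = [H, K]`, `C_H(K) ≤ H'`.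
* `coprime_of_nilpotent_commutator_index_prime`.
-/

set_option autoImplicit false

namespace Cfsg.Agent.Lib.Helper30

open Cfsg
open scoped Pointwise commutatorElement

variable {G : Type*} [Group G]

/-- A commutator subgroup `⁅A, B⁆` is stable under conjugation by elements of `A`. -/
theorem conj_mem_commutator_of_mem_left {A B : Subgroup G} {a x : G} (ha : a ∈ A)
    (hx : x ∈ ⁅A, B⁆) : a * x * a⁻¹ ∈ ⁅A, B⁆ := by
  rw [Subgroup.commutator_def] at hx
  induction hx using Subgroup.closure_induction with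
  | mem y hy =>
    obtain ⟨c, hc, b, hb, rfl⟩ := hy
    have h1 : a * ⁅c, b⁆ * a⁻¹ = ⁅a * c, b⁆ * ⁅a, b⁆⁻¹ := by
      simp only [commutatorElement_def]; group
    rw [h1]
    exact Subgroup.mul_mem _ (Subgroup.commutator_mem_commutator (A.mul_mem ha hc) hb)
      (Subgroup.inv_mem _ (Subgroup.commutator_mem_commutator ha hb))
  | one => simp
  | mul y z _ _ hy hz =>
    have : a * (y * z) * a⁻¹ = (a * y * a⁻¹) * (a * z * a⁻¹) := by group
    rw [this]; exact Subgroup.mul_mem _ hy hz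
  | inv y _ hy =>
    have : a * y⁻¹ * a⁻¹ = (a * y * a⁻¹)⁻¹ := by group
    rw [this]; exact Subgroup.inv_mem _ hy

/-- `A` normalizes `⁅A, B⁆`. -/
theorem le_normalizer_commutator_left' (A B : Subgroup G) :
    A ≤ Subgroup.normalizer ((⁅A, B⁆ : Subgroup G) : Set G) := by
  intro a ha
  rw [Subgroup.mem_normalizer_iff]
  intro x
  constructor
  · exact conj_mem_commutator_of_mem_left ha
  · intro hx
    have := conj_mem_commutator_of_mem_left (A.inv_mem ha) hx
    have h2 : a⁻¹ * (a * x * a⁻¹) * a⁻¹⁻¹ = x := by group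
    rwa [h2] at this

/-- `B` normalizes `⁅A, B⁆`. -/
theorem le_normalizer_commutator_right' (A B : Subgroup G) :
    B ≤ Subgroup.normalizer ((⁅A, B⁆ : Subgroup G) : Set G) := by
  rw [Subgroup.commutator_comm]; exact le_normalizer_commutator_left' B A

/-- If `G = H K` with `H` normal then `⁅H, K⁆` is normal in `G`. -/
theorem commutator_normal_of_sup_eq_top {H K : Subgroup G} (hsup : H ⊔ K = ⊤) :
    (⁅H, K⁆ : Subgroup G).Normal := by
  rw [← Subgroup.normalizer_eq_top_iff, eq_top_iff, ← hsup]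
  exact sup_le (le_normalizer_commutator_left' H K) (le_normalizer_commutator_right' H K)

/-- If `G = H K` with `H ⊴ G`, `H ∩ K = 1` and `H ≤ G'`, then `H ≤ [H, K] H'`. -/
theorem le_commutator_sup_derived {H K : Subgroup G} [hHn : H.Normal] (hsup : H ⊔ K = ⊤)
    (hdisj : H ⊓ K = ⊥) (hHG : H ≤ commutator G) : H ≤ ⁅H, K⁆ ⊔ ⁅H, H⁆ := by
  have hLn : (⁅H, K⁆ : Subgroup G).Normal := commutator_normal_of_sup_eq_top hsup
  have hDn : (⁅H, H⁆ : Subgroup G).Normal := inferInstance
  set M : Subgroup G := ⁅H, K⁆ ⊔ ⁅H, H⁆ with hM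
  have hMn : M.Normal := Subgroup.sup_normal _ _
  have hMH : M ≤ H := sup_le (Subgroup.commutator_le_left H K) (Subgroup.commutator_le_left H H)
  have hdec : ∀ g : G, ∃ h ∈ H, ∃ k ∈ K, g = h * k := by
    intro g
    have hg : g ∈ ((H ⊔ K : Subgroup G) : Set G) := by rw [hsup]; trivial
    rw [Subgroup.normal_mul] at hg
    obtain ⟨h, hh, k, hk, rfl⟩ := Set.mem_mul.mp hg
    exact ⟨h, hh, k, hk, rfl⟩
  -- elements of `H` are central modulo `M`
  have hcent : ∀ h ∈ H, ∀ g : G, ⁅h, g⁆ ∈ M := by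
    intro h hh g
    obtain ⟨h', hh', k, hk, rfl⟩ := hdec g
    have h1 : ⁅h, h' * k⁆ = ⁅h, h'⁆ * (h' * ⁅h, k⁆ * h'⁻¹) := by
      simp only [commutatorElement_def]; group
    rw [h1]
    exact M.mul_mem (Subgroup.mem_sup_right (Subgroup.commutator_mem_commutator hh hh'))
      (hMn.conj_mem _ (Subgroup.mem_sup_left (Subgroup.commutator_mem_commutator hh hk)) h')
  have hcent' : ∀ h ∈ H, ∀ g : G, ⁅g, h⁆ ∈ M := by
    intro h hh g
    have h1 : ⁅g, h⁆ = ⁅h, g⁆⁻¹ := by simp only [commutatorElement_def]; group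
    rw [h1]; exact M.inv_mem (hcent h hh g)
  have hGT : commutator G ≤ M ⊔ K := by
    rw [commutator_def, Subgroup.commutator_le]
    intro x _ y _
    obtain ⟨h₁, hh₁, k₁, hk₁, rfl⟩ := hdec x
    obtain ⟨h₂, hh₂, k₂, hk₂, rfl⟩ := hdec y
    have key : ⁅h₁ * k₁, h₂ * k₂⁆
        = (h₁ * (⁅k₁, h₂⁆ * ⁅h₂, ⁅k₁, k₂⁆⁆) * h₁⁻¹) * ⁅h₁, ⁅k₁, k₂⁆⁆
          * (⁅k₁, k₂⁆ * ⁅h₁, h₂ * k₂⁆ * ⁅k₁, k₂⁆⁻¹) * ⁅k₁, k₂⁆ := by
      simp only [commutatorElement_def]; group
    rw [key]
    refine Subgroup.mul_mem _ (Subgroup.mem_sup_left ?_)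
      (Subgroup.mem_sup_right (K.mul_mem (K.mul_mem (K.mul_mem hk₁ hk₂) (K.inv_mem hk₁))
        (K.inv_mem hk₂)))
    refine M.mul_mem (M.mul_mem (hMn.conj_mem _ (M.mul_mem (hcent' h₂ hh₂ k₁)
      (hcent h₂ hh₂ _)) h₁) (hcent h₁ hh₁ _)) (hMn.conj_mem _ (hcent h₁ hh₁ _) _)
  intro h hh
  have h1 : h ∈ ((M ⊔ K : Subgroup G) : Set G) := hGT (hHG hh)
  rw [Subgroup.normal_mul] at h1
  obtain ⟨m, hm, k, hk, rfl⟩ := Set.mem_mul.mp h1
  have hkH : k ∈ H := by
    have : k = m⁻¹ * (m * k) := by group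
    rw [this]; exact H.mul_mem (H.inv_mem (hMH hm)) hh
  have hk1 : k ∈ H ⊓ K := Subgroup.mem_inf.mpr ⟨hkH, hk⟩
  rw [hdisj, Subgroup.mem_bot] at hk1
  rw [hk1, mul_one]; exact hm

/-- In a solvable group, if `L ≤ H ≤ N(L)` and `H ≤ L H'` then `H ≤ L`. -/
theorem le_of_le_sup_derived [hs : Group.IsSolvable G] {H L : Subgroup G} (hLH : L ≤ H)
    (hHL : H ≤ Subgroup.normalizer (L : Set G)) (h : H ≤ L ⊔ ⁅H, H⁆) : H ≤ L := by
  have key : ∀ n : ℕ, H ≤ L ⊔ (derivedSeries G n ⊓ H) := by
    intro n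
    induction n with
    | zero => simp
    | succ n ih =>
      refine h.trans (sup_le le_sup_left ?_)
      have h1 : ⁅H, H⁆ ≤ ⁅L ⊔ (derivedSeries G n ⊓ H), L ⊔ (derivedSeries G n ⊓ H)⁆ :=
        Subgroup.commutator_mono ih ih
      have hle : L ⊔ (derivedSeries G n ⊓ H) ≤ H := sup_le hLH inf_le_right
      have h2 := commutator_le_sup_commutator (N := L ⊔ (derivedSeries G n ⊓ H)) (L := L)
        (S := derivedSeries G n ⊓ H) le_sup_right (hle.trans hHL) rfl
      refine h1.trans (h2.trans (sup_le le_sup_left (le_trans ?_ le_sup_right)))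
      refine le_inf ?_ ((Subgroup.commutator_mono inf_le_right inf_le_right).trans
        (Subgroup.commutator_le_self H))
      rw [derivedSeries_succ]
      exact Subgroup.commutator_mono inf_le_left inf_le_left
  obtain ⟨n, hn⟩ := hs.solvable
  have := key n
  rw [hn, bot_inf_eq, sup_bot_eq] at this
  exact this

/-- Let `H ⊴ G` be a normal Hall subgroup of a finite solvable group with complement `K`, and
`H ≤ G'`. Then `H = [H, K]` and `C_H(K) ≤ H'`. -/
theorem complement_commutator_eq [Finite G] [Group.IsSolvable G] {H K : Subgroup G}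
    (hHn : H.Normal) (hcop : (Nat.card H).Coprime H.index) (hc : Subgroup.IsComplement' H K)
    (hHG : H ≤ commutator G) :
    H = ⁅H, K⁆ ∧ H ⊓ Subgroup.centralizer (K : Set G) ≤ ⁅H, H⁆ := by
  have hsup : H ⊔ K = ⊤ := hc.sup_eq_top
  have hdisj : H ⊓ K = ⊥ := hc.disjoint.eq_bot
  have hgen : H ≤ ⁅H, K⁆ ⊔ ⁅H, H⁆ := le_commutator_sup_derived hsup hdisj hHG
  have hLn : (⁅H, K⁆ : Subgroup G).Normal := commutator_normal_of_sup_eq_top hsup
  have hLH : ⁅H, K⁆ ≤ H := Subgroup.commutator_le_left H K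
  have hDn : (⁅H, H⁆ : Subgroup G).Normal := inferInstance
  refine ⟨le_antisymm (le_of_le_sup_derived hLH Subgroup.le_normalizer_of_normal hgen) hLH, ?_⟩
  intro k hk
  obtain ⟨hkH, hkC⟩ := Subgroup.mem_inf.mp hk
  have hcop' : (Nat.card K).Coprime (Nat.card H) := by
    rw [← hc.symm.index_eq_card]; exact hcop.symm
  refine mem_of_fixed_of_abelian_section (A := K) (D := H) (M := ⁅H, H⁆)
    Subgroup.le_normalizer_of_normal Subgroup.le_normalizer_of_normal
    Subgroup.le_normalizer_of_normal (Subgroup.commutator_le_left H H) le_rfl hcop' hgen hkH ?_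
  intro a ha
  have h1 : a * k = k * a := (Subgroup.mem_centralizer_iff.mp hkC a ha)
  have h2 : a * k * a⁻¹ * k⁻¹ = 1 := by rw [h1]; group
  rw [h2]; exact Subgroup.one_mem _

/-- If `G'` is nilpotent of prime index in the finite group `G`, then `|G'|` is prime to the
index. -/
theorem coprime_of_nilpotent_commutator_index_prime [Finite G]
    (hnil : Group.IsNilpotent ↥(commutator G)) (hp : (commutator G).index.Prime) :
    (Nat.card ↥(commutator G)).Coprime (commutator G).index := by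
  generalize hpdef : (commutator G).index = p at hp ⊢
  have : Fact p.Prime := ⟨hp⟩
  have hπ : Function.Surjective (QuotientGroup.mk' (pPrimeCore p G)) :=
    QuotientGroup.mk'_surjective _
  have hcomm : commutator (G ⧸ pPrimeCore p G)
      = (commutator G).map (QuotientGroup.mk' (pPrimeCore p G)) := by
    rw [commutator_def, commutator_def, Subgroup.map_commutator,
      Subgroup.map_top_of_surjective _ hπ]
  have hnilR : Group.IsNilpotent ↥(commutator (G ⧸ pPrimeCore p G)) := by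
    rw [hcomm]
    exact Group.nilpotent_of_surjective ((QuotientGroup.mk' (pPrimeCore p G)).subgroupMap (commutator G))
      ((QuotientGroup.mk' (pPrimeCore p G)).subgroupMap_surjective _)
  have hO : pPrimeCore p (G ⧸ pPrimeCore p G) = ⊥ := H1.pPrimeCore_quotient_eq_bot p
  have hpg : IsPGroup p ↥(commutator (G ⧸ pPrimeCore p G)) := by
    have h1 : commutator (G ⧸ pPrimeCore p G) ≤ fittingSubgroup (G ⧸ pPrimeCore p G) :=
      H1.le_fitting _ hnilR
    rw [H1.fitting_eq_pCore_of_pPrimeCore_eq_bot p hO] at h1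
    exact (H1.pCore_isPGroup p).to_le h1
  have hidx : (commutator (G ⧸ pPrimeCore p G)).index ∣ p := by
    have h0 := Subgroup.index_map_dvd (commutator G) hπ
    rw [hpdef] at h0
    rw [hcomm]; exact h0
  have hRp : IsPGroup p (G ⧸ pPrimeCore p G) := by
    obtain ⟨k, hk⟩ := IsPGroup.iff_card.mp hpg
    rcases (Nat.dvd_prime hp).mp hidx with h1 | h1
    · apply IsPGroup.of_card (n := k)
      rw [← Subgroup.card_mul_index (commutator (G ⧸ pPrimeCore p G)), hk, h1, mul_one]
    · apply IsPGroup.of_card (n := k + 1)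
      rw [← Subgroup.card_mul_index (commutator (G ⧸ pPrimeCore p G)), hk, h1, pow_succ]
  have hRtop : IsPGroup p (⊤ : Subgroup (G ⧸ pPrimeCore p G)) := hRp.to_subgroup ⊤
  have hbot : commutator (G ⧸ pPrimeCore p G) = ⊥ := by
    rcases (Nat.dvd_prime hp).mp hidx with h1 | h1
    · have htop : commutator (G ⧸ pPrimeCore p G) = ⊤ := Subgroup.index_eq_one.mp h1
      rw [commutator_def]
      refine derived_eq_bot_of_cyclic_quotient hRtop (x := 1) (Subgroup.one_mem _) ?_
      rw [← commutator_def, htop]; exact le_sup_right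
    · have hne : commutator (G ⧸ pPrimeCore p G) ≠ ⊤ := by
        intro h
        rw [h, Subgroup.index_top] at h1
        exact hp.one_lt.ne h1
      obtain ⟨x, hx⟩ : ∃ x, x ∉ commutator (G ⧸ pPrimeCore p G) := by
        by_contra hcon
        exact hne (eq_top_iff.mpr fun y _ => by_contra fun hy => hcon ⟨y, hy⟩)
      rw [commutator_def]
      refine derived_eq_bot_of_cyclic_quotient hRtop (x := x) (Subgroup.mem_top x) ?_
      rw [← commutator_def]
      have hKle : commutator (G ⧸ pPrimeCore p G)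
          ≤ Subgroup.zpowers x ⊔ commutator (G ⧸ pPrimeCore p G) := le_sup_right
      have h2 := Subgroup.relIndex_mul_index hKle
      rw [h1] at h2
      have h3 : (commutator (G ⧸ pPrimeCore p G)).relIndex
          (Subgroup.zpowers x ⊔ commutator (G ⧸ pPrimeCore p G)) ∣ p := ⟨_, h2.symm⟩
      rcases (Nat.dvd_prime hp).mp h3 with h4 | h4
      · exact absurd (Subgroup.relIndex_eq_one.mp h4
          (Subgroup.mem_sup_left (Subgroup.mem_zpowers x))) hx
      · rw [h4] at h2
        have h5 : (Subgroup.zpowers x ⊔ commutator (G ⧸ pPrimeCore p G)).index = 1 := by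
          have := hp.pos
          exact Nat.eq_of_mul_eq_mul_left this (by rw [h2, mul_one])
        rw [Subgroup.index_eq_one.mp h5]
  have hle : commutator G ≤ pPrimeCore p G := by
    intro g hg
    have h1 : QuotientGroup.mk' (pPrimeCore p G) g ∈ commutator (G ⧸ pPrimeCore p G) := by
      rw [hcomm]; exact Subgroup.mem_map_of_mem _ hg
    rw [hbot, Subgroup.mem_bot] at h1
    exact (QuotientGroup.eq_one_iff g).mp h1
  exact Nat.Coprime.coprime_dvd_left (Subgroup.card_dvd_of_le hle) (H1.pPrimeCore_card_coprime p)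

end Cfsg.Agent.Lib.Helper30
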