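import Cfsg.Agent.Lib.Helper30.Trans
import Cfsg.Agent.H1.Coprime

/-!
# A Glauberman-type lemma for conjugation actions on families of subgroups (helper30)

`P` normalizes `K`, coprime orders, one of them solvable; `Ω` is a family of subgroups permuted by
`P` and by `K` (conjugation), with `K` transitive.  Then `P` normalizes a member of `Ω`, and
`C_K(P)` is transitive on the members normalized by `P`.
-/

set_option autoImplicit false

namespace Cfsg.Agent.Lib.Helper30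

open Cfsg
open scoped Pointwise

variable {G : Type*} [Group G]

theorem conj_smul_eq_map (g : G) (H : Subgroup G) :
    MulAut.conj g • H = H.map (MulAut.conj g).toMonoidHom := by
  ext x
  rw [mem_map_conj_iff, Cfsg.Agent.H1.mem_conj_smul_iff]

theorem mem_normalizer_iff_map_conj (g : G) (Q : Subgroup G) :
    g ∈ Subgroup.normalizer (Q : Set G) ↔ Q.map (MulAut.conj g).toMonoidHom = Q := by
  rw [Cfsg.Agent.H1.mem_normalizer_iff_conj_smul, conj_smul_eq_map]

/-- If `Q^g = Q^k` then `k⁻¹ g` normalizes `Q`. -/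
theorem inv_mul_mem_normalizer_of_map_conj_eq {g k : G} {Q : Subgroup G}
    (h : Q.map (MulAut.conj g).toMonoidHom = Q.map (MulAut.conj k).toMonoidHom) :
    k⁻¹ * g ∈ Subgroup.normalizer (Q : Set G) := by
  rw [mem_normalizer_iff_map_conj, ← map_conj_map_conj, h, map_conj_map_conj, inv_mul_cancel,
    map_conj_one]

/-- Existence part: `P` normalizes some member of `Ω`. -/
theorem exists_normalized_of_transitive [Finite G] {P K : Subgroup G}
    (hPK : P ≤ Subgroup.normalizer (K : Set G)) (hcop : (Nat.card P).Coprime (Nat.card K))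
    (hsolv : Group.IsSolvable P ∨ Group.IsSolvable K) {Ω : Set (Subgroup G)} (hne : Ω.Nonempty)
    (hP : ∀ Q ∈ Ω, ∀ g ∈ P, Q.map (MulAut.conj g).toMonoidHom ∈ Ω)
    (hK : ∀ Q ∈ Ω, ∀ k ∈ K, Q.map (MulAut.conj k).toMonoidHom ∈ Ω)
    (htr : ∀ Q₁ ∈ Ω, ∀ Q₂ ∈ Ω, ∃ k ∈ K, Q₂ = Q₁.map (MulAut.conj k).toMonoidHom) :
    ∃ Q ∈ Ω, P ≤ Subgroup.normalizer (Q : Set G) := by
  obtain ⟨Q, hQ⟩ := hne
  set T := (P ⊔ K) ⊓ Subgroup.normalizer (Q : Set G) with hT
  have hTPK : T ≤ P ⊔ K := inf_le_left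
  have hPKn : P ⊔ K ≤ Subgroup.normalizer (K : Set G) := sup_le hPK Subgroup.le_normalizer
  have hTn : T ≤ Subgroup.normalizer (K : Set G) := hTPK.trans hPKn
  -- `T K = P K`
  have hsup : T ⊔ K = P ⊔ K := by
    apply le_antisymm (sup_le hTPK le_sup_right)
    refine sup_le ?_ le_sup_right
    intro g hg
    obtain ⟨k, hk, hkQ⟩ := htr Q hQ _ (hP Q hQ g hg)
    have h1 : k⁻¹ * g ∈ T := by
      refine Subgroup.mem_inf.mpr ⟨?_, inv_mul_mem_normalizer_of_map_conj_eq hkQ⟩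
      exact (P ⊔ K).mul_mem ((P ⊔ K).inv_mem (Subgroup.mem_sup_right hk)) (Subgroup.mem_sup_left hg)
    have h2 : g = k * (k⁻¹ * g) := by group
    rw [h2]
    exact (T ⊔ K).mul_mem (Subgroup.mem_sup_right hk) (Subgroup.mem_sup_left h1)
  have hdisj : K ⊓ P = ⊥ := (Subgroup.disjoint_of_coprime_natCard hcop.symm).eq_bot
  -- the index of `K ∩ T` in `T` is `#P`
  have hidx : K.relIndex T = Nat.card P := by
    rw [← Cfsg.Agent.H1.relIndex_sup_of_le_normalizer T K hTn, hsup,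
      Cfsg.Agent.H1.relIndex_sup_of_le_normalizer P K hPK, ← Subgroup.inf_relIndex_right, hdisj,
      Subgroup.relIndex_bot_left]
  -- Schur–Zassenhaus in `T`
  have hnorm : (K.subgroupOf T).Normal := Subgroup.normal_subgroupOf_of_le_normalizer hTn
  have hcard : Nat.card (K.subgroupOf T) ∣ Nat.card K := by
    rw [← Subgroup.inf_subgroupOf_right K T,
      Nat.card_congr (Subgroup.subgroupOfEquivOfLe (inf_le_right : K ⊓ T ≤ T)).toEquiv]
    exact Subgroup.card_dvd_of_le inf_le_left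
  have hcop' : (Nat.card (K.subgroupOf T)).Coprime (K.subgroupOf T).index := by
    have : (K.subgroupOf T).index = Nat.card P := hidx
    rw [this]
    exact Nat.Coprime.coprime_dvd_left hcard hcop.symm
  obtain ⟨H, hH⟩ := Subgroup.exists_left_complement'_of_coprime hcop'
  have hHcard : Nat.card H = Nat.card P := by
    rw [← hH.index_eq_card]
    exact hidx
  set P₁ := H.map T.subtype with hP₁
  have hP₁T : P₁ ≤ T := by
    rintro x ⟨y, -, rfl⟩
    exact y.2
  have hP₁card : Nat.card P₁ = Nat.card P := by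
    rw [hP₁, Subgroup.card_map_of_injective T.subtype_injective, hHcard]
  obtain ⟨d, hd, hdP⟩ := Cfsg.Agent.H1.sz_conj_internal P K P₁ hPK hcop hsolv
    (hP₁T.trans hTPK) hP₁card
  refine ⟨Q.map (MulAut.conj d⁻¹).toMonoidHom, hK Q hQ d⁻¹ (K.inv_mem hd), ?_⟩
  intro g hg
  have h1 : d * g * d⁻¹ ∈ P₁ := by
    rw [← hdP]
    exact Cfsg.Agent.H1.conj_mem_conj_smul d g P hg
  have h2 : d * g * d⁻¹ ∈ Subgroup.normalizer (Q : Set G) := (Subgroup.mem_inf.mp (hP₁T h1)).2
  rw [mem_normalizer_iff_map_conj] at h2 ⊢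
  rw [map_conj_map_conj]
  have h3 : g * d⁻¹ = d⁻¹ * (d * g * d⁻¹) := by group
  rw [h3, ← map_conj_map_conj, h2]

/-- Conjugacy part: two members of `Ω` normalized by `P` are conjugate under `C_K(P)`. -/
theorem exists_centralizer_conj_of_transitive [Finite G] {P K : Subgroup G}
    (hPK : P ≤ Subgroup.normalizer (K : Set G)) (hcop : (Nat.card P).Coprime (Nat.card K))
    (hsolv : Group.IsSolvable P ∨ Group.IsSolvable K) {Q₁ Q₂ : Subgroup G}
    (h₁ : P ≤ Subgroup.normalizer (Q₁ : Set G)) (h₂ : P ≤ Subgroup.normalizer (Q₂ : Set G))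
    {k : G} (hk : k ∈ K) (hkQ : Q₂ = Q₁.map (MulAut.conj k).toMonoidHom) :
    ∃ c ∈ K ⊓ Subgroup.centralizer (P : Set G), Q₂ = Q₁.map (MulAut.conj c).toMonoidHom := by
  set D := K ⊓ Subgroup.normalizer (Q₁ : Set G) with hD
  have hPD : P ≤ Subgroup.normalizer (D : Set G) :=
    (le_inf hPK (h₁.trans Subgroup.le_normalizer)).trans Subgroup.inf_normalizer_le_normalizer_inf
  have hcopD : (Nat.card P).Coprime (Nat.card D) :=
    Nat.Coprime.coprime_dvd_right (Subgroup.card_dvd_of_le inf_le_left) hcop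
  have hsolvD : Group.IsSolvable P ∨ Group.IsSolvable D := by
    rcases hsolv with h | h
    · exact Or.inl h
    · exact Or.inr (@Cfsg.Agent.H1.isSolvable_of_le _ _ D K inf_le_left h)
  have hx : ∀ a ∈ P, k⁻¹ * a * k * a⁻¹ ∈ D := by
    intro a ha
    refine Subgroup.mem_inf.mpr ⟨?_, ?_⟩
    · have h1 : a * k * a⁻¹ ∈ K := (Subgroup.le_normalizer_iff.mp hPK) a ha k hk
      have h2 : k⁻¹ * a * k * a⁻¹ = k⁻¹ * (a * k * a⁻¹) := by group
      rw [h2]
      exact K.mul_mem (K.inv_mem hk) h1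
    · rw [mem_normalizer_iff_map_conj]
      have ha₂ : Q₂.map (MulAut.conj a).toMonoidHom = Q₂ := (mem_normalizer_iff_map_conj a Q₂).mp (h₂ ha)
      have ha₁ : Q₁.map (MulAut.conj a⁻¹).toMonoidHom = Q₁ :=
        (mem_normalizer_iff_map_conj a⁻¹ Q₁).mp (h₁ (P.inv_mem ha))
      have h3 : k⁻¹ * a * k * a⁻¹ = k⁻¹ * (a * (k * a⁻¹)) := by group
      rw [h3, ← map_conj_map_conj, ← map_conj_map_conj, ← map_conj_map_conj, ha₁, ← hkQ, ha₂, hkQ,
        map_conj_map_conj, inv_mul_cancel, map_conj_one]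
  obtain ⟨d, hd, hc⟩ := Cfsg.Agent.H1.exists_mul_mem_centralizer P D hPD hcopD hsolvD k hx
  refine ⟨k * d, Subgroup.mem_inf.mpr ⟨K.mul_mem hk (Subgroup.mem_inf.mp hd).1, hc⟩, ?_⟩
  rw [← map_conj_map_conj, (mem_normalizer_iff_map_conj d Q₁).mp (Subgroup.mem_inf.mp hd).2, hkQ]

end Cfsg.Agent.Lib.Helper30
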