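import Mathlib

/-!
# A norm lemma for Frobenius-like actions (helper30)

`eq_one_of_norm_trivial`: let `Ξ` be a finite group of automorphisms of the finite abelian group
`V`, of order prime to `|V|`, without nontrivial fixed points on `V`, and let `c` be an
automorphism of `V` normalizing `Ξ` whose powers `c ^ i`, `0 < i < n`, commute with no nonidentity
element of `Ξ`.  If the "norm" `v ↦ ∏ i < n, c ^ i v` is trivial then `V` is trivial.
-/

set_option autoImplicit false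

namespace Cfsg.Agent.Lib.Helper30

open Finset

theorem eq_one_of_norm_trivial {V : Type*} [CommGroup V] [Finite V]
    (Ξ : Subgroup (Monoid.End V)ˣ) [Finite Ξ] (c : (Monoid.End V)ˣ) (n : ℕ) (hn : 0 < n)
    (hnorm : ∀ ξ ∈ Ξ, c * ξ * c⁻¹ ∈ Ξ)
    (hfpf : ∀ i, 0 < i → i < n → ∀ ξ ∈ Ξ, c ^ i * ξ = ξ * c ^ i → ξ = 1)
    (hfix : ∀ v : V, (∀ ξ ∈ Ξ, (ξ : Monoid.End V) v = v) → v = 1)
    (hN : ∀ v : V, ∏ i ∈ Finset.range n, ((c ^ i : (Monoid.End V)ˣ) : Monoid.End V) v = 1)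
    (hcop : (Nat.card Ξ).Coprime (Nat.card V)) (v : V) : v = 1 := by
  classical
  let _ : Fintype Ξ := Fintype.ofFinite _
  -- `c ^ i` normalizes `Ξ`
  have hnormi : ∀ i : ℕ, ∀ ξ ∈ Ξ, c ^ i * ξ * (c ^ i)⁻¹ ∈ Ξ := by
    intro i
    induction i with
    | zero => intro ξ hξ; simpa using hξ
    | succ k ih =>
      intro ξ hξ
      have := hnorm _ (ih ξ hξ)
      have e : c ^ (k + 1) * ξ * (c ^ (k + 1))⁻¹ = c * (c ^ k * ξ * (c ^ k)⁻¹) * c⁻¹ := by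
        rw [pow_succ']; group
      rw [e]; exact this
  -- the trace of `Ξ` is trivial
  have htr : ∀ w : V, ∏ ξ : Ξ, ((ξ : (Monoid.End V)ˣ) : Monoid.End V) w = 1 := by
    intro w
    apply hfix
    intro η hη
    rw [map_prod]
    have h1 : ∀ ξ : Ξ, ((η : Monoid.End V)) (((ξ : (Monoid.End V)ˣ) : Monoid.End V) w)
        = (((⟨η, hη⟩ * ξ : Ξ) : (Monoid.End V)ˣ) : Monoid.End V) w := fun ξ => rfl
    simp_rw [h1]
    exact Function.Bijective.prod_comp (Group.mulLeft_bijective (⟨η, hη⟩ : Ξ))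
      (fun ξ : Ξ => ((ξ : (Monoid.End V)ˣ) : Monoid.End V) w)
  -- conjugating the norm
  have key : ∀ ξ : Ξ, ∏ i ∈ range n,
      (((ξ : (Monoid.End V)ˣ) * c ^ i * (ξ : (Monoid.End V)ˣ)⁻¹ : (Monoid.End V)ˣ) :
        Monoid.End V) v = 1 := by
    intro ξ
    have h := hN ((((ξ : (Monoid.End V)ˣ)⁻¹ : (Monoid.End V)ˣ) : Monoid.End V) v)
    have h2 := congrArg ((ξ : (Monoid.End V)ˣ) : Monoid.End V) h
    rw [map_prod, map_one] at h2
    exact h2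
  -- the commutator maps
  have hf : ∀ i : ℕ, ∀ ξ : Ξ, (ξ : (Monoid.End V)ˣ) * (c ^ i * (ξ : (Monoid.End V)ˣ)⁻¹ * (c ^ i)⁻¹) ∈ Ξ :=
    fun i ξ => Ξ.mul_mem ξ.2 (hnormi i _ (Ξ.inv_mem ξ.2))
  have hsplit : ∀ i : ℕ, ∀ ξ : Ξ,
      (((ξ : (Monoid.End V)ˣ) * c ^ i * (ξ : (Monoid.End V)ˣ)⁻¹ : (Monoid.End V)ˣ) :
        Monoid.End V) v
      = (((⟨_, hf i ξ⟩ : Ξ) : (Monoid.End V)ˣ) : Monoid.End V)
          (((c ^ i : (Monoid.End V)ˣ) : Monoid.End V) v) := by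
    intro i ξ
    have e : (ξ : (Monoid.End V)ˣ) * c ^ i * (ξ : (Monoid.End V)ˣ)⁻¹
        = ((ξ : (Monoid.End V)ˣ) * (c ^ i * (ξ : (Monoid.End V)ˣ)⁻¹ * (c ^ i)⁻¹)) * c ^ i := by group
    rw [e]
    rfl
  have hprod : ∏ ξ : Ξ, ∏ i ∈ range n,
      (((ξ : (Monoid.End V)ˣ) * c ^ i * (ξ : (Monoid.End V)ˣ)⁻¹ : (Monoid.End V)ˣ) :
        Monoid.End V) v = 1 := Finset.prod_eq_one (fun ξ _ => key ξ)
  rw [Finset.prod_comm] at hprod
  have h0 : 0 ∈ range n := Finset.mem_range.mpr hn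
  rw [Finset.prod_eq_single 0 _ (fun h => absurd h0 h)] at hprod
  · simp only [pow_zero, mul_one, mul_inv_cancel, Units.val_one, Monoid.End.coe_one, id_eq,
      Finset.prod_const, Finset.card_univ] at hprod
    have h1 : orderOf v ∣ Fintype.card Ξ := orderOf_dvd_of_pow_eq_one hprod
    have h2 : orderOf v ∣ Nat.card V := orderOf_dvd_natCard v
    rw [← Nat.card_eq_fintype_card] at h1
    have h3 : orderOf v ∣ 1 := by
      have := Nat.dvd_gcd h1 h2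
      rwa [Nat.Coprime.gcd_eq_one hcop] at this
    exact orderOf_eq_one_iff.mp (Nat.dvd_one.mp h3)
  · intro i hi hi0
    have hi' : i < n := Finset.mem_range.mp hi
    simp_rw [hsplit i]
    have hbij : Function.Bijective (fun ξ : Ξ => (⟨_, hf i ξ⟩ : Ξ)) := by
      rw [← Finite.injective_iff_bijective]
      intro ξ η hξη
      have h1 : (ξ : (Monoid.End V)ˣ) * (c ^ i * (ξ : (Monoid.End V)ˣ)⁻¹ * (c ^ i)⁻¹)
          = (η : (Monoid.End V)ˣ) * (c ^ i * (η : (Monoid.End V)ˣ)⁻¹ * (c ^ i)⁻¹) :=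
        congrArg Subtype.val hξη
      have h2 : c ^ i * ((η : (Monoid.End V)ˣ)⁻¹ * ξ) = ((η : (Monoid.End V)ˣ)⁻¹ * ξ) * c ^ i := by
        have e1 : c ^ i * ((η : (Monoid.End V)ˣ)⁻¹ * ξ)
            = (η : (Monoid.End V)ˣ)⁻¹ * ((η : (Monoid.End V)ˣ) * (c ^ i * (η : (Monoid.End V)ˣ)⁻¹ * (c ^ i)⁻¹))
              * c ^ i * ξ := by group
        rw [e1, ← h1]; group
      have h3 := hfpf i (Nat.pos_of_ne_zero hi0) hi' _ (Ξ.mul_mem (Ξ.inv_mem η.2) ξ.2) h2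
      exact Subtype.ext (by rw [inv_mul_eq_one] at h3; exact h3.symm)
    exact (Function.Bijective.prod_comp hbij
      (fun ξ : Ξ => ((ξ : (Monoid.End V)ˣ) : Monoid.End V)
        (((c ^ i : (Monoid.End V)ˣ) : Monoid.End V) v))).trans (htr _)

/-- `v · c v · c² v ⋯ c^{k-1} v`. -/
def prodPow {V : Type*} [Group V] (c : (Monoid.End V)ˣ) (v : V) : ℕ → V
  | 0 => 1
  | k + 1 => prodPow c v k * ((c ^ k : (Monoid.End V)ˣ) : Monoid.End V) v

theorem prodPow_zero {V : Type*} [Group V] (c : (Monoid.End V)ˣ) (v : V) : prodPow c v 0 = 1 := rfl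

theorem prodPow_succ {V : Type*} [Group V] (c : (Monoid.End V)ˣ) (v : V) (k : ℕ) :
    prodPow c v (k + 1) = prodPow c v k * ((c ^ k : (Monoid.End V)ˣ) : Monoid.End V) v := rfl

/-- Group version of `eq_one_of_norm_trivial`. -/
theorem eq_one_of_norm_trivial' {V : Type*} [Group V] [Finite V] (hV : ∀ a b : V, a * b = b * a)
    (Ξ : Subgroup (Monoid.End V)ˣ) [Finite Ξ] (c : (Monoid.End V)ˣ) (n : ℕ) (hn : 0 < n)
    (hnorm : ∀ ξ ∈ Ξ, c * ξ * c⁻¹ ∈ Ξ)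
    (hfpf : ∀ i, 0 < i → i < n → ∀ ξ ∈ Ξ, c ^ i * ξ = ξ * c ^ i → ξ = 1)
    (hfix : ∀ v : V, (∀ ξ ∈ Ξ, (ξ : Monoid.End V) v = v) → v = 1)
    (hN : ∀ v : V, prodPow c v n = 1)
    (hcop : (Nat.card Ξ).Coprime (Nat.card V)) (v : V) : v = 1 := by
  let _ : CommGroup V := { ‹Group V› with mul_comm := hV }
  have hprod : ∀ (w : V) (k : ℕ), prodPow c w k
      = ∏ i ∈ Finset.range k, ((c ^ i : (Monoid.End V)ˣ) : Monoid.End V) w := by
    intro w k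
    induction k with
    | zero => rfl
    | succ k ih => rw [Finset.prod_range_succ, ← ih]; rfl
  exact eq_one_of_norm_trivial Ξ c n hn hnorm hfpf hfix (fun w => by rw [← hprod]; exact hN w)
    hcop v

end Cfsg.Agent.Lib.Helper30
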