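import Cfsg.Agent.Lib.Helper30.TransLocal
import Cfsg.Agent.H14.Constrained

/-!
# Applying the local transitivity theorem (helper30)

* `isPConstrained_of_isSolvable`: solvable groups are `p`-constrained.
* `thetaOf p a`: the image in `G` of `O_{p'}(N_G(⟨a⟩))`.
* `thetaOf_spec`: if `N_G(⟨a⟩)` is `p`-constrained and `E` is a large abelian `p`-subgroup,
  `thetaOf p a` contains all `E`-invariant `q`-subgroups of `C_G(a)`.
-/

set_option autoImplicit false
set_option linter.unusedSectionVars false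

namespace Cfsg.Agent.Lib.Helper30

open Cfsg
open scoped Pointwise commutatorElement

/-- Solvable groups are `p`-constrained. -/
theorem isPConstrained_of_isSolvable {H : Type*} [Group H] [Finite H] (p : ℕ) [Fact p.Prime]
    [Group.IsSolvable H] : IsPConstrained p H := by
  rw [H14.isPConstrained_iff_quotient,
    H14.isPConstrained_iff_of_pPrimeCore_eq_bot (H1.pPrimeCore_quotient_eq_bot p)]
  exact H1.centralizer_pCore_le p (H1.pPrimeCore_quotient_eq_bot p)

variable {G : Type*} [Group G]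

theorem isPGroup_zpowers_of_pow_eq_one {p : ℕ} {x : G} (h : x ^ p = 1) :
    IsPGroup p (Subgroup.zpowers x) := by
  intro g
  obtain ⟨k, hk⟩ := Subgroup.mem_zpowers_iff.mp g.2
  refine ⟨1, Subtype.ext ?_⟩
  rw [pow_one, Subgroup.coe_pow, ← hk, ← zpow_natCast, ← zpow_mul, mul_comm, zpow_mul,
    zpow_natCast, h, one_zpow]
  rfl

theorem centralizer_singleton_le_normalizer_zpowers (a : G) :
    Subgroup.centralizer ({a} : Set G) ≤
      Subgroup.normalizer ((Subgroup.zpowers a : Subgroup G) : Set G) := by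
  intro g hg
  have hga : Commute a g := Subgroup.mem_centralizer_iff.mp hg a (Set.mem_singleton a)
  apply Subgroup.centralizer_le_normalizer
  rw [Subgroup.mem_centralizer_iff]
  intro y hy
  obtain ⟨k, rfl⟩ := Subgroup.mem_zpowers_iff.mp hy
  exact (hga.zpow_left k).eq

/-- A Sylow-type argument: if `B = C_P(B)` is normal in the Sylow `p`-subgroup `P`, then `B`
contains every `p`-element of `C_G(B)`. -/
theorem mem_of_mem_centralizer_of_sylow [Finite G] {p : ℕ} [Fact p.Prime] (P : Sylow p G)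
    {B : Subgroup G} (hBn : (P : Subgroup G) ≤ Subgroup.normalizer (B : Set G))
    (hBc : (P : Subgroup G) ⊓ Subgroup.centralizer (B : Set G) = B) {x : G}
    (hx : x ∈ Subgroup.centralizer (B : Set G)) (hxp : IsPGroup p (Subgroup.zpowers x)) :
    x ∈ B := by
  have hpp : p.Prime := Fact.out
  have hBP : B ≤ (P : Subgroup G) := le_of_eq_of_le hBc.symm inf_le_left
  have hBC : B ≤ Subgroup.centralizer (B : Set G) := le_of_eq_of_le hBc.symm inf_le_right
  have hBp : IsPGroup p B := P.isPGroup'.to_le hBP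
  have hPC : (P : Subgroup G) ≤ Subgroup.normalizer
      ((Subgroup.centralizer (B : Set G) : Subgroup G) : Set G) :=
    hBn.trans (normalizer_le_normalizer_centralizer B)
  have hidx := H3.sylow_inf_relIndex_of_le_normalizer P _ hPC
  rw [hBc] at hidx
  have hzN : Subgroup.zpowers x ≤ Subgroup.normalizer (B : Set G) :=
    (Subgroup.zpowers_le.mpr hx).trans (Subgroup.centralizer_le_normalizer _)
  have hUp : IsPGroup p ↥(Subgroup.zpowers x ⊔ B) := hxp.to_sup_of_normal_right' hBp hzN
  have hUC : Subgroup.zpowers x ⊔ B ≤ Subgroup.centralizer (B : Set G) :=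
    sup_le (Subgroup.zpowers_le.mpr hx) hBC
  have h1 : B.relIndex (Subgroup.zpowers x ⊔ B) ∣ B.relIndex (Subgroup.centralizer (B : Set G)) :=
    Dvd.intro _ (Subgroup.relIndex_mul_relIndex B _ _ le_sup_right hUC)
  have h2 : B.relIndex (Subgroup.zpowers x ⊔ B) ∣ Nat.card ↥(Subgroup.zpowers x ⊔ B) :=
    Subgroup.relIndex_dvd_card _ _
  obtain ⟨n, hn⟩ := IsPGroup.iff_card.mp hUp
  rw [hn] at h2
  obtain ⟨j, -, hj⟩ := (Nat.dvd_prime_pow hpp).mp h2
  have hj0 : j = 0 := by
    by_contra hne
    exact hidx ((hj ▸ dvd_pow_self p hne).trans h1)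
  rw [hj0, pow_zero] at hj
  have h3 : Subgroup.zpowers x ⊔ B ≤ B := Subgroup.relIndex_eq_one.mp hj
  exact h3 (Subgroup.mem_sup_left (Subgroup.mem_zpowers x))

/-- The image in `G` of `O_{p'}(N_G(⟨a⟩))`. -/
def thetaOf (p : ℕ) (a : G) : Subgroup G :=
  (pPrimeCore p ↥(Subgroup.normalizer ((Subgroup.zpowers a : Subgroup G) : Set G))).map
    (Subgroup.normalizer ((Subgroup.zpowers a : Subgroup G) : Set G)).subtype

theorem thetaOf_spec [Finite G] {p q : ℕ} [Fact p.Prime] [Fact q.Prime] (hqp : q ≠ p)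
    {E : Subgroup G} (hEp : IsPGroup p E) (hEc : ∀ a ∈ E, ∀ b ∈ E, a * b = b * a)
    {a : G} (haE : a ∈ E)
    (hcon : IsPConstrained p ↥(Subgroup.normalizer ((Subgroup.zpowers a : Subgroup G) : Set G)))
    (hΩ : ∀ x ∈ Subgroup.centralizer (E : Set G), x ^ p = 1 → x ∈ E)
    (h2 : p = 2 → (∀ x ∈ Subgroup.centralizer (E : Set G),
        IsPGroup p (Subgroup.zpowers x) → x ∈ E) ∧
      ∀ T : Subgroup G, IsPGroup p T → ∀ u ∈ T, ∀ v ∈ T, ⁅⁅u, v⁆, v⁆ = 1) :
    (Nat.card (thetaOf p a)).Coprime p ∧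
      E ≤ Subgroup.normalizer ((thetaOf p a : Subgroup G) : Set G) ∧
      ∀ T : Subgroup G, IsPGroup q T → E ≤ Subgroup.normalizer (T : Set G) →
        T ≤ Subgroup.centralizer ({a} : Set G) → T ≤ thetaOf p a := by
  have hpp : p.Prime := Fact.out
  have hqq : q.Prime := Fact.out
  have hENZ : E ≤ Subgroup.normalizer ((Subgroup.zpowers a : Subgroup G) : Set G) := by
    intro e he
    apply centralizer_singleton_le_normalizer_zpowers
    rw [Subgroup.mem_centralizer_iff]
    intro y hy
    rw [Set.mem_singleton_iff.mp hy]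
    exact hEc a haE e he
  refine ⟨?_, ?_, ?_⟩
  · unfold thetaOf
    rw [Subgroup.card_map_of_injective (Subgroup.subtype_injective _)]
    exact H1.pPrimeCore_card_coprime p
  · apply le_normalizer_of_conj_mem
    rintro e he _ ⟨y, hy, rfl⟩
    exact ⟨⟨e, hENZ he⟩ * y * ⟨e, hENZ he⟩⁻¹,
      (Cfsg.pPrimeCore_normal p _).conj_mem y hy ⟨e, hENZ he⟩, rfl⟩
  · intro T hTq hET hTa
    have hTNZ : T ≤ Subgroup.normalizer ((Subgroup.zpowers a : Subgroup G) : Set G) :=
      hTa.trans (centralizer_singleton_le_normalizer_zpowers a)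
    have key := le_pPrimeCore_of_constrained p hcon
      (E.subgroupOf (Subgroup.normalizer ((Subgroup.zpowers a : Subgroup G) : Set G)))
      (fun x hx y hy => Subtype.ext (hEc _ hx _ hy)) hEp.comap_subtype ?_ ?_
      (T.subgroupOf (Subgroup.normalizer ((Subgroup.zpowers a : Subgroup G) : Set G))) ?_ ?_
    · intro t ht
      exact ⟨⟨t, hTNZ ht⟩, key (Subgroup.mem_subgroupOf.mpr ht), rfl⟩
    · -- elements of order `p`
      intro x hx hxp
      rw [Subgroup.mem_subgroupOf]
      apply hΩ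
      · rw [Subgroup.mem_centralizer_iff]
        intro e he
        have := Subgroup.mem_centralizer_iff.mp hx ⟨e, hENZ he⟩ (Subgroup.mem_subgroupOf.mpr he)
        exact congrArg Subtype.val this
      · have := congrArg Subtype.val hxp
        rwa [Subgroup.coe_pow] at this
    · -- the case `p = 2`
      intro hp2
      refine ⟨?_, ?_⟩
      · intro x hx hxp
        rw [Subgroup.mem_subgroupOf]
        apply (h2 hp2).1
        · rw [Subgroup.mem_centralizer_iff]
          intro e he
          have := Subgroup.mem_centralizer_iff.mp hx ⟨e, hENZ he⟩ (Subgroup.mem_subgroupOf.mpr he)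
          exact congrArg Subtype.val this
        · have h1 := hxp.map (Subgroup.normalizer
            ((Subgroup.zpowers a : Subgroup G) : Set G)).subtype
          rw [MonoidHom.map_zpowers] at h1
          exact h1
      · intro T' hT' u hu v hv
        have h1 := (h2 hp2).2 (T'.map (Subgroup.normalizer
          ((Subgroup.zpowers a : Subgroup G) : Set G)).subtype) (hT'.map _) u ⟨u, hu, rfl⟩
          v ⟨v, hv, rfl⟩
        apply Subtype.ext
        exact h1
    · -- `T` is a `p'`-group
      have e1 : Nat.card (T.subgroupOf (Subgroup.normalizer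
          ((Subgroup.zpowers a : Subgroup G) : Set G))) = Nat.card T :=
        Nat.card_congr (Subgroup.subgroupOfEquivOfLe hTNZ).toEquiv
      rw [e1]
      obtain ⟨n, hn⟩ := IsPGroup.iff_card.mp hTq
      rw [hn]
      exact Nat.Coprime.pow_left n ((Nat.coprime_primes hqq hpp).mpr hqp)
    · apply le_normalizer_of_conj_mem
      intro g hg y hy
      rw [Subgroup.mem_subgroupOf] at hg hy ⊢
      exact (Subgroup.mem_normalizer_iff.mp (hET hg) _).mp hy

/-- Burnside's normal `p`-complement theorem, applied: if a Sylow `p`-subgroup `P` of `H`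
satisfies `N(P) ≤ C(P)`, then every `p'`-subgroup of `H` lies in `O_{p'}(H)`. -/
theorem le_piCore_of_central_sylow {H : Type*} [Group H] [Finite H] {p : ℕ} [Fact p.Prime]
    (P : Sylow p H)
    (hP : Subgroup.normalizer (P : Set H) ≤ Subgroup.centralizer (P : Set H))
    (Y : Subgroup H) (hY : (Nat.card Y).Coprime p) : Y ≤ piCore (primesNotDvd p) H := by
  have hpp : p.Prime := Fact.out
  have h1 : ¬ p ∣ Nat.card (MonoidHom.transferSylow P hP).ker :=
    MonoidHom.not_dvd_card_ker_transferSylow P hP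
  have h2 : (Nat.card (MonoidHom.transferSylow P hP).ker).Coprime p :=
    ((Nat.Prime.coprime_iff_not_dvd hpp).mpr h1).symm
  have h3 : (MonoidHom.transferSylow P hP).ker ≤ piCore (primesNotDvd p) H :=
    le_piCore (MonoidHom.normal_ker _) (isPi_of_coprime h2)
  refine le_trans ?_ h3
  intro y hy
  rw [MonoidHom.mem_ker]
  have h4 : orderOf (MonoidHom.transferSylow P hP y) ∣ orderOf y := orderOf_map_dvd _ y
  have h5 : orderOf y ∣ Nat.card Y := by
    have := orderOf_dvd_natCard (⟨y, hy⟩ : Y)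
    rwa [Subgroup.orderOf_mk] at this
  obtain ⟨k, hk⟩ := IsPGroup.iff_card.mp P.isPGroup'
  have h6 : orderOf (MonoidHom.transferSylow P hP y) ∣ p ^ k := by
    rw [← hk]; exact orderOf_dvd_natCard _
  have h7 : orderOf (MonoidHom.transferSylow P hP y) ∣ 1 := by
    have := Nat.dvd_gcd (h4.trans h5) h6
    rwa [Nat.Coprime.gcd_eq_one (Nat.Coprime.pow_right k hY)] at this
  exact orderOf_eq_one_iff.mp (Nat.dvd_one.mp h7)

/-- If the Sylow `p`-subgroups have class at most two then `[u, v, v] = 1` in every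
`p`-subgroup. -/
theorem class_two_of_sylow [Finite G] {p : ℕ} [Fact p.Prime]
    (h : ∀ S : Sylow p G, Group.IsNilpotent (S : Subgroup G) ∧
      Group.nilpotencyClass (S : Subgroup G) ≤ 2) :
    ∀ T : Subgroup G, IsPGroup p T → ∀ u ∈ T, ∀ v ∈ T, ⁅⁅u, v⁆, v⁆ = 1 := by
  intro T hT u hu v hv
  obtain ⟨S, hTS⟩ := hT.exists_le_sylow
  obtain ⟨hnil, hcl⟩ := h S
  have h3 : (⊤ : Subgroup ↥(S : Subgroup G)).lowerCentralSeries 2 = ⊥ :=
    Subgroup.lowerCentralSeries_eq_bot_iff_nilpotencyClass_le.mpr hcl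
  have h4 : ⁅⁅(⟨u, hTS hu⟩ : ↥(S : Subgroup G)), (⟨v, hTS hv⟩ : ↥(S : Subgroup G))⁆,
      (⟨v, hTS hv⟩ : ↥(S : Subgroup G))⁆ ∈
      (⊤ : Subgroup ↥(S : Subgroup G)).lowerCentralSeries 2 :=
    Subgroup.commutator_mem_commutator (Subgroup.commutator_mem_commutator
      (Subgroup.mem_top _) (Subgroup.mem_top _)) (Subgroup.mem_top _)
  rw [h3, Subgroup.mem_bot] at h4
  exact congrArg Subtype.val h4

end Cfsg.Agent.Lib.Helper30
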