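import Cfsg.Agent.Lib.Helper30.PConstr
import Cfsg.Agent.Lib.Helper30.TransApp
import Cfsg.Agent.H14.Constrained
import Cfsg.Agent.H80.PSolvable

/-!
# `p`-solvable groups are `p`-constrained; `Ω₁` of a Sylow subgroup of a centralizer (helper30)
-/

set_option autoImplicit false
set_option linter.unusedSectionVars false

namespace Cfsg.Agent.Lib.Helper30

open Cfsg
open scoped Pointwise

/-- `p`-solvable groups are `p`-constrained. -/
theorem isPConstrained_of_isPSolvable {H : Type*} [Group H] [Finite H] (p : ℕ) [Fact p.Prime]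
    (h : IsPSolvable p H) : IsPConstrained p H := by
  rw [H14.isPConstrained_iff_quotient,
    H14.isPConstrained_iff_of_pPrimeCore_eq_bot (H1.pPrimeCore_quotient_eq_bot p)]
  exact H80.centralizer_pCore_le p (H80.isPSolvable_quotient p _ h)
    (H1.pPrimeCore_quotient_eq_bot p)

variable {G : Type*} [Group G]

/-- If `B = Ω₁(P)` is elementary abelian, `P` a Sylow `p`-subgroup of `C_G(b₀)` with `b₀ ∈ B`,
then `B` contains every element of order `p` of `C_G(B)`. -/
theorem mem_of_omega_sylow_centralizer [Finite G] {p : ℕ} [Fact p.Prime] {B : Subgroup G}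
    (hBcomm : ∀ a ∈ B, ∀ b ∈ B, a * b = b * a) (hBexp : ∀ b ∈ B, b ^ p = 1)
    {b₀ : G} (hb₀ : b₀ ∈ B) (P : Sylow p ↥(Subgroup.centralizer ({b₀} : Set G)))
    (hBP : B = Subgroup.closure {x : G | x ∈ ((P : Subgroup ↥(Subgroup.centralizer
      ({b₀} : Set G))).map (Subgroup.centralizer ({b₀} : Set G)).subtype : Subgroup G) ∧
      orderOf x = p})
    {x : G} (hx : x ∈ Subgroup.centralizer (B : Set G)) (hxp : x ^ p = 1) : x ∈ B := by
  have hpp : p.Prime := Fact.out
  by_cases hx1 : x = 1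
  · rw [hx1]; exact B.one_mem
  have hxo : orderOf x = p := orderOf_eq_prime hxp hx1
  have hBp : IsPGroup p B := by
    intro b
    exact ⟨1, Subtype.ext (by rw [pow_one, Subgroup.coe_pow]; exact hBexp b b.2)⟩
  have hBC : B ≤ Subgroup.centralizer ({b₀} : Set G) := by
    intro b hb
    rw [Subgroup.mem_centralizer_iff]
    intro y hy
    rw [Set.mem_singleton_iff.mp hy]
    exact hBcomm b₀ hb₀ b hb
  have hxC : x ∈ Subgroup.centralizer ({b₀} : Set G) := by
    rw [Subgroup.mem_centralizer_iff]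
    intro y hy
    rw [Set.mem_singleton_iff.mp hy]
    exact Subgroup.mem_centralizer_iff.mp hx b₀ hb₀
  have hzN : Subgroup.zpowers x ≤ Subgroup.normalizer (B : Set G) :=
    (Subgroup.zpowers_le.mpr hx).trans (Subgroup.centralizer_le_normalizer _)
  have hU : IsPGroup p ↥(Subgroup.zpowers x ⊔ B) :=
    (isPGroup_zpowers_of_pow_eq_one hxp).to_sup_of_normal_right' hBp hzN
  have hUC : Subgroup.zpowers x ⊔ B ≤ Subgroup.centralizer ({b₀} : Set G) :=
    sup_le (Subgroup.zpowers_le.mpr hxC) hBC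
  have hU' : IsPGroup p ↥((Subgroup.zpowers x ⊔ B).subgroupOf
      (Subgroup.centralizer ({b₀} : Set G))) := hU.comap_subtype
  obtain ⟨P₁, hP₁⟩ := hU'.exists_le_sylow
  obtain ⟨g, hg⟩ := MulAction.exists_smul_eq ↥(Subgroup.centralizer ({b₀} : Set G)) P P₁
  -- conjugating into `P`
  have key : ∀ y ∈ Subgroup.zpowers x ⊔ B, MulAut.conj (g : G)⁻¹ y ∈
      ((P : Subgroup ↥(Subgroup.centralizer ({b₀} : Set G))).map
        (Subgroup.centralizer ({b₀} : Set G)).subtype : Subgroup G) := by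
    intro y hy
    have h1 : (⟨y, hUC hy⟩ : ↥(Subgroup.centralizer ({b₀} : Set G))) ∈
        (P₁ : Subgroup ↥(Subgroup.centralizer ({b₀} : Set G))) :=
      hP₁ (Subgroup.mem_subgroupOf.mpr hy)
    rw [← hg] at h1
    have h2 : (⟨y, hUC hy⟩ : ↥(Subgroup.centralizer ({b₀} : Set G))) ∈
        MulAut.conj g • (P : Subgroup ↥(Subgroup.centralizer ({b₀} : Set G))) := h1
    rw [Subgroup.mem_pointwise_smul_iff_inv_smul_mem] at h2
    refine ⟨_, h2, ?_⟩
    simp [MulAut.smul_def, mul_assoc]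
  have hsub : ∀ z : G, z ∈ ((P : Subgroup ↥(Subgroup.centralizer ({b₀} : Set G))).map
      (Subgroup.centralizer ({b₀} : Set G)).subtype : Subgroup G) → orderOf z = p → z ∈ B := by
    intro z hz ho
    rw [hBP]
    exact Subgroup.subset_closure ⟨hz, ho⟩
  have hφ : ∀ y ∈ Subgroup.zpowers x ⊔ B, y ^ p = 1 → MulAut.conj (g : G)⁻¹ y ∈ B := by
    intro y hy hyp
    by_cases hy1 : y = 1
    · rw [hy1, map_one]; exact B.one_mem
    · apply hsub _ (key y hy)
      rw [MulEquiv.orderOf_eq]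
      exact orderOf_eq_prime hyp hy1
  have hφB : ∀ b : ↥B, MulAut.conj (g : G)⁻¹ (b : G) ∈ B := fun b =>
    hφ b (Subgroup.mem_sup_right b.2) (hBexp b b.2)
  have hφx : MulAut.conj (g : G)⁻¹ x ∈ B :=
    hφ x (Subgroup.mem_sup_left (Subgroup.mem_zpowers x)) hxp
  have hinj : Function.Injective (fun b : ↥B => (⟨MulAut.conj (g : G)⁻¹ (b : G), hφB b⟩ : ↥B)) := by
    intro b c hbc
    have h1 : MulAut.conj (g : G)⁻¹ (b : G) = MulAut.conj (g : G)⁻¹ (c : G) :=
      congrArg Subtype.val hbc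
    exact Subtype.ext ((MulAut.conj (g : G)⁻¹).injective h1)
  obtain ⟨b, hb⟩ := (Finite.injective_iff_surjective.mp hinj) ⟨_, hφx⟩
  have h1 : MulAut.conj (g : G)⁻¹ (b : G) = MulAut.conj (g : G)⁻¹ x := congrArg Subtype.val hb
  have h2 : (b : G) = x := (MulAut.conj (g : G)⁻¹).injective h1
  rw [← h2]; exact b.2

end Cfsg.Agent.Lib.Helper30
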