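import Cfsg.Agent.Lib.Helper30.PQGen
import Cfsg.Agent.H1.HallHigman
import Cfsg.Agent.H3.PGroup
import Cfsg.Agent.H14.Cores

/-!
# Invariant `p'`-subgroups of `p`-constrained groups (helper30)

`le_pPrimeCore_of_constrained`: in a `p`-constrained group `H`, if `E` is an abelian `p`-subgroup
containing every element of order `p` of `C_H(E)` (for `p = 2`: every `2`-element of `C_H(E)`,
and the `2`-subgroups satisfy `[u, v, v] = 1`), then every `E`-invariant `p'`-subgroup of `H` lies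
in `O_{p'}(H)`.
-/

set_option autoImplicit false
set_option linter.unusedSectionVars false

namespace Cfsg.Agent.Lib.Helper30

open Cfsg
open scoped commutatorElement Pointwise

variable {H : Type*} [Group H]

theorem le_normalizer_sup' {A U V : Subgroup H} (hU : A ≤ Subgroup.normalizer (U : Set H))
    (hV : A ≤ Subgroup.normalizer (V : Set H)) :
    A ≤ Subgroup.normalizer ((U ⊔ V : Subgroup H) : Set H) := by
  apply le_normalizer_of_conj_mem
  intro a ha y hy
  have hle : U ⊔ V ≤ (U ⊔ V).comap (MulAut.conj a⁻¹).toMonoidHom := by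
    apply sup_le
    · intro u hu
      rw [Subgroup.mem_comap]
      have := (Subgroup.mem_normalizer_iff.mp (Subgroup.inv_mem _ (hU ha)) u).mp hu
      exact Subgroup.mem_sup_left this
    · intro v hv
      rw [Subgroup.mem_comap]
      have := (Subgroup.mem_normalizer_iff.mp (Subgroup.inv_mem _ (hV ha)) v).mp hv
      exact Subgroup.mem_sup_right this
  have key : ∀ a ∈ A, ∀ y ∈ U ⊔ V, a * y * a⁻¹ ∈ U ⊔ V := by
    intro a ha y hy
    have hle : U ⊔ V ≤ (U ⊔ V).comap (MulAut.conj a).toMonoidHom := by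
      apply sup_le
      · intro u hu
        rw [Subgroup.mem_comap]
        exact Subgroup.mem_sup_left ((Subgroup.mem_normalizer_iff.mp (hU ha) u).mp hu)
      · intro v hv
        rw [Subgroup.mem_comap]
        exact Subgroup.mem_sup_right ((Subgroup.mem_normalizer_iff.mp (hV ha) v).mp hv)
    exact hle hy
  exact key a ha y hy

theorem pPrimeCore_le_pPrimePCore' (p : ℕ) : pPrimeCore p H ≤ pPrimePCore p H := by
  intro x hx
  show x ∈ (pCore p (H ⧸ pPrimeCore p H)).comap (QuotientGroup.mk' (pPrimeCore p H))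
  rw [Subgroup.mem_comap]
  have : QuotientGroup.mk' (pPrimeCore p H) x = 1 := (QuotientGroup.eq_one_iff x).mpr hx
  rw [this]; exact one_mem _

theorem pPrimePCore_normal'' (p : ℕ) : (pPrimePCore p H).Normal :=
  (H14.pCore_normal p (H ⧸ pPrimeCore p H)).comap _

/-- `O_{p',p}(H) = O_{p'}(H) (S ∩ O_{p',p}(H))` for a Sylow `p`-subgroup `S`. -/
theorem pPrimePCore_le_sup' [Finite H] {p : ℕ} [Fact p.Prime] (S : Sylow p H) :
    pPrimePCore p H ≤ pPrimeCore p H ⊔ ((S : Subgroup H) ⊓ pPrimePCore p H) := by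
  intro v hv
  have hv' : QuotientGroup.mk' (pPrimeCore p H) v ∈ pCore p (H ⧸ pPrimeCore p H) := hv
  have hsurj := QuotientGroup.mk'_surjective (pPrimeCore p H)
  have hpg : IsPGroup p (pCore p (H ⧸ pPrimeCore p H)) := H14.pCore_isPGroup p _
  have h1 : pCore p (H ⧸ pPrimeCore p H) ≤
      ((S.mapSurjective hsurj : Sylow p (H ⧸ pPrimeCore p H)) : Subgroup (H ⧸ pPrimeCore p H)) :=
    hpg.le_sylow_of_normal _
  obtain ⟨s, hs, hsv⟩ := h1 hv'
  have h2 : s⁻¹ * v ∈ pPrimeCore p H := QuotientGroup.eq.mp hsv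
  have h3 : s ∈ pPrimePCore p H := by
    have : s = v * (s⁻¹ * v)⁻¹ := by group
    rw [this]
    exact mul_mem hv (inv_mem (pPrimeCore_le_pPrimePCore' p h2))
  have h4 : v * s⁻¹ ∈ pPrimeCore p H := by
    have : v * s⁻¹ = s * (s⁻¹ * v) * s⁻¹ := by group
    rw [this]; exact (Cfsg.pPrimeCore_normal p H).conj_mem _ h2 _
  have : v = (v * s⁻¹) * s := by group
  rw [this]
  exact Subgroup.mul_mem_sup h4 ⟨hs, h3⟩

/-- In a `p`-constrained group, the invariant `p'`-subgroups of a large abelian `p`-subgroup lie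
in `O_{p'}`. -/
theorem le_pPrimeCore_of_constrained [Finite H] (p : ℕ) [Fact p.Prime]
    (hH : IsPConstrained p H) (E : Subgroup H) (hEc : ∀ a ∈ E, ∀ b ∈ E, a * b = b * a)
    (hEp : IsPGroup p E)
    (hΩ : ∀ x ∈ Subgroup.centralizer (E : Set H), x ^ p = 1 → x ∈ E)
    (h2 : p = 2 → (∀ x ∈ Subgroup.centralizer (E : Set H),
        IsPGroup p (Subgroup.zpowers x) → x ∈ E) ∧
      ∀ T : Subgroup H, IsPGroup p T → ∀ u ∈ T, ∀ v ∈ T, ⁅⁅u, v⁆, v⁆ = 1)
    (Q : Subgroup H) (hQ : (Nat.card Q).Coprime p)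
    (hEQ : E ≤ Subgroup.normalizer (Q : Set H)) : Q ≤ pPrimeCore p H := by
  classical
  have hNn : (pPrimeCore p H).Normal := Cfsg.pPrimeCore_normal p H
  have hMn : (pPrimePCore p H).Normal := pPrimePCore_normal'' p
  have hNcop : (Nat.card (pPrimeCore p H)).Coprime p := H1.pPrimeCore_card_coprime p
  obtain ⟨S, hES⟩ := hEp.exists_le_sylow
  -- the Sylow subgroup `P = S ∩ O_{p',p}(H)` of `O_{p',p}(H)`
  have hPp : IsPGroup p ↥((S : Subgroup H) ⊓ pPrimePCore p H) := S.isPGroup'.to_le inf_le_left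
  have hidx : ¬ p ∣ (((S : Subgroup H) ⊓ pPrimePCore p H).subgroupOf (pPrimePCore p H)).index :=
    H3.sylow_inf_normal_relIndex S (pPrimePCore p H)
  have hPp' : IsPGroup p ↥(((S : Subgroup H) ⊓ pPrimePCore p H).subgroupOf (pPrimePCore p H)) :=
    hPp.comap_subtype
  have hTmap : ((hPp'.toSylow hidx : Sylow p ↥(pPrimePCore p H)) :
      Subgroup ↥(pPrimePCore p H)).map (pPrimePCore p H).subtype
        = (S : Subgroup H) ⊓ pPrimePCore p H := by
    rw [IsPGroup.toSylow_coe]
    exact Subgroup.map_subgroupOf_eq_of_le inf_le_right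
  have hCP : Subgroup.centralizer ((((S : Subgroup H) ⊓ pPrimePCore p H : Subgroup H)) : Set H)
      ≤ pPrimePCore p H := by
    have := hH (hPp'.toSylow hidx)
    rwa [hTmap] at this
  have hEP : E ≤ Subgroup.normalizer ((((S : Subgroup H) ⊓ pPrimePCore p H : Subgroup H)) : Set H) := by
    apply le_normalizer_of_conj_mem
    intro e he y hy
    exact Subgroup.mem_inf.mpr ⟨(S : Subgroup H).mul_mem ((S : Subgroup H).mul_mem (hES he) hy.1)
      ((S : Subgroup H).inv_mem (hES he)), hMn.conj_mem _ hy.2 _⟩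
  -- `X = O_{p'}(H) Q`
  have hXcop : (Nat.card ↥(pPrimeCore p H ⊔ Q)).Coprime p :=
    Nat.Coprime.coprime_dvd_left (H14.card_sup_dvd_of_normal_left (pPrimeCore p H) Q)
      (Nat.Coprime.mul_left hNcop hQ)
  have hEX : E ≤ Subgroup.normalizer ((pPrimeCore p H ⊔ Q : Subgroup H) : Set H) := by
    have h1 : E ≤ Subgroup.normalizer ((pPrimeCore p H : Subgroup H) : Set H) := by
      rw [Subgroup.normalizer_eq_top]; exact le_top
    exact le_normalizer_sup' h1 hEQ
  -- `X₁ = N_X(P)`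
  have hX₁cop : (Nat.card ↥((pPrimeCore p H ⊔ Q) ⊓
      Subgroup.normalizer ((((S : Subgroup H) ⊓ pPrimePCore p H : Subgroup H)) : Set H))).Coprime p :=
    Nat.Coprime.coprime_dvd_left (Subgroup.card_dvd_of_le inf_le_left) hXcop
  have hEX₁ : E ≤ Subgroup.normalizer (((pPrimeCore p H ⊔ Q) ⊓
      Subgroup.normalizer ((((S : Subgroup H) ⊓ pPrimePCore p H : Subgroup H)) : Set H) :
        Subgroup H) : Set H) := by
    apply le_normalizer_of_conj_mem
    intro e he y hy
    refine Subgroup.mem_inf.mpr ⟨(Subgroup.mem_normalizer_iff.mp (hEX he) _).mp hy.1, ?_⟩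
    exact Subgroup.mul_mem _ (Subgroup.mul_mem _ (hEP he) hy.2) (Subgroup.inv_mem _ (hEP he))
  have hX₁P : ∀ g, g ∈ (pPrimeCore p H ⊔ Q) ⊓
      Subgroup.normalizer ((((S : Subgroup H) ⊓ pPrimePCore p H : Subgroup H)) : Set H) →
      g ∈ (S : Subgroup H) ⊓ pPrimePCore p H → g = 1 := by
    intro g hg1 hg2
    have h1 : orderOf g ∣ Nat.card ↥((pPrimeCore p H ⊔ Q) ⊓
        Subgroup.normalizer ((((S : Subgroup H) ⊓ pPrimePCore p H : Subgroup H)) : Set H)) := by
      have := orderOf_dvd_natCard (⟨g, hg1⟩ : ↥((pPrimeCore p H ⊔ Q) ⊓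
        Subgroup.normalizer ((((S : Subgroup H) ⊓ pPrimePCore p H : Subgroup H)) : Set H)))
      rwa [Subgroup.orderOf_mk] at this
    obtain ⟨k, hk⟩ := hPp ⟨g, hg2⟩
    have h2 : g ^ p ^ k = 1 := by
      have := congrArg Subtype.val hk
      rwa [Subgroup.coe_pow] at this
    have h3 : orderOf g ∣ p ^ k := orderOf_dvd_of_pow_eq_one h2
    have h4 : orderOf g ∣ 1 := by
      have := Nat.dvd_gcd h1 h3
      rwa [Nat.Coprime.gcd_eq_one (Nat.Coprime.pow_right k hX₁cop)] at this
    exact orderOf_eq_one_iff.mp (Nat.dvd_one.mp h4)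
  have hcentE : ∀ t ∈ (S : Subgroup H) ⊓ pPrimePCore p H, t ∈ E →
      ∀ k ∈ (pPrimeCore p H ⊔ Q) ⊓
        Subgroup.normalizer ((((S : Subgroup H) ⊓ pPrimePCore p H : Subgroup H)) : Set H),
      k * t = t * k := by
    intro t htP htE k hk
    have h1 : k * t * k⁻¹ * t⁻¹ ∈ (pPrimeCore p H ⊔ Q) ⊓
        Subgroup.normalizer ((((S : Subgroup H) ⊓ pPrimePCore p H : Subgroup H)) : Set H) := by
      have := (Subgroup.mem_normalizer_iff.mp (hEX₁ htE) _).mp (Subgroup.inv_mem _ hk)
      have e : k * t * k⁻¹ * t⁻¹ = k * (t * k⁻¹ * t⁻¹) := by group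
      rw [e]; exact Subgroup.mul_mem _ hk this
    have h2 : k * t * k⁻¹ * t⁻¹ ∈ (S : Subgroup H) ⊓ pPrimePCore p H := by
      have := (Subgroup.mem_normalizer_iff.mp hk.2 _).mp htP
      exact Subgroup.mul_mem _ this (Subgroup.inv_mem _ htP)
    have h3 := hX₁P _ h1 h2
    have : k * t = (k * t * k⁻¹ * t⁻¹) * (t * k) := by group
    rw [this, h3, one_mul]
  have hdata : PQData p E ((S : Subgroup H) ⊓ pPrimePCore p H) ((pPrimeCore p H ⊔ Q) ⊓
      Subgroup.normalizer ((((S : Subgroup H) ⊓ pPrimePCore p H : Subgroup H)) : Set H)) :=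
    { hP := hPp
      hX := hX₁cop
      hEP := hEP
      hXP := inf_le_right
      hEX := hEX₁
      hcent := fun t ht hE htp k hk =>
        hcentE t ht (hΩ t (Subgroup.mem_centralizer_iff.mpr (fun e he => hE e he)) htp) k hk
      h2 := fun hp2 => ⟨fun t ht hE k hk =>
        hcentE t ht ((h2 hp2).1 t (Subgroup.mem_centralizer_iff.mpr (fun e he => hE e he))
          (hPp.to_le (Subgroup.zpowers_le.mpr ht))) k hk,
        fun e he t ht => (h2 hp2).2 (S : Subgroup H) S.isPGroup' e (hES he) t ht.1⟩ }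
  have hX₁C := pq_centralizer hEp hEc _ _ _ rfl hdata
  have hX₁N : (pPrimeCore p H ⊔ Q) ⊓
      Subgroup.normalizer ((((S : Subgroup H) ⊓ pPrimePCore p H : Subgroup H)) : Set H)
      ≤ pPrimeCore p H := by
    intro g hg
    have hgM : g ∈ pPrimePCore p H := hCP (hX₁C hg)
    have hpg : IsPGroup p (pCore p (H ⧸ pPrimeCore p H)) := H14.pCore_isPGroup p _
    obtain ⟨k, hk⟩ := hpg ⟨QuotientGroup.mk' (pPrimeCore p H) g, hgM⟩
    have h1 : g ^ p ^ k ∈ pPrimeCore p H := by
      have := congrArg Subtype.val hk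
      rw [Subgroup.coe_pow, Subgroup.coe_one, ← map_pow] at this
      exact (QuotientGroup.eq_one_iff _).mp this
    have h2 : (p ^ k).Coprime (orderOf g) := by
      have h3 : orderOf g ∣ Nat.card ↥((pPrimeCore p H ⊔ Q) ⊓
          Subgroup.normalizer ((((S : Subgroup H) ⊓ pPrimePCore p H : Subgroup H)) : Set H)) := by
        have := orderOf_dvd_natCard (⟨g, hg⟩ : ↥((pPrimeCore p H ⊔ Q) ⊓
          Subgroup.normalizer ((((S : Subgroup H) ⊓ pPrimePCore p H : Subgroup H)) : Set H)))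
        rwa [Subgroup.orderOf_mk] at this
      exact (Nat.Coprime.coprime_dvd_left h3 (Nat.Coprime.pow_right k hX₁cop)).symm
    obtain ⟨m, hm⟩ := exists_pow_eq_self_of_coprime h2
    rw [← hm]; exact Subgroup.pow_mem _ h1 m
  -- Frattini argument
  have htop : pPrimeCore p H ⊔
      Subgroup.normalizer ((((S : Subgroup H) ⊓ pPrimePCore p H : Subgroup H)) : Set H) = ⊤ := by
    have h1 := Sylow.normalizer_sup_eq_top (hPp'.toSylow hidx)
    rw [hTmap] at h1
    apply top_unique
    rw [← h1]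
    apply sup_le le_sup_right
    exact (pPrimePCore_le_sup' S).trans (sup_le_sup_left Subgroup.le_normalizer _)
  have hfrat : pPrimeCore p H ⊔ Q ≤ pPrimeCore p H := by
    intro x hx
    have hx' : x ∈ ((pPrimeCore p H ⊔
        Subgroup.normalizer ((((S : Subgroup H) ⊓ pPrimePCore p H : Subgroup H)) : Set H) :
          Subgroup H) : Set H) := by
      rw [htop]; trivial
    rw [Subgroup.normal_mul] at hx'
    obtain ⟨n, hn, y, hy, rfl⟩ := Set.mem_mul.mp hx'
    have hyX : y ∈ pPrimeCore p H ⊔ Q := by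
      have : y = n⁻¹ * (n * y) := by group
      rw [this]
      exact Subgroup.mul_mem _ (Subgroup.inv_mem _ (Subgroup.mem_sup_left hn)) hx
    exact Subgroup.mul_mem _ hn (hX₁N ⟨hyX, hy⟩)
  exact le_sup_right.trans hfrat

end Cfsg.Agent.Lib.Helper30
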