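import Cfsg.Agent.Lib.Helper30.NormLemma
import Cfsg.Agent.Lib.Helper30.Cocyclic
import Cfsg.Agent.Lib.Helper30.CoprimeAb
import Cfsg.Agent.Lib.Helper30.Derived
import Cfsg.Agent.Lib.Helper30.Omega
import Cfsg.Agent.H3.Class2
import Cfsg.Agent.H3.PGroup

/-!
# A generalized `P × Q` lemma (helper30)

Let `E` be an abelian `p`-subgroup normalizing a `p'`-subgroup `X`, both normalizing a `p`-subgroup
`P`.  If `X` centralizes `C_P(E)` (for odd `p`: the elements of order `p` of `C_P(E)`; for `p = 2`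
we also need `[e, t, t] = 1` for `e ∈ E`, `t ∈ P`) then `X` centralizes `P`.
-/

set_option autoImplicit false
set_option linter.unusedSectionVars false

namespace Cfsg.Agent.Lib.Helper30

open Cfsg
open scoped commutatorElement

variable {G : Type*} [Group G]

/-- `N(P)` normalizes `C(P)`. -/
theorem normalizer_le_normalizer_centralizer (P : Subgroup G) :
    Subgroup.normalizer (P : Set G) ≤
      Subgroup.normalizer ((Subgroup.centralizer (P : Set G) : Subgroup G) : Set G) := by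
  have key : ∀ g ∈ Subgroup.normalizer (P : Set G), ∀ z ∈ Subgroup.centralizer (P : Set G),
      g * z * g⁻¹ ∈ Subgroup.centralizer (P : Set G) := by
    intro g hg z hz
    rw [Subgroup.mem_centralizer_iff]
    intro t ht
    have h1 : g⁻¹ * t * g⁻¹⁻¹ ∈ P :=
      (Subgroup.mem_normalizer_iff.mp (Subgroup.inv_mem _ hg) t).mp ht
    have h2 := Subgroup.mem_centralizer_iff.mp hz _ h1
    have e1 : t * (g * z * g⁻¹) = g * ((g⁻¹ * t * g⁻¹⁻¹) * z) * g⁻¹ := by group
    have e2 : g * z * g⁻¹ * t = g * (z * (g⁻¹ * t * g⁻¹⁻¹)) * g⁻¹ := by group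
    rw [e1, e2, h2]
  intro g hg
  rw [Subgroup.mem_normalizer_iff]
  intro z
  constructor
  · exact key g hg z
  · intro hz
    have := key g⁻¹ (Subgroup.inv_mem _ hg) _ hz
    have e : g⁻¹ * (g * z * g⁻¹) * g⁻¹⁻¹ = z := by group
    rwa [e] at this

/-- A subgroup closed under conjugation by the elements of `K` is normalized by `K`. -/
theorem le_normalizer_of_conj_mem {H K : Subgroup G}
    (h : ∀ g ∈ K, ∀ y ∈ H, g * y * g⁻¹ ∈ H) : K ≤ Subgroup.normalizer (H : Set G) := by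
  intro g hg
  rw [Subgroup.mem_normalizer_iff]
  intro z
  constructor
  · exact h g hg z
  · intro hz
    have := h g⁻¹ (K.inv_mem hg) _ hz
    have e : g⁻¹ * (g * z * g⁻¹) * g⁻¹⁻¹ = z := by group
    rwa [e] at this

/-- The elements of `N(C)` commuting modulo `C` with every element of `S`. -/
def commSub (C : Subgroup G) (S : Set G) : Subgroup G where
  carrier := {a | a ∈ Subgroup.normalizer (C : Set G) ∧ ∀ k ∈ S, ⁅a, k⁆ ∈ C}
  one_mem' := ⟨Subgroup.one_mem _, fun k _ => by simp⟩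
  mul_mem' := by
    rintro a b ⟨ha, ha'⟩ ⟨hb, hb'⟩
    refine ⟨Subgroup.mul_mem _ ha hb, fun k hk => ?_⟩
    have e : ⁅a * b, k⁆ = a * ⁅b, k⁆ * a⁻¹ * ⁅a, k⁆ := by
      simp only [commutatorElement_def]; group
    rw [e]
    exact C.mul_mem ((Subgroup.mem_normalizer_iff.mp ha _).mp (hb' k hk)) (ha' k hk)
  inv_mem' := by
    rintro a ⟨ha, ha'⟩
    refine ⟨Subgroup.inv_mem _ ha, fun k hk => ?_⟩
    have e : ⁅a⁻¹, k⁆ = a⁻¹ * ⁅a, k⁆⁻¹ * a⁻¹⁻¹ := by
      simp only [commutatorElement_def]; group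
    rw [e]
    exact (Subgroup.mem_normalizer_iff.mp (Subgroup.inv_mem _ ha) _).mp (C.inv_mem (ha' k hk))

theorem mem_commSub {C : Subgroup G} {S : Set G} {a : G} :
    a ∈ commSub C S ↔ a ∈ Subgroup.normalizer (C : Set G) ∧ ∀ k ∈ S, ⁅a, k⁆ ∈ C := Iff.rfl

/-- The hypotheses of the generalized `P × Q` lemma. -/
structure PQData (p : ℕ) (E P X : Subgroup G) : Prop where
  hP : IsPGroup p P
  hX : (Nat.card X).Coprime p
  hEP : E ≤ Subgroup.normalizer (P : Set G)
  hXP : X ≤ Subgroup.normalizer (P : Set G)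
  hEX : E ≤ Subgroup.normalizer (X : Set G)
  hcent : ∀ t ∈ P, (∀ e ∈ E, e * t = t * e) → t ^ p = 1 → ∀ k ∈ X, k * t = t * k
  h2 : p = 2 → (∀ t ∈ P, (∀ e ∈ E, e * t = t * e) → ∀ k ∈ X, k * t = t * k) ∧
    ∀ e ∈ E, ∀ t ∈ P, ⁅⁅e, t⁆, t⁆ = 1

theorem PQData.mono {p : ℕ} {E P X P' X' : Subgroup G} (h : PQData p E P X) (hP' : P' ≤ P)
    (hX' : X' ≤ X) (hEP' : E ≤ Subgroup.normalizer (P' : Set G))
    (hXP' : X' ≤ Subgroup.normalizer (P' : Set G))
    (hEX' : E ≤ Subgroup.normalizer (X' : Set G)) : PQData p E P' X' where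
  hP := h.hP.to_le hP'
  hX := Nat.Coprime.coprime_dvd_left (Subgroup.card_dvd_of_le hX') h.hX
  hEP := hEP'
  hXP := hXP'
  hEX := hEX'
  hcent := fun t ht hE htp k hk => h.hcent t (hP' ht) hE htp k (hX' hk)
  h2 := fun hp => ⟨fun t ht hE k hk => (h.h2 hp).1 t (hP' ht) hE k (hX' hk),
    fun e he t ht => (h.h2 hp).2 e he t (hP' ht)⟩

/-- A minimal counterexample to the generalized `P × Q` lemma. -/
structure MinCex (p : ℕ) (E P X : Subgroup G) : Prop extends PQData p E P X where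
  hEp : IsPGroup p E
  hEc : ∀ a ∈ E, ∀ b ∈ E, a * b = b * a
  hmin : ∀ P' X' : Subgroup G, PQData p E P' X' →
    Nat.card P' + Nat.card X' < Nat.card P + Nat.card X →
      X' ≤ Subgroup.centralizer (P' : Set G)
  hne : ¬ X ≤ Subgroup.centralizer (P : Set G)

namespace MinCex

variable [Finite G] {p : ℕ} [Fact p.Prime] {E P X : Subgroup G}

theorem cent_of_lt_P (h : MinCex p E P X) {P' : Subgroup G} (hP' : P' < P)
    (hE : E ≤ Subgroup.normalizer (P' : Set G)) (hX : X ≤ Subgroup.normalizer (P' : Set G)) :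
    X ≤ Subgroup.centralizer (P' : Set G) :=
  h.hmin P' X (h.toPQData.mono hP'.le le_rfl hE hX h.hEX)
    (Nat.add_lt_add_right (card_lt_card_of_lt hP') _)

theorem cent_of_lt_X (h : MinCex p E P X) {X' : Subgroup G} (hX' : X' < X)
    (hE : E ≤ Subgroup.normalizer (X' : Set G)) : X' ≤ Subgroup.centralizer (P : Set G) :=
  h.hmin P X' (h.toPQData.mono le_rfl hX'.le h.hEP (hX'.le.trans h.hXP) hE)
    (Nat.add_lt_add_left (card_lt_card_of_lt hX') _)

theorem coprime (h : MinCex p E P X) : (Nat.card X).Coprime (Nat.card P) := by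
  obtain ⟨n, hn⟩ := IsPGroup.iff_card.mp h.hP
  rw [hn]
  exact Nat.Coprime.pow_right n h.hX

theorem solvP (h : MinCex p E P X) : Group.IsSolvable ↥P := by
  have := h.hP.isNilpotent
  infer_instance

theorem P_ne_bot (h : MinCex p E P X) : P ≠ ⊥ := by
  intro hP
  apply h.hne
  intro k _
  rw [Subgroup.mem_centralizer_iff]
  intro t ht
  rw [hP] at ht
  have : t = 1 := Subgroup.mem_bot.mp ht
  rw [this]; simp

theorem comm_eq (h : MinCex p E P X) : ⁅P, X⁆ = P := by
  have hle : ⁅P, X⁆ ≤ P := H1.commutator_le_of_le_normalizer X P h.hXP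
  by_contra hne
  have hlt : ⁅P, X⁆ < P := lt_of_le_of_ne hle hne
  have hE : E ≤ Subgroup.normalizer ((⁅P, X⁆ : Subgroup G) : Set G) :=
    H1.le_normalizer_commutator E P X h.hEP h.hEX
  have hX : X ≤ Subgroup.normalizer ((⁅P, X⁆ : Subgroup G) : Set G) :=
    le_normalizer_commutator_right' P X
  have h1 := h.cent_of_lt_P hlt hE hX
  have h2 := H1.coprime_commutator_commutator X P h.hXP h.coprime (Or.inr h.solvP)
  have h3 : ⁅⁅P, X⁆, X⁆ = ⊥ := by
    rw [Subgroup.commutator_comm]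
    exact Subgroup.commutator_eq_bot_iff_le_centralizer.mpr h1
  rw [h3] at h2
  apply h.hne
  rw [← Subgroup.commutator_eq_bot_iff_le_centralizer, Subgroup.commutator_comm]
  exact h2.symm

/-- A proper `XE`-invariant normal subgroup of `P` is central in `P`. -/
theorem central_of_lt (h : MinCex p E P X) {F : Subgroup G} (hF : F < P)
    (hPF : P ≤ Subgroup.normalizer (F : Set G)) (hE : E ≤ Subgroup.normalizer (F : Set G))
    (hX : X ≤ Subgroup.normalizer (F : Set G)) : F ≤ Subgroup.centralizer (P : Set G) := by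
  have h1 : X ≤ Subgroup.centralizer (F : Set G) := h.cent_of_lt_P hF hE hX
  have h2 : ⁅F, X⁆ = ⊥ := by
    rw [Subgroup.commutator_comm]
    exact Subgroup.commutator_eq_bot_iff_le_centralizer.mpr h1
  have h3 : ⁅P, F⁆ ≤ F := by
    rw [Subgroup.commutator_comm]
    exact H1.commutator_le_of_le_normalizer P F hPF
  have h4 : ⁅⁅P, F⁆, X⁆ = ⊥ := by
    rw [eq_bot_iff, ← h2]
    exact Subgroup.commutator_mono h3 le_rfl
  have h5 : ⁅⁅F, X⁆, P⁆ = ⊥ := by
    rw [h2]; exact Subgroup.commutator_bot_left P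
  have h6 := Subgroup.commutator_commutator_eq_bot_of_rotate h4 h5
  rw [Subgroup.commutator_comm X P, h.comm_eq] at h6
  rw [Subgroup.le_centralizer_iff]
  exact Subgroup.commutator_eq_bot_iff_le_centralizer.mp h6

theorem derived_lt (h : MinCex p E P X) : ⁅P, P⁆ < P := by
  have := h.solvP
  exact H1.commutator_lt_of_isSolvable P h.P_ne_bot

theorem derived_le_cent (h : MinCex p E P X) : ⁅P, P⁆ ≤ Subgroup.centralizer (P : Set G) :=
  h.central_of_lt h.derived_lt (H1.le_normalizer_commutator P P P Subgroup.le_normalizer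
    Subgroup.le_normalizer) (H1.le_normalizer_commutator E P P h.hEP h.hEP)
    (H1.le_normalizer_commutator X P P h.hXP h.hXP)

theorem cent_derived (h : MinCex p E P X) :
    X ≤ Subgroup.centralizer ((⁅P, P⁆ : Subgroup G) : Set G) :=
  h.cent_of_lt_P h.derived_lt (H1.le_normalizer_commutator E P P h.hEP h.hEP)
    (H1.le_normalizer_commutator X P P h.hXP h.hXP)

theorem mem_derived_of_fixed (h : MinCex p E P X) {s : G} (hs : s ∈ P)
    (hfix : ∀ k ∈ X, k * s * k⁻¹ * s⁻¹ ∈ ⁅P, P⁆) : s ∈ ⁅P, P⁆ :=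
  mem_of_fixed_of_abelian_section (A := X) (D := P) (M := ⁅P, P⁆) h.hXP
    (H1.le_normalizer_commutator X P P h.hXP h.hXP)
    (H1.le_normalizer_commutator P P P Subgroup.le_normalizer Subgroup.le_normalizer)
    h.derived_lt.le le_rfl h.coprime (by rw [h.comm_eq]; exact le_sup_left) hs hfix

/-- The image in `G` of the Frattini subgroup of `P` is normalized by `N(P)`. -/
theorem frat_normal (P : Subgroup G) : Subgroup.normalizer (P : Set G) ≤
    Subgroup.normalizer (((frattini ↥P).map P.subtype : Subgroup G) : Set G) := by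
  intro g hg
  have key : ∀ g ∈ Subgroup.normalizer (P : Set G), ∀ y ∈ (frattini ↥P).map P.subtype,
      g * y * g⁻¹ ∈ (frattini ↥P).map P.subtype := by
    rintro g hg _ ⟨y, hy, rfl⟩
    refine ⟨conjAut P g hg y, ?_, rfl⟩
    have hchar : (frattini ↥P).Characteristic := inferInstance
    exact (Subgroup.characteristic_iff_map_le.mp hchar (conjAut P g hg)) ⟨y, hy, rfl⟩
  rw [Subgroup.mem_normalizer_iff]
  intro z
  constructor
  · exact key g hg z
  · intro hz
    have := key g⁻¹ (Subgroup.inv_mem _ hg) _ hz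
    have e : g⁻¹ * (g * z * g⁻¹) * g⁻¹⁻¹ = z := by group
    rwa [e] at this

theorem frat_lt (h : MinCex p E P X) : (frattini ↥P).map P.subtype < P := by
  have hnt : Nontrivial ↥P := (Subgroup.nontrivial_iff_ne_bot P).mpr h.P_ne_bot
  have h1 : frattini ↥P < ⊤ := by
    obtain ⟨K, hK⟩ : ∃ K : Subgroup ↥P, IsCoatom K := by
      rcases eq_top_or_exists_le_coatom (⊥ : Subgroup ↥P) with h0 | ⟨K, hK, -⟩
      · exact absurd h0 bot_ne_top
      · exact ⟨K, hK⟩
    exact lt_of_le_of_lt (frattini_le_coatom hK) hK.lt_top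
  have h2 := Subgroup.map_subtype_lt_map_subtype.mpr h1
  rwa [← MonoidHom.range_eq_map, Subgroup.range_subtype] at h2

theorem pow_mem_center (h : MinCex p E P X) {t : G} (ht : t ∈ P) :
    t ^ p ∈ Subgroup.centralizer (P : Set G) ∧ ∀ k ∈ X, k * t ^ p = t ^ p * k := by
  have hF : t ^ p ∈ (frattini ↥P).map P.subtype :=
    ⟨(⟨t, ht⟩ : ↥P) ^ p, H3.pow_mem_frattini h.hP ⟨t, ht⟩, rfl⟩
  have hc := h.central_of_lt h.frat_lt (Subgroup.le_normalizer.trans (frat_normal P))
    (h.hEP.trans (frat_normal P)) (h.hXP.trans (frat_normal P))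
  have hx := h.cent_of_lt_P h.frat_lt (h.hEP.trans (frat_normal P)) (h.hXP.trans (frat_normal P))
  exact ⟨hc hF, fun k hk => (Subgroup.mem_centralizer_iff.mp (hx hk) _ hF).symm⟩

theorem mul_pow_eq (h : MinCex p E P X) (hp : p ≠ 2) {u v : G} (hu : u ∈ P) (hv : v ∈ P) :
    (u * v) ^ p = u ^ p * v ^ p := by
  have hpp : p.Prime := Fact.out
  set U : ↥P := ⟨u, hu⟩ with hU
  set V : ↥P := ⟨v, hv⟩ with hV
  set τ : ↥P := V⁻¹ * U⁻¹ * V * U with hτdef
  have hrel : V * U = U * V * τ := by rw [hτdef]; group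
  have hτ : τ ∈ Subgroup.center ↥P := by
    rw [Subgroup.mem_center_iff]
    intro g
    apply Subtype.ext
    have h1 : (τ : G) ∈ ⁅P, P⁆ := by
      have : (τ : G) = ⁅v⁻¹, u⁻¹⁆ := by
        rw [hτdef, commutatorElement_def]; simp [hU, hV]
      rw [this]; exact Subgroup.commutator_mem_commutator (P.inv_mem hv) (P.inv_mem hu)
    have h2 := Subgroup.mem_centralizer_iff.mp (h.derived_le_cent h1) g g.2
    rw [Subgroup.coe_mul, Subgroup.coe_mul]
    exact h2
  have h1 := H3.mul_pow_of_rel hrel hτ p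
  have h2 := H3.pow_mul_of_rel hrel hτ p
  have hVp : V ^ p * U = U * V ^ p := by
    apply Subtype.ext
    have := Subgroup.mem_centralizer_iff.mp (h.pow_mem_center hv).1 u hu
    rw [Subgroup.coe_mul, Subgroup.coe_mul, Subgroup.coe_pow]
    exact this.symm
  have hτp : τ ^ p = 1 := by
    rw [hVp] at h2
    exact left_eq_mul.mp h2
  have hdvd : p ∣ p.choose 2 :=
    Nat.Prime.dvd_choose_self hpp (by norm_num) (lt_of_le_of_ne hpp.two_le (Ne.symm hp))
  obtain ⟨m, hm⟩ := hdvd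
  rw [hm, pow_mul, hτp, one_pow, mul_one] at h1
  have := congrArg Subtype.val h1
  rw [Subgroup.coe_pow, Subgroup.coe_mul, Subgroup.coe_mul, Subgroup.coe_pow, Subgroup.coe_pow]
    at this
  exact this

theorem pow_eq_one (h : MinCex p E P X) (hp : p ≠ 2) : ∀ t ∈ P, t ^ p = 1 := by
  let T : Subgroup G :=
    { carrier := {t | t ∈ P ∧ t ^ p = 1}
      one_mem' := ⟨P.one_mem, one_pow _⟩
      mul_mem' := by
        rintro a b ⟨ha, ha'⟩ ⟨hb, hb'⟩
        exact ⟨P.mul_mem ha hb, by rw [h.mul_pow_eq hp ha hb, ha', hb', one_mul]⟩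
      inv_mem' := by
        rintro a ⟨ha, ha'⟩
        exact ⟨P.inv_mem ha, by rw [inv_pow, ha', inv_one]⟩ }
  have hT : ⁅P, X⁆ ≤ T := by
    rw [Subgroup.commutator_le]
    intro t ht k hk
    have hmem : ⁅t, k⁆ ∈ P :=
      H1.commutator_le_of_le_normalizer X P h.hXP (Subgroup.commutator_mem_commutator ht hk)
    refine ⟨hmem, ?_⟩
    have h1 : k * t⁻¹ * k⁻¹ ∈ P :=
      (Subgroup.mem_normalizer_iff.mp (h.hXP hk) _).mp (P.inv_mem ht)
    have e : ⁅t, k⁆ = t * (k * t⁻¹ * k⁻¹) := by simp only [commutatorElement_def]; group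
    rw [e, h.mul_pow_eq hp ht h1, conj_pow, inv_pow]
    have hc : Commute k (t ^ p) := (h.pow_mem_center ht).2 k hk
    have hc' := hc.inv_right
    rw [hc'.eq]; group
  intro t ht
  have : t ∈ ⁅P, X⁆ := by rw [h.comm_eq]; exact ht
  exact (hT this).2

/-- In a minimal counterexample `X` centralizes all of `C_P(E)`. -/
theorem full (h : MinCex p E P X) :
    ∀ t ∈ P, (∀ e ∈ E, e * t = t * e) → ∀ k ∈ X, k * t = t * k := by
  by_cases hp : p = 2
  · exact (h.h2 hp).1
  · intro t ht hE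
    exact h.hcent t ht hE (h.pow_eq_one hp t ht)

theorem le_cent_of_comm (h : MinCex p E P X) {A : Subgroup G} (hA : A ≤ E)
    (hAX : ⁅A, X⁆ ≤ Subgroup.centralizer (P : Set G)) :
    A ≤ Subgroup.centralizer (P : Set G) := by
  have hAP : A ≤ Subgroup.normalizer (P : Set G) := hA.trans h.hEP
  have hlt : ⁅P, A⁆ < P :=
    H1.commutator_lt_of_pgroup p A P (h.hEp.to_le hA) h.hP hAP h.P_ne_bot
  have hEA : E ≤ Subgroup.normalizer (A : Set G) := by
    apply le_normalizer_of_conj_mem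
    intro e he a ha
    have := h.hEc e he a (hA ha)
    rw [this, mul_inv_cancel_right]; exact ha
  have hE : E ≤ Subgroup.normalizer ((⁅P, A⁆ : Subgroup G) : Set G) :=
    H1.le_normalizer_commutator E P A h.hEP hEA
  have hX : X ≤ Subgroup.normalizer ((⁅P, A⁆ : Subgroup G) : Set G) := by
    apply le_normalizer_of_conj_mem
    intro k hk y hy
    rw [Subgroup.commutator_def] at hy
    induction hy using Subgroup.closure_induction with
    | mem y hy =>
      obtain ⟨t, ht, a, ha, rfl⟩ := hy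
      have hz : ⁅k, a⁆ ∈ Subgroup.centralizer (P : Set G) := by
        rw [← commutatorElement_inv]
        exact Subgroup.inv_mem _ (hAX (Subgroup.commutator_mem_commutator ha hk))
      have ht' : k * t * k⁻¹ ∈ P := (Subgroup.mem_normalizer_iff.mp (h.hXP hk) _).mp ht
      have hw : a * (k * t * k⁻¹)⁻¹ * a⁻¹ ∈ P :=
        (Subgroup.mem_normalizer_iff.mp (hAP ha) _).mp (P.inv_mem ht')
      have e1 : k * ⁅t, a⁆ * k⁻¹
          = (k * t * k⁻¹) * (⁅k, a⁆ * (a * (k * t * k⁻¹)⁻¹ * a⁻¹) * ⁅k, a⁆⁻¹) := by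
        simp only [commutatorElement_def]; group
      have e2 : ⁅k, a⁆ * (a * (k * t * k⁻¹)⁻¹ * a⁻¹) * ⁅k, a⁆⁻¹
          = a * (k * t * k⁻¹)⁻¹ * a⁻¹ := by
        have := Subgroup.mem_centralizer_iff.mp hz _ hw
        rw [← this, mul_inv_cancel_right]
      rw [e1, e2]
      have e3 : (k * t * k⁻¹) * (a * (k * t * k⁻¹)⁻¹ * a⁻¹) = ⁅k * t * k⁻¹, a⁆ := by
        simp only [commutatorElement_def]; group
      rw [e3]
      exact Subgroup.commutator_mem_commutator ht' ha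
    | one => simp
    | mul y z _ _ hy hz =>
      have : k * (y * z) * k⁻¹ = (k * y * k⁻¹) * (k * z * k⁻¹) := by group
      rw [this]; exact Subgroup.mul_mem _ hy hz
    | inv y _ hy =>
      have : k * y⁻¹ * k⁻¹ = (k * y * k⁻¹)⁻¹ := by group
      rw [this]; exact Subgroup.inv_mem _ hy
  have h1 := h.cent_of_lt_P hlt hE hX
  have h4 : ⁅⁅P, A⁆, X⁆ = ⊥ := by
    rw [Subgroup.commutator_comm]
    exact Subgroup.commutator_eq_bot_iff_le_centralizer.mpr h1
  have h5 : ⁅⁅A, X⁆, P⁆ = ⊥ := Subgroup.commutator_eq_bot_iff_le_centralizer.mpr hAX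
  have h6 := Subgroup.commutator_commutator_eq_bot_of_rotate h4 h5
  rw [Subgroup.commutator_comm X P, h.comm_eq] at h6
  rw [Subgroup.le_centralizer_iff]
  exact Subgroup.commutator_eq_bot_iff_le_centralizer.mp h6

/-- In a minimal counterexample, an element of `E` acting nontrivially on `P` commutes with no
element of `X` acting nontrivially on `P`, modulo `C(P)`. -/
theorem fpf (h : MinCex p E P X) {e k : G} (he : e ∈ E) (hk : k ∈ X)
    (hc : ⁅e, k⁆ ∈ Subgroup.centralizer (P : Set G)) :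
    k ∈ Subgroup.centralizer (P : Set G) ∨ e ∈ Subgroup.centralizer (P : Set G) := by
  have hNC := normalizer_le_normalizer_centralizer P
  have hkXe : k ∈ X ⊓ commSub (Subgroup.centralizer (P : Set G)) {e} := by
    refine Subgroup.mem_inf.mpr ⟨hk, mem_commSub.mpr ⟨hNC (h.hXP hk), ?_⟩⟩
    intro e' he'
    rw [Set.mem_singleton_iff.mp he', ← commutatorElement_inv]
    exact Subgroup.inv_mem _ hc
  have hEXe : E ≤ Subgroup.normalizer
      ((X ⊓ commSub (Subgroup.centralizer (P : Set G)) {e} : Subgroup G) : Set G) := by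
    apply le_normalizer_of_conj_mem
    intro a ha y hy
    obtain ⟨hy1, hy2⟩ := Subgroup.mem_inf.mp hy
    obtain ⟨hy2, hy3⟩ := mem_commSub.mp hy2
    refine Subgroup.mem_inf.mpr ⟨(Subgroup.mem_normalizer_iff.mp (h.hEX ha) _).mp hy1,
      mem_commSub.mpr ⟨?_, ?_⟩⟩
    · exact Subgroup.mul_mem _ (Subgroup.mul_mem _ (hNC (h.hEP ha)) hy2)
        (Subgroup.inv_mem _ (hNC (h.hEP ha)))
    · intro e' he'
      rw [Set.mem_singleton_iff.mp he']
      have hae : a * e = e * a := h.hEc a ha e he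
      have hae' : a⁻¹ * e * a = e := by rw [mul_assoc, ← hae, inv_mul_cancel_left]
      have e1 : ⁅a * y * a⁻¹, e⁆ = a * ⁅y, a⁻¹ * e * a⁆ * a⁻¹ := by
        simp only [commutatorElement_def]; group
      rw [e1, hae']
      exact (Subgroup.mem_normalizer_iff.mp (hNC (h.hEP ha)) _).mp (hy3 e rfl)
  by_cases hXeq : X ⊓ commSub (Subgroup.centralizer (P : Set G)) {e} = X
  · right
    have heA : e ∈ E ⊓ commSub (Subgroup.centralizer (P : Set G)) (X : Set G) := by
      refine Subgroup.mem_inf.mpr ⟨he, mem_commSub.mpr ⟨hNC (h.hEP he), ?_⟩⟩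
      intro k' hk'
      have hk'' : k' ∈ X ⊓ commSub (Subgroup.centralizer (P : Set G)) {e} := by
        rw [hXeq]; exact hk'
      have := (mem_commSub.mp (Subgroup.mem_inf.mp hk'').2).2 e rfl
      rw [← commutatorElement_inv]
      exact Subgroup.inv_mem _ this
    have hAX : ⁅E ⊓ commSub (Subgroup.centralizer (P : Set G)) (X : Set G), X⁆
        ≤ Subgroup.centralizer (P : Set G) := by
      rw [Subgroup.commutator_le]
      intro a ha k' hk'
      exact (mem_commSub.mp (Subgroup.mem_inf.mp ha).2).2 k' hk'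
    exact h.le_cent_of_comm inf_le_left hAX heA
  · left
    have hlt : X ⊓ commSub (Subgroup.centralizer (P : Set G)) {e} < X :=
      lt_of_le_of_ne inf_le_left hXeq
    exact h.cent_of_lt_X hlt hEXe hkXe

end MinCex

/-! ### Norms -/

/-- `t · c t c⁻¹ ⋯ c^{k-1} t c^{-(k-1)}`. -/
def nrmA (c t : G) (k : ℕ) : G := (t * c) ^ k * c⁻¹ ^ k

/-- `c^{k-1} t c^{-(k-1)} ⋯ c t c⁻¹ · t`. -/
def nrmB (c t : G) (k : ℕ) : G := c ^ k * (c⁻¹ * t) ^ k

theorem nrmA_succ (c t : G) (k : ℕ) :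
    nrmA c t (k + 1) = nrmA c t k * (c ^ k * t * c⁻¹ ^ k) := by
  unfold nrmA
  rw [pow_succ (t * c), pow_succ' c⁻¹]
  group

theorem nrmB_succ (c t : G) (k : ℕ) :
    nrmB c t (k + 1) = (c ^ k * t * c⁻¹ ^ k) * nrmB c t k := by
  unfold nrmB
  rw [pow_succ c, pow_succ' (c⁻¹ * t)]
  calc c ^ k * c * ((c⁻¹ * t) * (c⁻¹ * t) ^ k) = c ^ k * t * (c⁻¹ * t) ^ k := by
        simp only [mul_assoc, mul_inv_cancel_left]
    _ = c ^ k * t * c⁻¹ ^ k * (c ^ k * (c⁻¹ * t) ^ k) := by
        rw [inv_pow]; simp only [mul_assoc, inv_mul_cancel_left]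

theorem conj_pow_mem {P : Subgroup G} {c t : G} (hc : c ∈ Subgroup.normalizer (P : Set G))
    (ht : t ∈ P) (k : ℕ) : c ^ k * t * c⁻¹ ^ k ∈ P := by
  have h1 : c ^ k ∈ Subgroup.normalizer (P : Set G) := Subgroup.pow_mem _ hc k
  have := (Subgroup.mem_normalizer_iff.mp h1 t).mp ht
  rwa [← inv_pow] at this

theorem nrmA_mem {P : Subgroup G} {c t : G} (hc : c ∈ Subgroup.normalizer (P : Set G))
    (ht : t ∈ P) (k : ℕ) : nrmA c t k ∈ P := by
  induction k with
  | zero => simp [nrmA]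
  | succ k ih => rw [nrmA_succ]; exact P.mul_mem ih (conj_pow_mem hc ht k)

theorem nrmB_mem {P : Subgroup G} {c t : G} (hc : c ∈ Subgroup.normalizer (P : Set G))
    (ht : t ∈ P) (k : ℕ) : nrmB c t k ∈ P := by
  induction k with
  | zero => simp [nrmB]
  | succ k ih => rw [nrmB_succ]; exact P.mul_mem (conj_pow_mem hc ht k) ih

theorem nrmA_inv_mul_nrmB_mem {P : Subgroup G} {c t : G}
    (hc : c ∈ Subgroup.normalizer (P : Set G)) (ht : t ∈ P) (k : ℕ) :
    (nrmA c t k)⁻¹ * nrmB c t k ∈ ⁅P, P⁆ := by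
  induction k with
  | zero => simp [nrmA, nrmB]
  | succ k ih =>
    rw [nrmA_succ, nrmB_succ]
    have hyP : c ^ k * t * c⁻¹ ^ k ∈ P := conj_pow_mem hc ht k
    have e : (nrmA c t k * (c ^ k * t * c⁻¹ ^ k))⁻¹ * ((c ^ k * t * c⁻¹ ^ k) * nrmB c t k)
        = ⁅(c ^ k * t * c⁻¹ ^ k)⁻¹, (nrmA c t k)⁻¹⁆ * ((nrmA c t k)⁻¹ * nrmB c t k) := by
      simp only [commutatorElement_def]; group
    rw [e]
    exact Subgroup.mul_mem _ (Subgroup.commutator_mem_commutator (P.inv_mem hyP)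
      (P.inv_mem (nrmA_mem hc ht k))) ih

theorem conj_nrmA (c t : G) (k : ℕ) :
    c * nrmA c t k * c⁻¹ = t⁻¹ * nrmA c t k * (c ^ k * t * c⁻¹ ^ k) := by
  induction k with
  | zero => simp [nrmA]
  | succ k ih =>
    rw [nrmA_succ]
    have e : c * (nrmA c t k * (c ^ k * t * c⁻¹ ^ k)) * c⁻¹
        = (c * nrmA c t k * c⁻¹) * (c ^ (k + 1) * t * c⁻¹ ^ (k + 1)) := by
      rw [pow_succ' c, pow_succ c⁻¹]; group
    rw [e, ih]; group

theorem conj_nrmB (c t : G) (k : ℕ) :
    c * nrmB c t k * c⁻¹ = (c ^ k * t * c⁻¹ ^ k) * nrmB c t k * t⁻¹ := by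
  induction k with
  | zero => simp [nrmB]
  | succ k ih =>
    rw [nrmB_succ]
    have e : c * ((c ^ k * t * c⁻¹ ^ k) * nrmB c t k) * c⁻¹
        = (c ^ (k + 1) * t * c⁻¹ ^ (k + 1)) * (c * nrmB c t k * c⁻¹) := by
      rw [pow_succ' c, pow_succ c⁻¹]; group
    rw [e, ih]; group

theorem nrmA_comm {c t : G}
    (hcomm : ∀ i : ℕ, (c ^ i * t * c⁻¹ ^ i) * t = t * (c ^ i * t * c⁻¹ ^ i)) (k : ℕ) :
    nrmA c t k * t = t * nrmA c t k := by
  induction k with
  | zero => simp [nrmA]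
  | succ k ih => rw [nrmA_succ, mul_assoc, hcomm k, ← mul_assoc, ih, mul_assoc]

/-- A class two identity. -/
theorem conj_mul_conj_eq {a t : G}
    (h1 : (a⁻¹ * t⁻¹ * a * t) * a = a * (a⁻¹ * t⁻¹ * a * t))
    (h2 : (a⁻¹ * t⁻¹ * a * t) * t = t * (a⁻¹ * t⁻¹ * a * t)) :
    (t⁻¹ * a * t) * (t * a * t⁻¹) = a * a := by
  have e1 : t⁻¹ * a * t = a * (a⁻¹ * t⁻¹ * a * t) := by group
  have h3 : (a⁻¹ * t⁻¹ * a * t)⁻¹ * t = t * (a⁻¹ * t⁻¹ * a * t)⁻¹ :=
    (show Commute (a⁻¹ * t⁻¹ * a * t) t from h2).inv_left.eq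
  have e2 : t * a * t⁻¹ = a * (a⁻¹ * t⁻¹ * a * t)⁻¹ := by
    have e3 : a * (a⁻¹ * t⁻¹ * a * t)⁻¹ = a * (t * (a⁻¹ * t⁻¹ * a * t)⁻¹ * t⁻¹) := by
      rw [← h3, mul_inv_cancel_right]
    rw [e3]; group
  rw [e1, e2]
  have e4 : a * (a⁻¹ * t⁻¹ * a * t) * (a * (a⁻¹ * t⁻¹ * a * t)⁻¹)
      = a * ((a⁻¹ * t⁻¹ * a * t) * a) * (a⁻¹ * t⁻¹ * a * t)⁻¹ := by
    simp only [mul_assoc]
  rw [e4, h1, mul_assoc, mul_assoc, mul_inv_cancel, mul_one]

namespace MinCex

variable [Finite G] {p : ℕ} [Fact p.Prime] {E P X : Subgroup G}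

/-- In a minimal counterexample the norm `t · c t c⁻¹ ⋯` lies in the derived subgroup. -/
theorem nrm_mem_derived (h : MinCex p E P X) {c : G} (hcE : c ∈ E)
    (hgen : ∀ a ∈ E, ∃ j : ℤ, a⁻¹ * c ^ j ∈ Subgroup.centralizer (P : Set G))
    {n : ℕ} (hn : c ^ n ∈ Subgroup.centralizer (P : Set G)) {t : G} (ht : t ∈ P) :
    nrmA c t n ∈ ⁅P, P⁆ := by
  have hcP := h.hEP hcE
  have hfixc : ∀ s ∈ P, c * s = s * c → s ∈ ⁅P, P⁆ := by
    intro s hs hcs
    apply h.mem_derived_of_fixed hs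
    intro k hk
    have hE : ∀ e ∈ E, e * s = s * e := by
      intro e he
      obtain ⟨j, hj⟩ := hgen e he
      have h1 := Subgroup.mem_centralizer_iff.mp hj s hs
      have h2 : Commute (c ^ j) s := Commute.zpow_left (show Commute c s from hcs) j
      have h3 : Commute (e⁻¹ * c ^ j) s := h1.symm
      have h4 : Commute (c ^ j * (e⁻¹ * c ^ j)⁻¹) s := h2.mul_left h3.inv_left
      have e1 : c ^ j * (e⁻¹ * c ^ j)⁻¹ = e := by group
      rw [e1] at h4
      exact h4.eq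
    have := h.full s hs hE k hk
    have e : k * s * k⁻¹ * s⁻¹ = 1 := by rw [this]; group
    rw [e]
    exact Subgroup.one_mem _
  have hcn : c ^ n * t * c⁻¹ ^ n = t := by
    have := Subgroup.mem_centralizer_iff.mp hn t ht
    rw [← this, inv_pow, mul_inv_cancel_right]
  have haP : nrmA c t n ∈ P := nrmA_mem hcP ht n
  have hbP : nrmB c t n ∈ P := nrmB_mem hcP ht n
  have hca : c * nrmA c t n * c⁻¹ = t⁻¹ * nrmA c t n * t := by rw [conj_nrmA, hcn]
  have hcb : c * nrmB c t n * c⁻¹ = t * nrmB c t n * t⁻¹ := by rw [conj_nrmB, hcn]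
  by_cases hp : p = 2
  · have hcomm : ∀ i : ℕ, (c ^ i * t * c⁻¹ ^ i) * t = t * (c ^ i * t * c⁻¹ ^ i) := by
      intro i
      have h1 := (h.h2 hp).2 (c ^ i) (E.pow_mem hcE i) t ht
      have h2 : ⁅c ^ i, t⁆ * t = t * ⁅c ^ i, t⁆ := by
        rw [commutatorElement_eq_one_iff_mul_comm] at h1; exact h1
      have e : c ^ i * t * c⁻¹ ^ i = ⁅c ^ i, t⁆ * t := by
        rw [commutatorElement_def, inv_pow]; group
      rw [e]
      calc ⁅c ^ i, t⁆ * t * t = t * ⁅c ^ i, t⁆ * t := by rw [h2]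
        _ = t * (⁅c ^ i, t⁆ * t) := by rw [mul_assoc]
    have hat := nrmA_comm hcomm n
    have hca' : c * nrmA c t n * c⁻¹ = nrmA c t n := by
      rw [hca, mul_assoc, hat, inv_mul_cancel_left]
    exact hfixc _ haP (mul_inv_eq_iff_eq_mul.mp hca')
  · have hz : (nrmA c t n)⁻¹ * nrmB c t n ∈ ⁅P, P⁆ := nrmA_inv_mul_nrmB_mem hcP ht n
    have hzc := h.derived_le_cent hz
    have hκ : (nrmA c t n)⁻¹ * t⁻¹ * nrmA c t n * t ∈ ⁅P, P⁆ := by
      have : (nrmA c t n)⁻¹ * t⁻¹ * nrmA c t n * t = ⁅(nrmA c t n)⁻¹, t⁻¹⁆ := by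
        rw [commutatorElement_def]; group
      rw [this]; exact Subgroup.commutator_mem_commutator (P.inv_mem haP) (P.inv_mem ht)
    have hκc := h.derived_le_cent hκ
    have h1 := (Subgroup.mem_centralizer_iff.mp hκc _ haP).symm
    have h2 := (Subgroup.mem_centralizer_iff.mp hκc t ht).symm
    have h3 := conj_mul_conj_eq h1 h2
    have hzt : ((nrmA c t n)⁻¹ * nrmB c t n) * t⁻¹ = t⁻¹ * ((nrmA c t n)⁻¹ * nrmB c t n) :=
      (Subgroup.mem_centralizer_iff.mp hzc t⁻¹ (P.inv_mem ht)).symm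
    have hab : c * (nrmA c t n * nrmB c t n) * c⁻¹ = nrmA c t n * nrmB c t n := by
      have e1 : c * (nrmA c t n * nrmB c t n) * c⁻¹
          = (c * nrmA c t n * c⁻¹) * (c * nrmB c t n * c⁻¹) := by group
      rw [e1, hca, hcb]
      have e2 : t * nrmB c t n * t⁻¹
          = (t * nrmA c t n * t⁻¹) * ((nrmA c t n)⁻¹ * nrmB c t n) := by
        have : t * nrmB c t n * t⁻¹
            = t * nrmA c t n * (((nrmA c t n)⁻¹ * nrmB c t n) * t⁻¹) := by group
        rw [this, hzt]; group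
      rw [e2, ← mul_assoc, h3]; group
    have hs : nrmA c t n * nrmB c t n ∈ ⁅P, P⁆ :=
      hfixc _ (P.mul_mem haP hbP) (mul_inv_eq_iff_eq_mul.mp hab)
    have haa : nrmA c t n * nrmA c t n ∈ ⁅P, P⁆ := by
      have : nrmA c t n * nrmA c t n
          = (nrmA c t n * nrmB c t n) * ((nrmA c t n)⁻¹ * nrmB c t n)⁻¹ := by group
      rw [this]; exact Subgroup.mul_mem _ hs (Subgroup.inv_mem _ hz)
    have hodd : Odd (orderOf (nrmA c t n)) := by
      have hpp : p.Prime := Fact.out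
      obtain ⟨m, hm⟩ := h.hP ⟨nrmA c t n, haP⟩
      have hm' : nrmA c t n ^ p ^ m = 1 := by
        have := congrArg Subtype.val hm
        rwa [Subgroup.coe_pow] at this
      obtain ⟨j, -, hj⟩ := (Nat.dvd_prime_pow hpp).mp (orderOf_dvd_of_pow_eq_one hm')
      rw [hj]
      exact (hpp.odd_of_ne_two hp).pow
    obtain ⟨m, hm⟩ := hodd
    have : nrmA c t n = (nrmA c t n * nrmA c t n) ^ (m + 1) := by
      rw [← pow_two, ← pow_mul]
      have : 2 * (m + 1) = orderOf (nrmA c t n) + 1 := by omega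
      rw [this, pow_succ, pow_orderOf_eq_one, one_mul]
    rw [this]; exact Subgroup.pow_mem _ haa _

open scoped IsMulCommutative in
/-- In a minimal counterexample `E / C_E(P)` is cyclic. -/
theorem exists_gen (h : MinCex p E P X) :
    ∃ c ∈ E, ∀ a ∈ E, ∃ j : ℤ, a⁻¹ * c ^ j ∈ Subgroup.centralizer (P : Set G) := by
  have hCn : ((Subgroup.centralizer (P : Set G)).subgroupOf
      (Subgroup.normalizer (P : Set G))).Normal :=
    Subgroup.normal_subgroupOf_of_le_normalizer (normalizer_le_normalizer_centralizer P)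
  set π := QuotientGroup.mk' ((Subgroup.centralizer (P : Set G)).subgroupOf
      (Subgroup.normalizer (P : Set G))) with hπ
  have hker : ∀ g : ↥(Subgroup.normalizer (P : Set G)),
      π g = 1 ↔ (g : G) ∈ Subgroup.centralizer (P : Set G) := by
    intro g
    rw [hπ, QuotientGroup.mk'_apply, QuotientGroup.eq_one_iff, Subgroup.mem_subgroupOf]
  have hEbc : IsMulCommutative ↥((E.subgroupOf (Subgroup.normalizer (P : Set G))).map π) := by
    refine ⟨⟨fun a b => ?_⟩⟩
    obtain ⟨a', ha', haa⟩ := a.2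
    obtain ⟨b', hb', hbb⟩ := b.2
    apply Subtype.ext
    rw [Subgroup.coe_mul, Subgroup.coe_mul, ← haa, ← hbb, ← map_mul, ← map_mul]
    congr 1
    apply Subtype.ext
    exact h.hEc _ (Subgroup.mem_subgroupOf.mp ha') _ (Subgroup.mem_subgroupOf.mp hb')
  have hEXb : (E.subgroupOf (Subgroup.normalizer (P : Set G))).map π ≤
      Subgroup.normalizer (((X.subgroupOf (Subgroup.normalizer (P : Set G))).map π :
        Subgroup _) : Set _) := by
    have h1 : E.subgroupOf (Subgroup.normalizer (P : Set G)) ≤ Subgroup.normalizer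
        ((X.subgroupOf (Subgroup.normalizer (P : Set G)) : Subgroup _) : Set _) := by
      apply le_normalizer_of_conj_mem
      intro g hg y hy
      rw [Subgroup.mem_subgroupOf] at hg hy ⊢
      exact (Subgroup.mem_normalizer_iff.mp (h.hEX hg) _).mp hy
    exact (Subgroup.map_mono h1).trans (Subgroup.le_normalizer_map π)
  have hcop : (Nat.card ((E.subgroupOf (Subgroup.normalizer (P : Set G))).map π)).Coprime
      (Nat.card ((X.subgroupOf (Subgroup.normalizer (P : Set G))).map π)) := by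
    have h1 : Nat.card ((E.subgroupOf (Subgroup.normalizer (P : Set G))).map π) ∣
        Nat.card (E.subgroupOf (Subgroup.normalizer (P : Set G))) := Subgroup.card_map_dvd _ π
    have h2 : Nat.card ((X.subgroupOf (Subgroup.normalizer (P : Set G))).map π) ∣
        Nat.card (X.subgroupOf (Subgroup.normalizer (P : Set G))) := Subgroup.card_map_dvd _ π
    have h3 : Nat.card (E.subgroupOf (Subgroup.normalizer (P : Set G))) = Nat.card E :=
      Nat.card_congr (Subgroup.subgroupOfEquivOfLe h.hEP).toEquiv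
    have h4 : Nat.card (X.subgroupOf (Subgroup.normalizer (P : Set G))) = Nat.card X :=
      Nat.card_congr (Subgroup.subgroupOfEquivOfLe h.hXP).toEquiv
    rw [h3] at h1
    rw [h4] at h2
    obtain ⟨n, hn⟩ := IsPGroup.iff_card.mp h.hEp
    rw [hn] at h1
    exact Nat.Coprime.coprime_dvd_left h1
      (Nat.Coprime.coprime_dvd_right h2 (Nat.Coprime.pow_left n h.hX.symm))
  have hcyc : IsCyclic ↥((E.subgroupOf (Subgroup.normalizer (P : Set G))).map π) := by
    by_contra hnc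
    have hgen := genCent_eq hnc _ ((X.subgroupOf (Subgroup.normalizer (P : Set G))).map π) rfl
      hEXb hcop
    have hbot : genCent ((E.subgroupOf (Subgroup.normalizer (P : Set G))).map π)
        ((X.subgroupOf (Subgroup.normalizer (P : Set G))).map π) = ⊥ := by
      rw [eq_bot_iff]
      apply iSup₂_le
      rintro ab ⟨hab, hab1⟩ x hx
      obtain ⟨hx1, hx2⟩ := Subgroup.mem_inf.mp hx
      obtain ⟨e', he', rfl⟩ := hab
      obtain ⟨k', hk', rfl⟩ := hx1
      replace he' : (e' : G) ∈ E := he'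
      replace hk' : (k' : G) ∈ X := hk'
      have hcomm : π e' * π k' = π k' * π e' :=
        Subgroup.mem_centralizer_iff.mp hx2 _ (Set.mem_singleton _)
      have hc : ⁅(e' : G), (k' : G)⁆ ∈ Subgroup.centralizer (P : Set G) := by
        have h1 : π ⁅e', k'⁆ = 1 := by
          rw [commutatorElement_def, map_mul, map_mul, map_mul, map_inv, map_inv, hcomm]
          group
        exact (hker _).mp h1
      rcases h.fpf he' hk' hc with h1 | h1
      · rw [Subgroup.mem_bot]; exact (hker k').mpr h1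
      · exact absurd ((hker e').mpr h1) hab1
    rw [hbot] at hgen
    apply h.hne
    intro k hk
    have h1 : π ⟨k, h.hXP hk⟩ ∈ (X.subgroupOf (Subgroup.normalizer (P : Set G))).map π :=
      ⟨⟨k, h.hXP hk⟩, Subgroup.mem_subgroupOf.mpr hk, rfl⟩
    rw [← hgen, Subgroup.mem_bot] at h1
    exact (hker _).mp h1
  obtain ⟨g, hg⟩ := hcyc.exists_generator
  obtain ⟨c', hc', hcg⟩ := g.2
  replace hc' : (c' : G) ∈ E := hc'
  refine ⟨c', hc', fun a ha => ?_⟩
  have ha' : π ⟨a, h.hEP ha⟩ ∈ (E.subgroupOf (Subgroup.normalizer (P : Set G))).map π :=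
    ⟨⟨a, h.hEP ha⟩, Subgroup.mem_subgroupOf.mpr ha, rfl⟩
  obtain ⟨j, hj⟩ := Subgroup.mem_zpowers_iff.mp (hg ⟨_, ha'⟩)
  have hj' : π c' ^ j = π ⟨a, h.hEP ha⟩ := by
    have := congrArg Subtype.val hj
    rw [Subgroup.coe_zpow, ← hcg] at this
    exact this
  refine ⟨j, ?_⟩
  have h1 : π ((⟨a, h.hEP ha⟩ : ↥(Subgroup.normalizer (P : Set G)))⁻¹ * c' ^ j) = 1 := by
    rw [map_mul, map_inv, map_zpow, hj', inv_mul_cancel]
  have h2 := (hker _).mp h1
  rw [Subgroup.coe_mul, Subgroup.coe_inv, Subgroup.coe_zpow] at h2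
  exact h2

/-- There is no minimal counterexample. -/
theorem false_of (h : MinCex p E P X) : False := by
  classical
  obtain ⟨c, hcE, hgen⟩ := h.exists_gen
  have hex : ∃ n : ℕ, 0 < n ∧ c ^ n ∈ Subgroup.centralizer (P : Set G) :=
    ⟨orderOf c, orderOf_pos c, by rw [pow_orderOf_eq_one]; exact Subgroup.one_mem _⟩
  obtain ⟨hn0, hnC⟩ := Nat.find_spec hex
  have hnmin : ∀ i, 0 < i → i < Nat.find hex → c ^ i ∉ Subgroup.centralizer (P : Set G) :=
    fun i hi0 hin hi => Nat.find_min hex hin ⟨hi0, hi⟩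
  have hnrm : ∀ t ∈ P, nrmA c t (Nat.find hex) ∈ ⁅P, P⁆ :=
    fun t ht => h.nrm_mem_derived hcE hgen hnC ht
  have hPD : P ≤ Subgroup.normalizer ((⁅P, P⁆ : Subgroup G) : Set G) :=
    H1.le_normalizer_commutator P P P Subgroup.le_normalizer Subgroup.le_normalizer
  have hED : E ≤ Subgroup.normalizer ((⁅P, P⁆ : Subgroup G) : Set G) :=
    H1.le_normalizer_commutator E P P h.hEP h.hEP
  have hXD : X ≤ Subgroup.normalizer ((⁅P, P⁆ : Subgroup G) : Set G) :=
    H1.le_normalizer_commutator X P P h.hXP h.hXP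
  have hDn : ((⁅P, P⁆ : Subgroup G).subgroupOf P).Normal :=
    Subgroup.normal_subgroupOf_of_le_normalizer hPD
  have hV : ∀ a b : ↥P ⧸ (⁅P, P⁆ : Subgroup G).subgroupOf P, a * b = b * a := by
    intro a b
    induction a using QuotientGroup.induction_on with
    | H a =>
      induction b using QuotientGroup.induction_on with
      | H b =>
        rw [← QuotientGroup.mk_mul, ← QuotientGroup.mk_mul, QuotientGroup.eq,
          Subgroup.mem_subgroupOf]
        have h1 : (((a * b)⁻¹ * (b * a) : P) : G) = ⁅(b : G)⁻¹, (a : G)⁻¹⁆ := by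
          rw [commutatorElement_def]
          push_cast
          group
        rw [h1]
        exact Subgroup.commutator_mem_commutator (P.inv_mem b.2) (P.inv_mem a.2)
  have hXΓ : X ≤ Subgroup.normalizer (P : Set G) ⊓
      Subgroup.normalizer ((⁅P, P⁆ : Subgroup G) : Set G) := le_inf h.hXP hXD
  have hcΓ : c ∈ Subgroup.normalizer (P : Set G) ⊓
      Subgroup.normalizer ((⁅P, P⁆ : Subgroup G) : Set G) :=
    Subgroup.mem_inf.mpr ⟨h.hEP hcE, hED hcE⟩
  set ρ : ↥(Subgroup.normalizer (P : Set G) ⊓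
      Subgroup.normalizer ((⁅P, P⁆ : Subgroup G) : Set G)) →*
      (Monoid.End (↥P ⧸ (⁅P, P⁆ : Subgroup G).subgroupOf P))ˣ :=
    (secHom P ⁅P, P⁆).toHomUnits with hρdef
  have hρ : ∀ (g : ↥(Subgroup.normalizer (P : Set G) ⊓
      Subgroup.normalizer ((⁅P, P⁆ : Subgroup G) : Set G))) (s : ↥P),
      ((ρ g : (Monoid.End (↥P ⧸ (⁅P, P⁆ : Subgroup G).subgroupOf P))ˣ) :
        Monoid.End (↥P ⧸ (⁅P, P⁆ : Subgroup G).subgroupOf P)) (QuotientGroup.mk s)
      = QuotientGroup.mk (conjHom P g (Subgroup.mem_inf.mp g.2).1 s) := fun g s => rfl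
  have hfin : Finite ↥((X.subgroupOf (Subgroup.normalizer (P : Set G) ⊓
      Subgroup.normalizer ((⁅P, P⁆ : Subgroup G) : Set G))).map ρ) :=
    Finite.of_surjective (ρ.subgroupMap (X.subgroupOf _))
      (MonoidHom.subgroupMap_surjective _ _)
  -- `c` normalizes the image of `X`
  have hnorm : ∀ ξ ∈ (X.subgroupOf (Subgroup.normalizer (P : Set G) ⊓
      Subgroup.normalizer ((⁅P, P⁆ : Subgroup G) : Set G))).map ρ,
      ρ ⟨c, hcΓ⟩ * ξ * (ρ ⟨c, hcΓ⟩)⁻¹ ∈ (X.subgroupOf (Subgroup.normalizer (P : Set G) ⊓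
      Subgroup.normalizer ((⁅P, P⁆ : Subgroup G) : Set G))).map ρ := by
    rintro _ ⟨k, hk, rfl⟩
    refine ⟨⟨c, hcΓ⟩ * k * ⟨c, hcΓ⟩⁻¹, ?_, by rw [map_mul, map_mul, map_inv]⟩
    replace hk : (k : G) ∈ X := hk
    show c * (k : G) * c⁻¹ ∈ X
    exact (Subgroup.mem_normalizer_iff.mp (h.hEX hcE) _).mp hk
  -- elements of `X` acting trivially on `P / P'` centralize `P`
  have htriv : ∀ z ∈ X, (∀ t ∈ P, z * t * z⁻¹ * t⁻¹ ∈ ⁅P, P⁆) →
      z ∈ Subgroup.centralizer (P : Set G) := by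
    intro z hz hzt
    have hZX : Subgroup.zpowers z ≤ X := Subgroup.zpowers_le.mpr hz
    have h1 : ⁅Subgroup.zpowers z, P⁆ ≤ ⁅P, P⁆ := by
      rw [Subgroup.commutator_le]
      intro b hb t ht
      rw [commutatorElement_def]
      exact zpowers_commutator_mem (hXD hz) (hzt t ht) b hb
    have h2 : ⁅⁅P, Subgroup.zpowers z⁆, Subgroup.zpowers z⁆ = ⊥ := by
      rw [eq_bot_iff]
      have h3 : ⁅⁅P, P⁆, Subgroup.zpowers z⁆ = ⊥ := by
        rw [Subgroup.commutator_comm]
        exact Subgroup.commutator_eq_bot_iff_le_centralizer.mpr (hZX.trans h.cent_derived)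
      rw [← h3]
      exact Subgroup.commutator_mono (by rw [Subgroup.commutator_comm]; exact h1) le_rfl
    have hcopZ : (Nat.card (Subgroup.zpowers z)).Coprime (Nat.card P) :=
      Nat.Coprime.coprime_dvd_left (Subgroup.card_dvd_of_le hZX) h.coprime
    have h4 := H1.coprime_commutator_commutator (Subgroup.zpowers z) P (hZX.trans h.hXP) hcopZ
      (Or.inr h.solvP)
    rw [h2] at h4
    have h5 : Subgroup.zpowers z ≤ Subgroup.centralizer (P : Set G) := by
      rw [← Subgroup.commutator_eq_bot_iff_le_centralizer, Subgroup.commutator_comm]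
      exact h4.symm
    exact h5 (Subgroup.mem_zpowers z)
  have hfpf : ∀ i, 0 < i → i < Nat.find hex →
      ∀ ξ ∈ (X.subgroupOf (Subgroup.normalizer (P : Set G) ⊓
        Subgroup.normalizer ((⁅P, P⁆ : Subgroup G) : Set G))).map ρ,
      ρ ⟨c, hcΓ⟩ ^ i * ξ = ξ * ρ ⟨c, hcΓ⟩ ^ i → ξ = 1 := by
    rintro i hi0 hin _ ⟨k, hk, rfl⟩ hcomm
    replace hk : (k : G) ∈ X := hk
    have hz1 : ρ ((⟨c, hcΓ⟩ : ↥(Subgroup.normalizer (P : Set G) ⊓
        Subgroup.normalizer ((⁅P, P⁆ : Subgroup G) : Set G))) ^ i * k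
          * (⟨c, hcΓ⟩ ^ i)⁻¹ * k⁻¹) = 1 := by
      rw [map_mul, map_mul, map_mul, map_inv, map_inv, map_pow, hcomm]; group
    have hz : ⁅c ^ i, (k : G)⁆ ∈ Subgroup.centralizer (P : Set G) := by
      apply htriv
      · rw [commutatorElement_def]
        exact X.mul_mem ((Subgroup.mem_normalizer_iff.mp (h.hEX (E.pow_mem hcE i)) _).mp hk)
          (X.inv_mem hk)
      · intro t ht
        have h2 := congrArg (fun u : (Monoid.End (↥P ⧸ (⁅P, P⁆ : Subgroup G).subgroupOf P))ˣ =>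
          (u : Monoid.End (↥P ⧸ (⁅P, P⁆ : Subgroup G).subgroupOf P))
            (QuotientGroup.mk ⟨t, ht⟩)) hz1
        have h3 : (QuotientGroup.mk (conjHom P _ _ ⟨t, ht⟩) :
            ↥P ⧸ (⁅P, P⁆ : Subgroup G).subgroupOf P) = QuotientGroup.mk ⟨t, ht⟩ := h2
        rw [QuotientGroup.eq, Subgroup.mem_subgroupOf] at h3
        have h4 := (Subgroup.mem_normalizer_iff.mp (hPD ht) _).mp h3
        have h4' : t * (((c ^ i * (k : G) * (c ^ i)⁻¹ * (k : G)⁻¹) * t
            * (c ^ i * (k : G) * (c ^ i)⁻¹ * (k : G)⁻¹)⁻¹)⁻¹ * t) * t⁻¹ ∈ ⁅P, P⁆ := h4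
        have e : ⁅c ^ i, (k : G)⁆ * t * ⁅c ^ i, (k : G)⁆⁻¹ * t⁻¹
            = (t * (((c ^ i * (k : G) * (c ^ i)⁻¹ * (k : G)⁻¹) * t
            * (c ^ i * (k : G) * (c ^ i)⁻¹ * (k : G)⁻¹)⁻¹)⁻¹ * t) * t⁻¹)⁻¹ := by
          rw [commutatorElement_def]
          group
        rw [e]
        exact Subgroup.inv_mem _ h4'
    rcases h.fpf (E.pow_mem hcE i) hk hz with h1 | h1
    · apply Units.ext
      exact secHom_eq_one_of_mem_centralizer P ⁅P, P⁆ k h1
    · exact absurd h1 (hnmin i hi0 hin)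
  have hfix : ∀ v : ↥P ⧸ (⁅P, P⁆ : Subgroup G).subgroupOf P,
      (∀ ξ ∈ (X.subgroupOf (Subgroup.normalizer (P : Set G) ⊓
        Subgroup.normalizer ((⁅P, P⁆ : Subgroup G) : Set G))).map ρ,
        (ξ : Monoid.End (↥P ⧸ (⁅P, P⁆ : Subgroup G).subgroupOf P)) v = v) → v = 1 := by
    intro v hv
    induction v using QuotientGroup.induction_on with
    | H s =>
      rw [QuotientGroup.eq_one_iff, Subgroup.mem_subgroupOf]
      apply h.mem_derived_of_fixed s.2
      intro k hk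
      have h1 := hv (ρ ⟨k, hXΓ hk⟩) ⟨⟨k, hXΓ hk⟩, Subgroup.mem_subgroupOf.mpr hk, rfl⟩
      rw [hρ, QuotientGroup.eq, Subgroup.mem_subgroupOf] at h1
      have h2 := (Subgroup.mem_normalizer_iff.mp (hPD s.2) _).mp (Subgroup.inv_mem _ h1)
      have h2' : (s : G) * ((k * (s : G) * k⁻¹)⁻¹ * (s : G))⁻¹ * (s : G)⁻¹ ∈ ⁅P, P⁆ := h2
      have e : k * (s : G) * k⁻¹ * (s : G)⁻¹
          = (s : G) * ((k * (s : G) * k⁻¹)⁻¹ * (s : G))⁻¹ * (s : G)⁻¹ := by
        group
      rw [e]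
      exact h2'
  have hN : ∀ v : ↥P ⧸ (⁅P, P⁆ : Subgroup G).subgroupOf P,
      prodPow (ρ ⟨c, hcΓ⟩) v (Nat.find hex) = 1 := by
    intro v
    induction v using QuotientGroup.induction_on with
    | H s =>
      have key : ∀ k : ℕ, prodPow (ρ ⟨c, hcΓ⟩) (QuotientGroup.mk s) k
          = QuotientGroup.mk ⟨nrmA c s k, nrmA_mem (h.hEP hcE) s.2 k⟩ := by
        intro k
        induction k with
        | zero =>
          rw [prodPow_zero]
          symm
          rw [QuotientGroup.eq_one_iff, Subgroup.mem_subgroupOf]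
          simp [nrmA]
        | succ k ih =>
          rw [prodPow_succ, ih, ← map_pow, hρ, ← QuotientGroup.mk_mul]
          congr 1
          apply Subtype.ext
          show nrmA c (s : G) k * (c ^ k * (s : G) * (c ^ k)⁻¹) = nrmA c (s : G) (k + 1)
          rw [nrmA_succ, inv_pow]
      rw [key, QuotientGroup.eq_one_iff, Subgroup.mem_subgroupOf]
      exact hnrm s s.2
  have hcop : (Nat.card ((X.subgroupOf (Subgroup.normalizer (P : Set G) ⊓
      Subgroup.normalizer ((⁅P, P⁆ : Subgroup G) : Set G))).map ρ)).Coprime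
      (Nat.card (↥P ⧸ (⁅P, P⁆ : Subgroup G).subgroupOf P)) := by
    have h1 : Nat.card ((X.subgroupOf (Subgroup.normalizer (P : Set G) ⊓
        Subgroup.normalizer ((⁅P, P⁆ : Subgroup G) : Set G))).map ρ) ∣
        Nat.card (X.subgroupOf (Subgroup.normalizer (P : Set G) ⊓
          Subgroup.normalizer ((⁅P, P⁆ : Subgroup G) : Set G))) := Subgroup.card_map_dvd _ ρ
    have h2 : Nat.card (X.subgroupOf (Subgroup.normalizer (P : Set G) ⊓
        Subgroup.normalizer ((⁅P, P⁆ : Subgroup G) : Set G))) = Nat.card X :=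
      Nat.card_congr (Subgroup.subgroupOfEquivOfLe hXΓ).toEquiv
    rw [h2] at h1
    have h3 : Nat.card (↥P ⧸ (⁅P, P⁆ : Subgroup G).subgroupOf P) ∣ Nat.card P :=
      Subgroup.card_quotient_dvd_card _
    exact Nat.Coprime.coprime_dvd_left h1 (Nat.Coprime.coprime_dvd_right h3 h.coprime)
  have hall := eq_one_of_norm_trivial' hV _ (ρ ⟨c, hcΓ⟩) (Nat.find hex) hn0 hnorm hfpf hfix hN
    hcop
  have hPle : P ≤ ⁅P, P⁆ := by
    intro s hs
    have := hall (QuotientGroup.mk ⟨s, hs⟩)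
    rwa [QuotientGroup.eq_one_iff, Subgroup.mem_subgroupOf] at this
  exact absurd (le_antisymm h.derived_lt.le hPle) (ne_of_lt h.derived_lt)

end MinCex

/-- **Generalized `P × Q` lemma.**  Let `E` be an abelian `p`-subgroup normalizing a
`p'`-subgroup `X`, both normalizing a `p`-subgroup `P`; if `X` centralizes `C_P(E)` (with the
provisos of `PQData`) then `X` centralizes `P`. -/
theorem pq_centralizer [Finite G] {p : ℕ} [Fact p.Prime] {E : Subgroup G} (hEp : IsPGroup p E)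
    (hEc : ∀ a ∈ E, ∀ b ∈ E, a * b = b * a) :
    ∀ (N : ℕ) (P X : Subgroup G), Nat.card P + Nat.card X = N → PQData p E P X →
      X ≤ Subgroup.centralizer (P : Set G) := by
  intro N
  induction N using Nat.strong_induction_on with
  | _ N ih =>
    intro P X hN hd
    by_contra hne
    exact MinCex.false_of
      { toPQData := hd, hEp := hEp, hEc := hEc,
        hmin := fun P' X' hd' hlt => ih _ (hN ▸ hlt) P' X' rfl hd', hne := hne }

end Cfsg.Agent.Lib.Helper30
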