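import Mathlib
import Cfsg.Agent.H88.StNDefs
import Cfsg.Agent.H49.Eich1
import Cfsg.Agent.H49.OmegaGen
import Cfsg.Agent.H49.MinusForm
import Cfsg.Agent.H49.SimpleForms

/-!
# Generation of `O⁻_{2m+2}(F)` (helper30, piece S2549-GEN for helper88)

A subgroup of the isometry group of the minus type form containing the unitriangular
isometries, the block diagonal ones, the short monomials and the last flip is everything.
-/

set_option autoImplicit false
set_option linter.unusedSectionVars false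
set_option linter.unusedSimpArgs false
set_option linter.unusedVariables false

namespace Cfsg.Agent.Lib.Helper30.StN

open Matrix Cfsg.Agent.H88.StN Cfsg.Agent.H49

section eich
variable {ι : Type} [Fintype ι] [DecidableEq ι] {F : Type*} [Field F]

/-- The matrix of the Eichler transformation
`x ↦ x + f(u,x) w - (f(w,x) + Q(w) f(u,x)) u`. -/
def eichM (Q : QuadraticForm F (ι → F)) (u w : ι → F) : Matrix ι ι F :=
  1 + Matrix.vecMulVec w (Cfsg.polarVec (⇑Q) u) - Matrix.vecMulVec u (Cfsg.polarVec (⇑Q) w)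
    - Q w • Matrix.vecMulVec u (Cfsg.polarVec (⇑Q) u)

theorem eichM_mulVec (Q : QuadraticForm F (ι → F)) (u w x : ι → F) :
    eichM Q u w *ᵥ x = x + QuadraticMap.polar (⇑Q) u x • w
      - (QuadraticMap.polar (⇑Q) w x + Q w * QuadraticMap.polar (⇑Q) u x) • u := by
  rw [eichM, Matrix.sub_mulVec, Matrix.sub_mulVec, Matrix.add_mulVec, Matrix.one_mulVec,
    Matrix.smul_mulVec, Matrix.vecMulVec_mulVec, Matrix.vecMulVec_mulVec,
    Matrix.vecMulVec_mulVec, polarVec_dot, polarVec_dot]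
  funext k
  simp [mul_comm]
  ring

theorem eich_isometry (Q : QuadraticForm F (ι → F)) (u w : ι → F) (hu : Q u = 0)
    (huw : QuadraticMap.polar (⇑Q) u w = 0) (x : ι → F) :
    Q (eichM Q u w *ᵥ x) = Q x := by
  rw [eichM_mulVec, Q_sub_smul, hu, QuadraticMap.polar_add_right, QuadraticMap.polar_smul_right,
    huw, Q_add', QuadraticMap.map_smul, QuadraticMap.polar_smul_right,
    QuadraticMap.polar_comm (⇑Q) x w]
  simp only [smul_eq_mul]
  ring

theorem eich_mul_neg (Q : QuadraticForm F (ι → F)) (u w : ι → F) (hu : Q u = 0)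
    (huw : QuadraticMap.polar (⇑Q) u w = 0) :
    eichM Q u w * eichM Q u (-w) = 1 := by
  apply matrix_ext_mulVec
  intro x
  rw [← Matrix.mulVec_mulVec, Matrix.one_mulVec, eichM_mulVec Q u (-w), eichM_mulVec]
  have hwu : QuadraticMap.polar (⇑Q) w u = 0 := by rw [QuadraticMap.polar_comm]; exact huw
  have e1 : QuadraticMap.polar (⇑Q) u
      (x + QuadraticMap.polar (⇑Q) u x • -w
        - (QuadraticMap.polar (⇑Q) (-w) x + Q (-w) * QuadraticMap.polar (⇑Q) u x) • u)
      = QuadraticMap.polar (⇑Q) u x := by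
    rw [QuadraticMap.polar_sub_right, QuadraticMap.polar_add_right,
      QuadraticMap.polar_smul_right, QuadraticMap.polar_smul_right,
      QuadraticMap.polar_neg_right, huw, polar_self', hu]
    simp
  have e2 : QuadraticMap.polar (⇑Q) w
      (x + QuadraticMap.polar (⇑Q) u x • -w
        - (QuadraticMap.polar (⇑Q) (-w) x + Q (-w) * QuadraticMap.polar (⇑Q) u x) • u)
      = QuadraticMap.polar (⇑Q) w x - QuadraticMap.polar (⇑Q) u x * (2 * Q w) := by
    rw [QuadraticMap.polar_sub_right, QuadraticMap.polar_add_right,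
      QuadraticMap.polar_smul_right, QuadraticMap.polar_smul_right,
      QuadraticMap.polar_neg_right, hwu, polar_self']
    simp
    ring
  rw [e1, e2, QuadraticMap.polar_neg_left, QuadraticMap.map_neg]
  funext k
  simp only [Pi.add_apply, Pi.sub_apply, Pi.smul_apply, Pi.neg_apply, smul_eq_mul]
  ring

/-- The Eichler transformation as an isometry. -/
def eichG (Q : QuadraticForm F (ι → F)) (u w : ι → F) (hu : Q u = 0)
    (huw : QuadraticMap.polar (⇑Q) u w = 0) : ↥(Cfsg.isometryGroup F (⇑Q)) :=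
  ⟨⟨eichM Q u w, eichM Q u (-w), eich_mul_neg Q u w hu huw, by
      have h := eich_mul_neg Q u (-w) hu (by rw [QuadraticMap.polar_neg_right, huw, neg_zero])
      rwa [neg_neg] at h⟩,
    mem_isometryGroup_iff.mpr (fun x => eich_isometry Q u w hu huw x)⟩

theorem act_eichG (Q : QuadraticForm F (ι → F)) (u w : ι → F) (hu : Q u = 0)
    (huw : QuadraticMap.polar (⇑Q) u w = 0) (x : ι → F) :
    act (eichG Q u w hu huw) x = x + QuadraticMap.polar (⇑Q) u x • w
      - (QuadraticMap.polar (⇑Q) w x + Q w * QuadraticMap.polar (⇑Q) u x) • u :=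
  eichM_mulVec Q u w x

/-- Conjugation invariance of the set of reflections in a subgroup. -/
theorem refl_mem_of_act (Q : QuadraticForm F (ι → F)) (K : Subgroup ↥(Cfsg.isometryGroup F (⇑Q)))
    (g : ↥(Cfsg.isometryGroup F (⇑Q))) (hg : g ∈ K) (v : ι → F)
    (h : reflG Q (act g v) ∈ K) : reflG Q v ∈ K := by
  have hc : g * reflG Q v * g⁻¹ = reflG Q (act g v) := conj_reflG Q g v
  have e : reflG Q v = g⁻¹ * (g * reflG Q v * g⁻¹) * g := by group
  rw [e, hc]
  exact K.mul_mem (K.mul_mem (K.inv_mem hg) h) hg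

end eich

section minus
variable {m : ℕ} {F : Type*} [Field F] {a b : F}

/-- The isometry group of the bundled minus type form. -/
abbrev OQ (m : ℕ) (F : Type*) [Field F] (a b : F) : Type _ :=
  ↥(Cfsg.isometryGroup F (⇑(QMin m F a b)))

/-- The identity, between the two presentations of the isometry group. -/
def eO (m : ℕ) (F : Type*) [Field F] (a b : F) : OQ m F a b ≃* OGm m F a b :=
  MulEquiv.refl _

theorem QMin_apply' (x : (Fin m ⊕ Fin m) ⊕ Fin 2 → F) :
    QMin m F a b x = (∑ i : Fin m, x (Sum.inl (Sum.inl i)) * x (Sum.inl (Sum.inr i)))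
      + (x (Sum.inr 0) ^ 2 + a * x (Sum.inr 0) * x (Sum.inr 1) + b * x (Sum.inr 1) ^ 2) := rfl

theorem polar_QMin (x y : (Fin m ⊕ Fin m) ⊕ Fin 2 → F) :
    QuadraticMap.polar (⇑(QMin m F a b)) x y
      = (∑ i : Fin m, (x (Sum.inl (Sum.inl i)) * y (Sum.inl (Sum.inr i))
          + y (Sum.inl (Sum.inl i)) * x (Sum.inl (Sum.inr i))))
        + (2 * x (Sum.inr 0) * y (Sum.inr 0)
          + a * (x (Sum.inr 0) * y (Sum.inr 1) + x (Sum.inr 1) * y (Sum.inr 0))
          + 2 * b * x (Sum.inr 1) * y (Sum.inr 1)) := by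
  unfold QMin
  rw [polar_sumQ, polar_QP, polar_binQ]
  rfl

theorem polar_eV (i : Fin m) (x : (Fin m ⊕ Fin m) ⊕ Fin 2 → F) :
    QuadraticMap.polar (⇑(QMin m F a b)) (Pi.single (Sum.inl (Sum.inl i)) 1) x
      = x (Sum.inl (Sum.inr i)) := by
  rw [polar_QMin, Finset.sum_eq_single i]
  · simp
  · intro j _ hj
    simp [Pi.single_apply, hj]
  · intro h; exact absurd (Finset.mem_univ i) h

theorem polar_fV (i : Fin m) (x : (Fin m ⊕ Fin m) ⊕ Fin 2 → F) :
    QuadraticMap.polar (⇑(QMin m F a b)) (Pi.single (Sum.inl (Sum.inr i)) 1) x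
      = x (Sum.inl (Sum.inl i)) := by
  rw [polar_QMin, Finset.sum_eq_single i]
  · simp
  · intro j _ hj
    simp [Pi.single_apply, hj]
  · intro h; exact absurd (Finset.mem_univ i) h

theorem act_eq_mat (g : OQ m F a b) (x : (Fin m ⊕ Fin m) ⊕ Fin 2 → F)
    (c : (Fin m ⊕ Fin m) ⊕ Fin 2) :
    act g x c = (mat (eO m F a b g) *ᵥ (x ∘ (idx m).symm)) (idx m c) := by
  have h := mat_mulVec_comp (eO m F a b g) (x ∘ (idx m).symm)
  have h2 : (x ∘ (idx m).symm) ∘ idx m = x := by
    funext y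
    simp
  rw [h2] at h
  exact (congrFun h c).symm

theorem mat_entry (g : OQ m F a b) (r c : (Fin m ⊕ Fin m) ⊕ Fin 2) :
    mat (eO m F a b g) (idx m r) (idx m c) = act g (Pi.single c 1) r := by
  rw [mat_idx]
  show _ = (_ *ᵥ Pi.single c 1) r
  rw [Matrix.mulVec_single_one]
  rfl

/-- Unitriangularity in terms of the action on the basis vectors. -/
def UniAct (g : OQ m F a b) : Prop :=
  (∀ r c : (Fin m ⊕ Fin m) ⊕ Fin 2, idx m c < idx m r → act g (Pi.single c 1) r = 0) ∧
    (∀ r : (Fin m ⊕ Fin m) ⊕ Fin 2, act g (Pi.single r 1) r = 1) ∧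
    act g (Pi.single (Sum.inr 1) 1) (Sum.inr 0) = 0

theorem isUniM_of_uniAct (g : OQ m F a b) (h : UniAct g) : IsUniM (eO m F a b g) := by
  obtain ⟨h1, h2, h3⟩ := h
  refine ⟨⟨?_, ?_⟩, ?_⟩
  · intro i j hji
    obtain ⟨r, rfl⟩ := (idx m).surjective i
    obtain ⟨c, rfl⟩ := (idx m).surjective j
    rw [mat_entry]
    exact h1 r c hji
  · intro i
    obtain ⟨r, rfl⟩ := (idx m).surjective i
    rw [mat_entry]
    exact h2 r
  · rw [← idx_zz, ← idx_zz, mat_entry]
    exact h3

/-- Block diagonality in terms of the action on the basis vectors. -/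
def BlkAct (g : OQ m F a b) : Prop :=
  (∀ (r : Fin m ⊕ Fin m) (c : (Fin m ⊕ Fin m) ⊕ Fin 2), c ≠ Sum.inl r →
      act g (Pi.single c 1) (Sum.inl r) = 0) ∧
    ∀ (j : Fin 2) (c : Fin m ⊕ Fin m), act g (Pi.single (Sum.inl c) 1) (Sum.inr j) = 0

theorem isBlk_of_blkAct (g : OQ m F a b) (h : BlkAct g) : IsBlk (eO m F a b g) := by
  intro p q hpq hcond
  obtain ⟨r, rfl⟩ := (idx m).surjective p
  obtain ⟨c, rfl⟩ := (idx m).surjective q
  rw [mat_entry]
  rcases r with r | j
  · exact h.1 r c (by rintro rfl; exact hpq rfl)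
  · rcases c with c | j'
    · exact h.2 j c
    · exfalso
      have e1 : (idx m (Sum.inr j)).val = m + j.val := rfl
      have e2 : (idx m (Sum.inr j')).val = m + j'.val := rfl
      have := j.isLt
      have := j'.isLt
      omega

theorem act_of_hN (g : OQ m F a b) (k : Fin m) (hk : k.val + 1 < m)
    (hg : ∀ (v : Fin (2 * m + 2) → F) (c : Fin (2 * m + 2)),
      (mat (eO m F a b g) *ᵥ v) c = if c = pE m k then v (pE m ⟨k.val + 1, hk⟩)
        else if c = pE m ⟨k.val + 1, hk⟩ then - v (pE m k)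
        else if c = pF m ⟨k.val + 1, hk⟩ then - v (pF m k)
        else if c = pF m k then v (pF m ⟨k.val + 1, hk⟩) else v c)
    (x : (Fin m ⊕ Fin m) ⊕ Fin 2 → F) (c : (Fin m ⊕ Fin m) ⊕ Fin 2) :
    act g x c = if c = Sum.inl (Sum.inl k) then x (Sum.inl (Sum.inl ⟨k.val + 1, hk⟩))
        else if c = Sum.inl (Sum.inl ⟨k.val + 1, hk⟩) then - x (Sum.inl (Sum.inl k))
        else if c = Sum.inl (Sum.inr ⟨k.val + 1, hk⟩) then - x (Sum.inl (Sum.inr k))
        else if c = Sum.inl (Sum.inr k) then x (Sum.inl (Sum.inr ⟨k.val + 1, hk⟩)) else x c := by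
  rw [act_eq_mat, hg]
  simp only [← idx_ee, ← idx_ff, EmbeddingLike.apply_eq_iff_eq, Function.comp_apply,
    Equiv.symm_apply_apply]

theorem act_of_hflip (g : OQ m F a b) (k : Fin m)
    (hg : ∀ (v : Fin (2 * m + 2) → F) (c : Fin (2 * m + 2)),
      (mat (eO m F a b g) *ᵥ v) c = v (Equiv.swap (pE m k) (pF m k) c))
    (x : (Fin m ⊕ Fin m) ⊕ Fin 2 → F) (c : (Fin m ⊕ Fin m) ⊕ Fin 2) :
    act g x c = x (Equiv.swap (Sum.inl (Sum.inl k)) (Sum.inl (Sum.inr k)) c) := by
  rw [act_eq_mat, hg]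
  simp only [Function.comp_apply, ← idx_ee, ← idx_ff]
  congr 1
  rw [Equiv.symm_apply_eq]
  exact (idx m).injective.swap_apply _ _ _

/-- The vector `v` is supported on `e_j`, `f_j`. -/
def Supp (j : Fin m) (v : (Fin m ⊕ Fin m) ⊕ Fin 2 → F) : Prop :=
  ∀ c, c ≠ Sum.inl (Sum.inl j) → c ≠ Sum.inl (Sum.inr j) → v c = 0

theorem Q_of_supp (a b : F) (j : Fin m) (v : (Fin m ⊕ Fin m) ⊕ Fin 2 → F) (hv : Supp j v) :
    QMin m F a b v = v (Sum.inl (Sum.inl j)) * v (Sum.inl (Sum.inr j)) := by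
  rw [QMin_apply', Finset.sum_eq_single j]
  · rw [hv (Sum.inr 0) (by simp) (by simp), hv (Sum.inr 1) (by simp) (by simp)]
    ring
  · intro i _ hi
    rw [hv (Sum.inl (Sum.inl i)) (by simpa using hi) (by simp)]
    ring
  · intro h; exact absurd (Finset.mem_univ j) h

theorem polar_of_supp (a b : F) (j : Fin m) (v : (Fin m ⊕ Fin m) ⊕ Fin 2 → F) (hv : Supp j v)
    (s : (Fin m ⊕ Fin m) ⊕ Fin 2 → F) :
    QuadraticMap.polar (⇑(QMin m F a b)) v s
      = v (Sum.inl (Sum.inl j)) * s (Sum.inl (Sum.inr j))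
        + s (Sum.inl (Sum.inl j)) * v (Sum.inl (Sum.inr j)) := by
  rw [polar_QMin, Finset.sum_eq_single j]
  · rw [hv (Sum.inr 0) (by simp) (by simp), hv (Sum.inr 1) (by simp) (by simp)]
    ring
  · intro i _ hi
    rw [hv (Sum.inl (Sum.inl i)) (by simpa using hi) (by simp),
      hv (Sum.inl (Sum.inr i)) (by simp) (by simpa using hi)]
    ring
  · intro h; exact absurd (Finset.mem_univ j) h

/-- Reflections in vectors of the anisotropic plane. -/
theorem refl_plane (K : Subgroup (OQ m F a b)) (hT : ∀ g : OQ m F a b, BlkAct g → g ∈ K)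
    (v : (Fin m ⊕ Fin m) ⊕ Fin 2 → F) (hv : ∀ c, v (Sum.inl c) = 0) :
    reflG (QMin m F a b) v ∈ K := by
  apply hT
  constructor
  · intro r c hc
    rw [act_reflG]
    simp [Pi.single_apply, hc.symm, hv r]
  · intro j c
    rw [act_reflG, polar_QMin]
    simp [hv, Pi.single_apply]

/-- Reflections in vectors of the last hyperbolic plane. -/
theorem refl_std_last (K : Subgroup (OQ m F a b)) (hT : ∀ g : OQ m F a b, BlkAct g → g ∈ K)
    (j : Fin m) (φ : OQ m F a b) (hφK : φ ∈ K)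
    (hφ : ∀ (x : (Fin m ⊕ Fin m) ⊕ Fin 2 → F) (c : (Fin m ⊕ Fin m) ⊕ Fin 2),
      act φ x c = x (Equiv.swap (Sum.inl (Sum.inl j)) (Sum.inl (Sum.inr j)) c))
    (v : (Fin m ⊕ Fin m) ⊕ Fin 2 → F) (hv : Supp j v) (hQ : QMin m F a b v ≠ 0) :
    reflG (QMin m F a b) v ∈ K := by
  have hQv := Q_of_supp a b j v hv
  rw [hQv] at hQ
  have hx : v (Sum.inl (Sum.inl j)) ≠ 0 := left_ne_zero_of_mul hQ
  have hy : v (Sum.inl (Sum.inr j)) ≠ 0 := right_ne_zero_of_mul hQ
  have hent : ∀ r c : (Fin m ⊕ Fin m) ⊕ Fin 2, r ≠ c →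
      act (reflG (QMin m F a b) v * φ) (Pi.single c 1) r = 0 := by
    intro r c hrc
    rw [act_mul, act_reflG, polar_of_supp a b j v hv, hQv]
    simp only [hφ, Pi.sub_apply, Pi.smul_apply, smul_eq_mul, Equiv.swap_apply_right,
      Equiv.swap_apply_left]
    by_cases hce : c = Sum.inl (Sum.inl j)
    · subst hce
      by_cases hrf : r = Sum.inl (Sum.inr j)
      · subst hrf
        simp
        field_simp
        ring
      · have hvr : v r = 0 := hv r hrc hrf
        simp [hvr, Pi.single_apply, Equiv.swap_apply_def, hrc, hrf]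
    · by_cases hcf : c = Sum.inl (Sum.inr j)
      · subst hcf
        by_cases hre : r = Sum.inl (Sum.inl j)
        · subst hre
          simp
          field_simp
          ring
        · have hvr : v r = 0 := hv r hre hrc
          simp [hvr, Pi.single_apply, Equiv.swap_apply_def, hrc, hre]
      · simp only [Pi.single_apply, Ne.symm hce, Ne.symm hcf, if_false, mul_zero, zero_mul,
          add_zero, zero_mul, sub_zero, Equiv.swap_apply_def]
        rw [if_neg]
        by_cases h1 : r = Sum.inl (Sum.inl j)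
        · rw [if_pos h1]
          exact fun h => hcf h.symm
        · rw [if_neg h1]
          by_cases h2 : r = Sum.inl (Sum.inr j)
          · rw [if_pos h2]
            exact fun h => hce h.symm
          · rw [if_neg h2]
            exact hrc
  have key : reflG (QMin m F a b) v * φ ∈ K := by
    apply hT
    exact ⟨fun r c hc => hent _ _ (Ne.symm hc), fun j' c => hent _ _ (by simp)⟩
  have e : reflG (QMin m F a b) v = (reflG (QMin m F a b) v * φ) * φ⁻¹ := by group
  rw [e]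
  exact K.mul_mem key (K.inv_mem hφK)

/-- The hypothesis on the short monomials, in terms of the action. -/
def HN (K : Subgroup (OQ m F a b)) : Prop :=
  ∀ (k : Fin m) (hk : k.val + 1 < m), ∃ g ∈ K,
    ∀ (x : (Fin m ⊕ Fin m) ⊕ Fin 2 → F) (c : (Fin m ⊕ Fin m) ⊕ Fin 2),
      act g x c = if c = Sum.inl (Sum.inl k) then x (Sum.inl (Sum.inl ⟨k.val + 1, hk⟩))
        else if c = Sum.inl (Sum.inl ⟨k.val + 1, hk⟩) then - x (Sum.inl (Sum.inl k))
        else if c = Sum.inl (Sum.inr ⟨k.val + 1, hk⟩) then - x (Sum.inl (Sum.inr k))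
        else if c = Sum.inl (Sum.inr k) then x (Sum.inl (Sum.inr ⟨k.val + 1, hk⟩)) else x c

/-- The hypothesis on the last flip, in terms of the action. -/
def HFlip (K : Subgroup (OQ m F a b)) : Prop :=
  ∀ k : Fin m, k.val + 1 = m → ∃ g ∈ K,
    ∀ (x : (Fin m ⊕ Fin m) ⊕ Fin 2 → F) (c : (Fin m ⊕ Fin m) ⊕ Fin 2),
      act g x c = x (Equiv.swap (Sum.inl (Sum.inl k)) (Sum.inl (Sum.inr k)) c)

/-- Reflections in vectors of any of the standard hyperbolic planes. -/
theorem refl_std (K : Subgroup (OQ m F a b)) (hT : ∀ g : OQ m F a b, BlkAct g → g ∈ K)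
    (hN : HN K) (hflip : HFlip K) :
    ∀ (d : ℕ) (j : Fin m), j.val + d + 1 = m → ∀ v : (Fin m ⊕ Fin m) ⊕ Fin 2 → F,
      Supp j v → QMin m F a b v ≠ 0 → reflG (QMin m F a b) v ∈ K := by
  intro d
  induction d with
  | zero =>
    intro j hj v hv hQ
    obtain ⟨φ, hφK, hφ⟩ := hflip j (by omega)
    exact refl_std_last K hT j φ hφK hφ v hv hQ
  | succ d ih =>
    intro j hj v hv hQ
    have hk : j.val + 1 < m := by omega
    obtain ⟨n, hnK, hn⟩ := hN j hk
    apply refl_mem_of_act _ K n hnK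
    apply ih ⟨j.val + 1, hk⟩ (by simp only; omega)
    · intro c hc1 hc2
      rw [hn]
      have h1 : v (Sum.inl (Sum.inl ⟨j.val + 1, hk⟩)) = 0 :=
        hv _ (by simp [Fin.ext_iff]) (by simp)
      have h2 : v (Sum.inl (Sum.inr ⟨j.val + 1, hk⟩)) = 0 :=
        hv _ (by simp) (by simp [Fin.ext_iff])
      by_cases h3 : c = Sum.inl (Sum.inl j)
      · rw [if_pos h3]; exact h1
      · rw [if_neg h3, if_neg hc1, if_neg hc2]
        by_cases h6 : c = Sum.inl (Sum.inr j)
        · rw [if_pos h6]; exact h2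
        · rw [if_neg h6]; exact hv c h3 h6
    · rw [Q_act]; exact hQ

/-- Reflections in vectors with non-zero `f_0`-coordinate. -/
theorem refl_of_f0 (K : Subgroup (OQ m F a b)) (hm : 0 < m)
    (hU : ∀ g : OQ m F a b, UniAct g → g ∈ K)
    (hstd : ∀ v : (Fin m ⊕ Fin m) ⊕ Fin 2 → F, Supp ⟨0, hm⟩ v → QMin m F a b v ≠ 0 →
      reflG (QMin m F a b) v ∈ K)
    (v : (Fin m ⊕ Fin m) ⊕ Fin 2 → F) (hy : v (Sum.inl (Sum.inr ⟨0, hm⟩)) ≠ 0)
    (hQ : QMin m F a b v ≠ 0) : reflG (QMin m F a b) v ∈ K := by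
  obtain ⟨e0, he0⟩ : ∃ e0 : (Fin m ⊕ Fin m) ⊕ Fin 2, e0 = Sum.inl (Sum.inl ⟨0, hm⟩) := ⟨_, rfl⟩
  obtain ⟨f0, hf0⟩ : ∃ f0 : (Fin m ⊕ Fin m) ⊕ Fin 2, f0 = Sum.inl (Sum.inr ⟨0, hm⟩) := ⟨_, rfl⟩
  have hef : e0 ≠ f0 := by rw [he0, hf0]; simp
  obtain ⟨w, hw⟩ : ∃ w : (Fin m ⊕ Fin m) ⊕ Fin 2 → F,
      w = (-(v f0)⁻¹) • Function.update (Function.update v e0 0) f0 0 := ⟨_, rfl⟩
  have hwf : w f0 = 0 := by rw [hw]; simp
  have hwe : w e0 = 0 := by rw [hw]; simp [Function.update_of_ne hef]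
  have hwc : ∀ c, c ≠ e0 → c ≠ f0 → w c = -(v f0)⁻¹ * v c := by
    intro c h1 h2
    rw [hw]
    simp [Function.update_of_ne h1, Function.update_of_ne h2]
  have hpu : ∀ x : (Fin m ⊕ Fin m) ⊕ Fin 2 → F,
      QuadraticMap.polar (⇑(QMin m F a b)) (Pi.single e0 1) x = x f0 := by
    intro x
    rw [he0, hf0]
    exact polar_eV _ x
  have hu : QMin m F a b (Pi.single e0 1) = 0 := by
    rw [Q_of_supp a b ⟨0, hm⟩ (Pi.single e0 1)]
    · rw [he0]; simp
    · intro c h1 h2
      rw [he0]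
      simp [Pi.single_apply, h1]
  have huw : QuadraticMap.polar (⇑(QMin m F a b)) (Pi.single e0 1) w = 0 := by
    rw [hpu]; exact hwf
  have hEK : eichG (QMin m F a b) (Pi.single e0 1) w hu huw ∈ K := by
    apply hU
    refine ⟨?_, ?_, ?_⟩
    · intro r c hcr
      have hr : r ≠ e0 := by
        intro h
        have e1 : (idx m r).val = 0 := by rw [h, he0]; rfl
        have := Fin.lt_def.mp hcr
        omega
      have hc : c ≠ f0 := by
        intro h
        have e1 : (idx m c).val = 2 * m + 1 := by rw [h, hf0]; rfl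
        have := Fin.lt_def.mp hcr
        have := (idx m r).isLt
        omega
      have hrc : r ≠ c := by
        rintro rfl
        exact lt_irrefl _ hcr
      rw [act_eichG, hpu]
      simp [Pi.single_apply, hr, hc.symm, hrc]
    · intro r
      rw [act_eichG, hpu]
      by_cases hr : r = e0
      · subst hr
        rw [QuadraticMap.polar_comm (⇑(QMin m F a b)) w, hpu]
        simp [Pi.single_apply, hwf, hef.symm]
      · by_cases hrf : r = f0
        · subst hrf
          simp [Pi.single_apply, hwf, hef]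
        · simp [Pi.single_apply, hr, Ne.symm hrf]
    · rw [act_eichG, hpu]
      rw [he0, hf0]
      simp [Pi.single_apply]
  apply refl_mem_of_act _ K _ hEK
  apply hstd
  · intro c hc1 hc2
    rw [← he0] at hc1
    rw [← hf0] at hc2
    rw [act_eichG, hpu]
    have hy' : v f0 ≠ 0 := by rw [hf0]; exact hy
    simp only [Pi.add_apply, Pi.sub_apply, Pi.smul_apply, smul_eq_mul, Pi.single_apply,
      if_neg hc1, mul_zero, sub_zero, hwc c hc1 hc2]
    field_simp
    ring
  · rw [Q_act]; exact hQ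

/-- Reflections in vectors with a non-zero `f`-coordinate. -/
theorem refl_of_f (K : Subgroup (OQ m F a b)) (hm : 0 < m)
    (hU : ∀ g : OQ m F a b, UniAct g → g ∈ K)
    (hstd : ∀ v : (Fin m ⊕ Fin m) ⊕ Fin 2 → F, Supp ⟨0, hm⟩ v → QMin m F a b v ≠ 0 →
      reflG (QMin m F a b) v ∈ K)
    (hN : HN K) :
    ∀ (k : ℕ) (hk : k < m) (v : (Fin m ⊕ Fin m) ⊕ Fin 2 → F),
      v (Sum.inl (Sum.inr ⟨k, hk⟩)) ≠ 0 → QMin m F a b v ≠ 0 → reflG (QMin m F a b) v ∈ K := by
  intro k
  induction k with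
  | zero =>
    intro hk v hy hQ
    exact refl_of_f0 K hm hU hstd v hy hQ
  | succ k ih =>
    intro hk v hy hQ
    have hk' : k < m := by omega
    obtain ⟨n, hnK, hn⟩ := hN ⟨k, hk'⟩ hk
    apply refl_mem_of_act _ K n hnK
    apply ih hk'
    · rw [hn]
      have hkk : ¬ (k = k + 1) := by omega
      simp only [Sum.inl.injEq, reduceCtorEq, if_false, Sum.inr.injEq, Fin.mk.injEq,
        if_neg hkk, if_true]
      exact hy
    · rw [Q_act]; exact hQ

/-- Reflections in vectors without `f`-coordinates and with a non-zero `e`-coordinate. -/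
theorem refl_of_e (K : Subgroup (OQ m F a b))
    (hf : ∀ (k : Fin m) (v : (Fin m ⊕ Fin m) ⊕ Fin 2 → F),
      v (Sum.inl (Sum.inr k)) ≠ 0 → QMin m F a b v ≠ 0 → reflG (QMin m F a b) v ∈ K)
    (k : Fin m) (v : (Fin m ⊕ Fin m) ⊕ Fin 2 → F) (hvf : ∀ i, v (Sum.inl (Sum.inr i)) = 0)
    (hx : v (Sum.inl (Sum.inl k)) ≠ 0) (hQ : QMin m F a b v ≠ 0) :
    reflG (QMin m F a b) v ∈ K := by
  obtain ⟨u, hu⟩ : ∃ u : (Fin m ⊕ Fin m) ⊕ Fin 2 → F,
      u = Pi.single (Sum.inl (Sum.inl k)) 1 + Pi.single (Sum.inl (Sum.inr k)) 1 := ⟨_, rfl⟩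
  have hQu : QMin m F a b u = 1 := by
    rw [Q_of_supp a b k u]
    · rw [hu]; simp
    · intro c h1 h2
      rw [hu]
      simp [Pi.single_apply, h1, h2]
  have huf : u (Sum.inl (Sum.inr k)) = 1 := by rw [hu]; simp
  have huK : reflG (QMin m F a b) u ∈ K :=
    hf k u (by rw [huf]; exact one_ne_zero) (by rw [hQu]; exact one_ne_zero)
  apply refl_mem_of_act _ K _ huK
  apply hf k
  · rw [act_reflG, hQu]
    have hp : QuadraticMap.polar (⇑(QMin m F a b)) u v = v (Sum.inl (Sum.inl k)) := by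
      rw [hu, QuadraticMap.polar_add_left, polar_eV, polar_fV, hvf k, zero_add]
    rw [hp]
    simp only [Pi.sub_apply, Pi.smul_apply, smul_eq_mul, huf, hvf k, inv_one, one_mul, mul_one,
      zero_sub]
    exact neg_ne_zero.mpr hx
  · rw [Q_act]; exact hQ

/-- The generation theorem, in terms of the action. -/
theorem core [Fintype F] (hm2 : 2 ≤ m)
    (hnd : (QuadraticMap.polarBilin (QMin m F a b)).Nondegenerate)
    (K : Subgroup (OQ m F a b))
    (hU : ∀ g : OQ m F a b, UniAct g → g ∈ K) (hT : ∀ g : OQ m F a b, BlkAct g → g ∈ K)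
    (hN : HN K) (hflip : HFlip K) : K = ⊤ := by
  have hm : 0 < m := by omega
  have hstd := refl_std K hT hN hflip (m - 1) ⟨0, hm⟩ (by simp only; omega)
  have hf : ∀ (k : Fin m) (v : (Fin m ⊕ Fin m) ⊕ Fin 2 → F),
      v (Sum.inl (Sum.inr k)) ≠ 0 → QMin m F a b v ≠ 0 → reflG (QMin m F a b) v ∈ K :=
    fun k v => refl_of_f K hm hU hstd hN k.val k.isLt v
  have hall : ∀ v : (Fin m ⊕ Fin m) ⊕ Fin 2 → F, QMin m F a b v ≠ 0 →
      reflG (QMin m F a b) v ∈ K := by
    intro v hQ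
    by_cases h1 : ∃ k, v (Sum.inl (Sum.inr k)) ≠ 0
    · obtain ⟨k, hk⟩ := h1
      exact hf k v hk hQ
    · push Not at h1
      by_cases h2 : ∃ k, v (Sum.inl (Sum.inl k)) ≠ 0
      · obtain ⟨k, hk⟩ := h2
        exact refl_of_e K hf k v h1 hk hQ
      · push Not at h2
        apply refl_plane K hT
        rintro (c | c)
        · exact h2 c
        · exact h1 c
  have hcl : Subgroup.closure (reflSet (QMin m F a b)) ≤ K := by
    rw [Subgroup.closure_le]
    rintro r ⟨v, hv, rfl⟩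
    exact hall v hv
  have h5 : 5 ≤ Module.finrank F ((Fin m ⊕ Fin m) ⊕ Fin 2 → F) := by
    rw [finrank_minus]
    omega
  rw [eq_top_iff, ← closure_reflSet_eq_top_all (QMin m F a b) hnd h5]
  exact hcl

/-- **S2549-GEN**: a subgroup of `O⁻_{2m+2}(F)` containing the unitriangular isometries, the
block diagonal ones, the short monomials and the last flip is everything. -/
theorem ominus_gen [Fintype F] (m : ℕ) (hm : 3 ≤ m) (a b : F)
    (hab : ∀ z₁ z₂ : F, z₁ ^ 2 + a * z₁ * z₂ + b * z₂ ^ 2 = 0 → z₁ = 0 ∧ z₂ = 0)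
    (K : Subgroup (OGm m F a b))
    (hU : ∀ g : OGm m F a b, IsUniM g → g ∈ K)
    (hT : ∀ g : OGm m F a b, IsBlk g → g ∈ K)
    (hN : ∀ (k : Fin m) (hk : k.val + 1 < m), ∃ g ∈ K,
      ∀ (v : Fin (2 * m + 2) → F) (c : Fin (2 * m + 2)),
        (mat g *ᵥ v) c = if c = pE m k then v (pE m ⟨k.val + 1, hk⟩)
          else if c = pE m ⟨k.val + 1, hk⟩ then - v (pE m k)
          else if c = pF m ⟨k.val + 1, hk⟩ then - v (pF m k)
          else if c = pF m k then v (pF m ⟨k.val + 1, hk⟩) else v c)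
    (hflip : ∀ k : Fin m, k.val + 1 = m → ∃ g ∈ K,
      ∀ (v : Fin (2 * m + 2) → F) (c : Fin (2 * m + 2)),
        (mat g *ᵥ v) c = v (Equiv.swap (pE m k) (pF m k) c)) :
    K = ⊤ := by
  classical
  have hnd : (QuadraticMap.polarBilin (QMin m F a b)).Nondegenerate :=
    QMin_nondeg m a b (disc_ne_zero_of_aniso a b hab)
  have hK' : K.comap (eO m F a b).toMonoidHom = ⊤ := by
    apply core (by omega) hnd
    · intro g hg
      rw [Subgroup.mem_comap]
      exact hU _ (isUniM_of_uniAct g hg)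
    · intro g hg
      rw [Subgroup.mem_comap]
      exact hT _ (isBlk_of_blkAct g hg)
    · intro k hk
      obtain ⟨g, hgK, hg⟩ := hN k hk
      refine ⟨(eO m F a b).symm g, ?_, ?_⟩
      · rw [Subgroup.mem_comap]
        exact hgK
      · intro x c
        exact act_of_hN ((eO m F a b).symm g) k hk hg x c
    · intro k hk
      obtain ⟨g, hgK, hg⟩ := hflip k hk
      refine ⟨(eO m F a b).symm g, ?_, ?_⟩
      · rw [Subgroup.mem_comap]
        exact hgK
      · intro x c
        exact act_of_hflip ((eO m F a b).symm g) k hg x c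
  rw [eq_top_iff]
  intro g _
  have h1 : (eO m F a b).symm g ∈ K.comap (eO m F a b).toMonoidHom := by rw [hK']; trivial
  rw [Subgroup.mem_comap] at h1
  exact h1

end minus

end Cfsg.Agent.Lib.Helper30.StN
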