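import Cfsg.Agent.Lib.Helper30.Trans
import Cfsg.Agent.Lib.Helper30.Glauberman

/-!
# Bender–Glauberman §7: Theorem 7.5 (helper30)
-/

set_option autoImplicit false

namespace Cfsg.Agent.Lib.Helper30

open Cfsg
open scoped Pointwise

variable {G : Type*} [Group G]

/-! ### `O_π` is characteristic -/

theorem map_conj_piCoreOf_le [Finite G] (π : Set ℕ) (X : Subgroup G) {g : G}
    (hg : g ∈ Subgroup.normalizer (X : Set G)) :
    (piCoreOf π X).map (MulAut.conj g).toMonoidHom ≤ piCoreOf π X := by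
  apply le_piCoreOf
  · intro x hx
    rw [mem_map_conj_iff] at hx
    have h1 : g⁻¹ * x * g ∈ X := piCoreOf_le π X hx
    have h2 := (Subgroup.mem_normalizer_iff.mp hg (g⁻¹ * x * g)).mp h1
    simpa [mul_assoc] using h2
  · exact le_normalizer_map_conj hg (le_normalizer_piCoreOf π X)
  · intro p hp hdvd
    rw [card_map_conj] at hdvd
    exact piCoreOf_isPi π X p hp hdvd

theorem normalizer_le_normalizer_piCoreOf [Finite G] (π : Set ℕ) (X : Subgroup G) :
    Subgroup.normalizer (X : Set G) ≤ Subgroup.normalizer (piCoreOf π X : Set G) := by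
  intro g hg
  rw [mem_normalizer_iff_map_conj]
  apply le_antisymm (map_conj_piCoreOf_le π X hg)
  have h1 := map_conj_piCoreOf_le π X (Subgroup.inv_mem _ hg)
  have h2 := map_conj_mono g h1
  rwa [map_conj_map_conj, mul_inv_cancel, map_conj_one] at h2

theorem normalizer_le_normalizer_centralizer' (Q : Subgroup G) :
    Subgroup.normalizer (Q : Set G) ≤ Subgroup.normalizer (Subgroup.centralizer (Q : Set G) : Set G) := by
  intro g hg
  rw [Subgroup.mem_normalizer_iff]
  have key : ∀ g : G, g ∈ Subgroup.normalizer (Q : Set G) → ∀ z ∈ Subgroup.centralizer (Q : Set G),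
      g * z * g⁻¹ ∈ Subgroup.centralizer (Q : Set G) := by
    intro g hg z hz
    rw [Subgroup.mem_centralizer_iff] at hz ⊢
    intro x hx
    have hx' : g⁻¹ * x * g ∈ Q := (Subgroup.mem_normalizer_iff''.mp hg x).mp hx
    have := hz _ hx'
    calc x * (g * z * g⁻¹) = g * ((g⁻¹ * x * g) * z) * g⁻¹ := by group
      _ = g * (z * (g⁻¹ * x * g)) * g⁻¹ := by rw [this]
      _ = g * z * g⁻¹ * x := by group
  intro z
  constructor
  · exact key g hg z
  · intro hz
    have := key g⁻¹ (Subgroup.inv_mem _ hg) _ hz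
    simpa [mul_assoc] using this

/-- `N_G(A)` normalizes `K = O_π(C_G(A))`. -/
theorem normalizer_le_normalizer_K [Finite G] (π : Set ℕ) (A : Subgroup G) :
    Subgroup.normalizer (A : Set G)
      ≤ Subgroup.normalizer (piCoreOf π (Subgroup.centralizer (A : Set G)) : Set G) :=
  (normalizer_le_normalizer_centralizer' A).trans (normalizer_le_normalizer_piCoreOf π _)

/-! ### Lemma 7.1 -/

/-- `O_{π'}(N_G(A)) ≤ O_{π'}(C_G(A))`. -/
theorem piCoreOf_normalizer_le [Finite G] {A : Subgroup G} :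
    piCoreOf (primesNotDvd (Nat.card A)) (Subgroup.normalizer (A : Set G))
      ≤ piCoreOf (primesNotDvd (Nat.card A)) (Subgroup.centralizer (A : Set G)) := by
  set π' := primesNotDvd (Nat.card A) with hπ'
  set N := Subgroup.normalizer (A : Set G) with hN
  have hAN : A ≤ N := Subgroup.le_normalizer
  set L := piCoreOf π' N with hL
  have hLπ : IsPi π' L := piCoreOf_isPi π' N
  have hLA : L ⊓ A = ⊥ := (Subgroup.disjoint_of_coprime_natCard hLπ.coprime).eq_bot
  have hNL : N ≤ Subgroup.normalizer (L : Set G) := le_normalizer_piCoreOf π' N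
  have hLN : L ≤ N := piCoreOf_le π' N
  have hLC : L ≤ Subgroup.centralizer (A : Set G) := by
    intro l hl
    rw [Subgroup.mem_centralizer_iff]
    intro a ha
    have h1 : l * a * l⁻¹ ∈ A := (Subgroup.le_normalizer_iff.mp hLN) l hl a ha
    have h2 : a * l⁻¹ * a⁻¹ ∈ L :=
      (Subgroup.le_normalizer_iff.mp (hAN.trans hNL)) a ha l⁻¹ (L.inv_mem hl)
    have h3 : l * a * l⁻¹ * a⁻¹ ∈ L ⊓ A := by
      refine Subgroup.mem_inf.mpr ⟨?_, A.mul_mem h1 (A.inv_mem ha)⟩
      have : l * a * l⁻¹ * a⁻¹ = l * (a * l⁻¹ * a⁻¹) := by group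
      rw [this]
      exact L.mul_mem hl h2
    rw [hLA, Subgroup.mem_bot] at h3
    have h4 : l * a = a * l := by
      have := congrArg (fun z => z * a * l) h3
      simpa [mul_assoc] using this
    exact h4.symm
  exact le_piCoreOf hLC ((centralizer_le_normalizer' A).trans hNL) hLπ

/-- Bender–Glauberman Lemma 7.1: every `π(A)'`-subgroup of `C_G(A)` lies in
`K = O_{π(A)'}(C_G(A))`. -/
theorem le_K_of_le_centralizer (hG : IsMinSimpleOddOrder G) [Finite G] {A : Subgroup G}
    (hA : TransitivityHypothesis A) {Y : Subgroup G}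
    (hY : Y ≤ Subgroup.centralizer (A : Set G)) (hYπ : IsPi (primesNotDvd (Nat.card A)) Y) :
    Y ≤ piCoreOf (primesNotDvd (Nat.card A)) (Subgroup.centralizer (A : Set G)) := by
  set N := Subgroup.normalizer (A : Set G) with hN
  have hNtop : N ≠ ⊤ := minSimple_normalizer_ne_top hG hA.1 hA.2.1
  have hAN : A ≤ N := Subgroup.le_normalizer
  have hYinv : Y ∈ invSubgroups N A (primesNotDvd (Nat.card A)) := by
    refine ⟨hY.trans (centralizer_le_normalizer' A), hYπ, ?_⟩
    rw [Subgroup.le_normalizer_iff]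
    intro a ha y hy
    have hy2 := hY hy
    rw [Subgroup.mem_centralizer_iff] at hy2
    have : a * y * a⁻¹ = y := by rw [hy2 a ha]; simp
    rw [this]; exact hy
  have hYL : Y ≤ piCoreOf (primesNotDvd (Nat.card A)) N := by
    rw [← hA.2.2 N hNtop hAN]
    exact le_sSup hYinv
  exact hYL.trans piCoreOf_normalizer_le

/-! ### The transitivity hypothesis passes to overgroups with the same primes -/

theorem transitivityHypothesis_of_le [Finite G] {A P : Subgroup G}
    (hA : TransitivityHypothesis A) (hAP : A ≤ P) (hP : P ≠ ⊤)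
    (hπ : primesNotDvd (Nat.card P) = primesNotDvd (Nat.card A)) : TransitivityHypothesis P := by
  refine ⟨fun h => hA.1 (le_bot_iff.mp (h ▸ hAP)), hP, fun X hX hPX => ?_⟩
  rw [hπ]
  apply le_antisymm
  · rw [← hA.2.2 X hX (hAP.trans hPX)]
    apply sSup_le
    intro Y hY
    exact le_sSup ⟨hY.1, hY.2.1, hAP.trans hY.2.2⟩
  · apply le_sSup
    exact ⟨piCoreOf_le _ X, piCoreOf_isPi _ X, hPX.trans (le_normalizer_piCoreOf _ X)⟩

/-- Same primes for intermediate subgroups. -/
theorem primesNotDvd_eq_of_le {A B P : Subgroup G} (hAB : A ≤ B) (hBP : B ≤ P)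
    (hπ : primesNotDvd (Nat.card P) = primesNotDvd (Nat.card A)) :
    primesNotDvd (Nat.card B) = primesNotDvd (Nat.card A) := by
  ext r
  constructor
  · rintro ⟨hr, hrB⟩
    exact ⟨hr, fun h => hrB (dvd_trans h (Subgroup.card_dvd_of_le hAB))⟩
  · rintro ⟨hr, hrA⟩
    refine ⟨hr, fun h => ?_⟩
    have h1 : r ∣ Nat.card P := dvd_trans h (Subgroup.card_dvd_of_le hBP)
    have h2 : r ∈ primesNotDvd (Nat.card A) := ⟨hr, hrA⟩
    rw [← hπ] at h2
    exact h2.2 h1

/-! ### Theorem 7.5, the normal case -/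

/-- (a): `K ∩ C_G(P) = O_{π'}(C_G(P))`. -/
theorem K_inf_centralizer_eq (hG : IsMinSimpleOddOrder G) [Finite G] {A P : Subgroup G}
    (hA : TransitivityHypothesis A) (hAP : A ≤ P) :
    piCoreOf (primesNotDvd (Nat.card A)) (Subgroup.centralizer (A : Set G))
        ⊓ Subgroup.centralizer (P : Set G)
      = piCoreOf (primesNotDvd (Nat.card A)) (Subgroup.centralizer (P : Set G)) := by
  have hCC : Subgroup.centralizer (P : Set G) ≤ Subgroup.centralizer (A : Set G) :=
    Subgroup.centralizer_le hAP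
  apply le_antisymm
  · apply le_piCoreOf inf_le_right
    · exact (le_inf (hCC.trans (le_normalizer_piCoreOf _ _)) Subgroup.le_normalizer).trans
        Subgroup.inf_normalizer_le_normalizer_inf
    · exact isPi_mono inf_le_left (piCoreOf_isPi _ _)
  · refine le_inf ?_ (piCoreOf_le _ _)
    exact le_K_of_le_centralizer hG hA ((piCoreOf_le _ _).trans hCC) (piCoreOf_isPi _ _)

/-- (c): maximal `P`-invariant `q`-subgroups are maximal `A`-invariant `q`-subgroups. -/
theorem maxInv_subset_of_normal (hG : IsMinSimpleOddOrder G) [Finite G] {A P : Subgroup G}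
    (hA : TransitivityHypothesis A) {q : ℕ} (hq : q.Prime) (hqA : ¬ q ∣ Nat.card A)
    (hAP : A ≤ P) (hPA : P ≤ Subgroup.normalizer (A : Set G)) (hP : P ≠ ⊤)
    (hπ : primesNotDvd (Nat.card P) = primesNotDvd (Nat.card A))
    (htr : ∀ Q₁ ∈ maxInvSubgroups ⊤ A {q}, ∀ Q₂ ∈ maxInvSubgroups ⊤ A {q},
      ∃ k ∈ piCoreOf (primesNotDvd (Nat.card A)) (Subgroup.centralizer (A : Set G)),
        Q₂ = Q₁.map (MulAut.conj k).toMonoidHom) :
    maxInvSubgroups ⊤ P {q} ⊆ maxInvSubgroups ⊤ A {q} := by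
  have : Fact q.Prime := ⟨hq⟩
  set π' := primesNotDvd (Nat.card A) with hπ'
  set K := piCoreOf π' (Subgroup.centralizer (A : Set G)) with hK
  have hPsolv : Group.IsSolvable P := minSimple_solvable_of_ne_top hG hP
  have hcopP : ∀ Y : Subgroup G, IsPi π' Y → (Nat.card P).Coprime (Nat.card Y) := by
    intro Y hY
    have hY' : IsPi (primesNotDvd (Nat.card P)) Y := hπ ▸ hY
    exact hY'.coprime.symm
  intro Q' hQ'
  have hQ'A : Q' ∈ invSubgroups ⊤ A {q} := ⟨le_top, hQ'.1.2.1, hAP.trans hQ'.1.2.2⟩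
  by_cases hbot : Q' = ⊥
  · -- `P` normalizes some maximal `A`-invariant `q`-subgroup
    obtain ⟨Q₀, hQ₀, -⟩ := exists_le_maxInvSubgroups hQ'A
    have hPK : P ≤ Subgroup.normalizer (K : Set G) := hPA.trans (normalizer_le_normalizer_K π' A)
    obtain ⟨Q, hQ, hPQ⟩ := exists_normalized_of_transitive hPK (hcopP K (piCoreOf_isPi _ _))
      (Or.inl hPsolv) (Ω := maxInvSubgroups ⊤ A {q}) ⟨Q₀, hQ₀⟩
      (fun Q hQ g hg => map_conj_mem_maxInvSubgroups (hPA hg) hQ)
      (fun Q hQ k hk => map_conj_mem_maxInvSubgroups (piCoreOf_centralizer_le A _ hk) hQ)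
      htr
    have hQP : Q ∈ invSubgroups ⊤ P {q} := ⟨le_top, hQ.1.2.1, hPQ⟩
    have : Q = Q' := hQ'.2 Q hQP (hbot ▸ bot_le)
    rw [← this]
    exact hQ
  · have hQ'p : IsPGroup q Q' := isPGroup_of_isPi_singleton hQ'.1.2.1
    have hQ'top : Q' ≠ ⊤ := ne_top_of_isPGroup_of_not_dvd hA.1 hqA hQ'p
    set N := Subgroup.normalizer (Q' : Set G) with hN
    have hNtop : N ≠ ⊤ := minSimple_normalizer_ne_top hG hbot hQ'top
    have hPN : P ≤ N := hQ'.1.2.2
    set O := piCoreOf π' N with hO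
    have hQ'O : Q' ≤ O :=
      le_piCoreOf Subgroup.le_normalizer le_rfl (isPi_primesNotDvd_of_singleton hq hqA hQ'.1.2.1)
    have hPO : P ≤ Subgroup.normalizer (O : Set G) := hPN.trans (le_normalizer_piCoreOf π' N)
    obtain ⟨S, hQ'S, hPS⟩ := coprime_invariant_le_sylow P O hPO (hcopP O (piCoreOf_isPi _ _))
      (Or.inl hPsolv) q Q' hQ'O hQ'p hQ'.1.2.2
    have hSP : (S : Subgroup O).map O.subtype ∈ invSubgroups ⊤ P {q} :=
      ⟨le_top, isPi_singleton_of_isPGroup (S.isPGroup'.map O.subtype), hPS⟩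
    have hSQ' : (S : Subgroup O).map O.subtype = Q' := hQ'.2 _ hSP hQ'S
    refine ⟨hQ'A, fun R hR hQR => ?_⟩
    by_contra hne
    have hlt : Q' < R := lt_of_le_of_ne hQR (fun h => hne h.symm)
    have hRp : IsPGroup q R := isPGroup_of_isPi_singleton hR.2.1
    have hlt' : Q' < R ⊓ N := lt_inf_normalizer hRp hlt
    have hAN : A ≤ N := hAP.trans hPN
    have hRN : R ⊓ N ∈ invSubgroups N A π' :=
      ⟨inf_le_right, isPi_primesNotDvd_of_singleton hq hqA (isPi_mono inf_le_left hR.2.1),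
        (le_inf hR.2.2 (hAN.trans Subgroup.le_normalizer)).trans
          Subgroup.inf_normalizer_le_normalizer_inf⟩
    have hRNO : R ⊓ N ≤ O := by
      rw [hO, ← hA.2.2 N hNtop hAN]
      exact le_sSup hRN
    have hmax : (R ⊓ N).subgroupOf O = (S : Subgroup O) := by
      apply S.is_maximal' ((hRp.to_le inf_le_left).comap_subtype)
      intro s hs
      show (s : G) ∈ R ⊓ N
      apply hlt'.le
      rw [← hSQ']
      exact Subgroup.mem_map.mpr ⟨s, hs, rfl⟩
    have : R ⊓ N = Q' := by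
      rw [← hSQ', ← hmax, Subgroup.map_subgroupOf_eq_of_le hRNO]
    exact (ne_of_lt hlt') this.symm

/-- (b): `O_{π'}(C_G(P))` is transitive on the maximal `P`-invariant `q`-subgroups. -/
theorem trans_of_normal (hG : IsMinSimpleOddOrder G) [Finite G] {A P : Subgroup G}
    (hA : TransitivityHypothesis A) {q : ℕ} (hq : q.Prime) (hqA : ¬ q ∣ Nat.card A)
    (hAP : A ≤ P) (hPA : P ≤ Subgroup.normalizer (A : Set G)) (hP : P ≠ ⊤)
    (hπ : primesNotDvd (Nat.card P) = primesNotDvd (Nat.card A))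
    (htr : ∀ Q₁ ∈ maxInvSubgroups ⊤ A {q}, ∀ Q₂ ∈ maxInvSubgroups ⊤ A {q},
      ∃ k ∈ piCoreOf (primesNotDvd (Nat.card A)) (Subgroup.centralizer (A : Set G)),
        Q₂ = Q₁.map (MulAut.conj k).toMonoidHom) :
    ∀ Q₁ ∈ maxInvSubgroups ⊤ P {q}, ∀ Q₂ ∈ maxInvSubgroups ⊤ P {q},
      ∃ k ∈ piCoreOf (primesNotDvd (Nat.card A)) (Subgroup.centralizer (P : Set G)),
        Q₂ = Q₁.map (MulAut.conj k).toMonoidHom := by
  set π' := primesNotDvd (Nat.card A) with hπ'
  set K := piCoreOf π' (Subgroup.centralizer (A : Set G)) with hK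
  have hPsolv : Group.IsSolvable P := minSimple_solvable_of_ne_top hG hP
  have hcopK : (Nat.card P).Coprime (Nat.card K) := by
    have hKπ : IsPi π' K := piCoreOf_isPi _ _
    have hKπ' : IsPi (primesNotDvd (Nat.card P)) K := hπ ▸ hKπ
    exact hKπ'.coprime.symm
  have hPK : P ≤ Subgroup.normalizer (K : Set G) := hPA.trans (normalizer_le_normalizer_K π' A)
  have hsub := maxInv_subset_of_normal hG hA hq hqA hAP hPA hP hπ htr
  intro Q₁ hQ₁ Q₂ hQ₂
  obtain ⟨k, hk, hkQ⟩ := htr Q₁ (hsub hQ₁) Q₂ (hsub hQ₂)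
  obtain ⟨c, hc, hcQ⟩ := exists_centralizer_conj_of_transitive hPK hcopK (Or.inl hPsolv)
    hQ₁.1.2.2 hQ₂.1.2.2 hk hkQ
  rw [K_inf_centralizer_eq hG hA hAP] at hc
  exact ⟨c, hc, hcQ⟩

end Cfsg.Agent.Lib.Helper30
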