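import Cfsg.Agent.Lib.Helper30.Cocyclic
import Cfsg.Agent.Lib.Helper30.PQGen
import Cfsg.Agent.Lib.Helper30.PConstr
import Cfsg.Agent.H14.Cores

/-!
# The transitivity theorem from local control (helper30)

`trans_of_local`: let `E` be an abelian `p`-subgroup of `G` containing an elementary abelian
subgroup `F` of order at least `p ^ 3`, and suppose that for every nonidentity `a ∈ F` there is
an `E`-invariant `p'`-subgroup `θ a` containing every `E`-invariant `q`-subgroup of `C_G(a)`.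
Then any two maximal `E`-invariant `q`-subgroups of `G` are conjugate by an element of any
subgroup `K₀ ≤ N_G(E)` containing the `p'`-subgroups of `C_G(E)`.
-/

set_option autoImplicit false
set_option linter.unusedSectionVars false

namespace Cfsg.Agent.Lib.Helper30

open Cfsg
open scoped Pointwise

variable {G : Type*} [Group G]

theorem card_sup_le_of_le_normalizer {N H : Subgroup G}
    (h : H ≤ Subgroup.normalizer (N : Set G)) :
    Nat.card ↥(N ⊔ H) ≤ Nat.card N * Nat.card H := by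
  have h1 : ((N ⊔ H : Subgroup G) : Set G) = (N : Set G) * (H : Set G) :=
    Subgroup.coe_mul_of_right_le_normalizer_left N H h
  have h2 : Nat.card ↥(N ⊔ H) = Nat.card ↥((N : Set G) * (H : Set G)) := by
    rw [← h1]; rfl
  rw [h2]
  exact Set.natCard_mul_le

theorem card_sup_dvd_of_le_normalizer [Finite G] {N H : Subgroup G}
    (h : H ≤ Subgroup.normalizer (N : Set G)) :
    Nat.card ↥(N ⊔ H) ∣ Nat.card N * Nat.card H := by
  have hN : N ≤ Subgroup.normalizer (N : Set G) := Subgroup.le_normalizer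
  have hn : (N.subgroupOf (Subgroup.normalizer (N : Set G))).Normal :=
    Subgroup.normal_subgroupOf_of_le_normalizer le_rfl
  have h1 := H14.card_sup_dvd_of_normal_left (N.subgroupOf (Subgroup.normalizer (N : Set G)))
    (H.subgroupOf (Subgroup.normalizer (N : Set G)))
  rw [← Subgroup.subgroupOf_sup hN h] at h1
  have e1 : Nat.card ((N ⊔ H).subgroupOf (Subgroup.normalizer (N : Set G))) = Nat.card ↥(N ⊔ H) :=
    Nat.card_congr (Subgroup.subgroupOfEquivOfLe (sup_le hN h)).toEquiv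
  have e2 : Nat.card (N.subgroupOf (Subgroup.normalizer (N : Set G))) = Nat.card N :=
    Nat.card_congr (Subgroup.subgroupOfEquivOfLe hN).toEquiv
  have e3 : Nat.card (H.subgroupOf (Subgroup.normalizer (N : Set G))) = Nat.card H :=
    Nat.card_congr (Subgroup.subgroupOfEquivOfLe h).toEquiv
  rw [e1, e2, e3] at h1
  exact h1

/-- The bridge: two `E`-invariant `q`-subgroups of an `E`-invariant `p'`-subgroup `Y` lie in
`Q₃` and `Q₃^k` respectively, for a maximal `E`-invariant `q`-subgroup `Q₃` and some `k ∈ K₀`. -/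
theorem exists_bridge' [Finite G] {p q : ℕ} [Fact p.Prime] [Fact q.Prime] {E K₀ : Subgroup G}
    (hEp : IsPGroup p E)
    (hK₀ : ∀ Y : Subgroup G, (Nat.card Y).Coprime p → Y ≤ Subgroup.centralizer (E : Set G) →
      Y ≤ K₀)
    {Y : Subgroup G} (hYcop : (Nat.card Y).Coprime p)
    (hEY : E ≤ Subgroup.normalizer (Y : Set G))
    {R₁ R₂ : Subgroup G} (hR₁Y : R₁ ≤ Y) (hR₂Y : R₂ ≤ Y) (hR₁ : IsPGroup q R₁)
    (hR₂ : IsPGroup q R₂) (hER₁ : E ≤ Subgroup.normalizer (R₁ : Set G))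
    (hER₂ : E ≤ Subgroup.normalizer (R₂ : Set G)) :
    ∃ k ∈ K₀, ∃ Q₃ ∈ maxInvSubgroups ⊤ E {q},
      R₁ ≤ Q₃ ∧ R₂ ≤ Q₃.map (MulAut.conj k).toMonoidHom := by
  have hcop : (Nat.card E).Coprime (Nat.card Y) := by
    obtain ⟨n, hn⟩ := IsPGroup.iff_card.mp hEp
    rw [hn]
    exact Nat.Coprime.pow_left n hYcop.symm
  have hEsolv : Group.IsSolvable E := by
    have := hEp.isNilpotent
    infer_instance
  have hsolv : Group.IsSolvable E ∨ Group.IsSolvable Y := Or.inl hEsolv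
  obtain ⟨P₁, hR₁P, hAP₁⟩ := coprime_invariant_le_sylow E Y hEY hcop hsolv q R₁ hR₁Y hR₁ hER₁
  obtain ⟨P₂, hR₂P, hAP₂⟩ := coprime_invariant_le_sylow E Y hEY hcop hsolv q R₂ hR₂Y hR₂ hER₂
  obtain ⟨c, hcA, hcP⟩ := coprime_invariant_sylow_conj E Y hEY hcop hsolv q P₁ P₂ hAP₁ hAP₂
  have hkK : (c : G) ∈ K₀ := by
    have h1 : (Nat.card ↥(Y ⊓ Subgroup.centralizer (E : Set G))).Coprime p :=
      Nat.Coprime.coprime_dvd_left (Subgroup.card_dvd_of_le inf_le_left) hYcop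
    exact hK₀ _ h1 inf_le_right (Subgroup.mem_inf.mpr ⟨c.2, hcA⟩)
  have hS₁ : (P₁ : Subgroup Y).map Y.subtype ∈ invSubgroups ⊤ E {q} :=
    ⟨le_top, isPi_singleton_of_isPGroup (P₁.isPGroup'.map Y.subtype), hAP₁⟩
  obtain ⟨Q₃, hQ₃, hS₁Q⟩ := exists_le_maxInvSubgroups hS₁
  refine ⟨c, hkK, Q₃, hQ₃, hR₁P.trans hS₁Q, hR₂P.trans ?_⟩
  intro x hx
  obtain ⟨y, hy, rfl⟩ := Subgroup.mem_map.mp hx
  rw [mem_map_conj_iff]
  apply hS₁Q
  rw [← hcP] at hy
  have hy' : y ∈ MulAut.conj c • (P₁ : Subgroup Y) := hy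
  rw [Subgroup.mem_pointwise_smul_iff_inv_smul_mem] at hy'
  refine Subgroup.mem_map.mpr ⟨_, hy', ?_⟩
  simp [MulAut.smul_def, mul_assoc]

open scoped IsMulCommutative in
/-- **Transitivity from local control.** -/
theorem trans_of_local [Finite G] {p q : ℕ} [Fact p.Prime] [Fact q.Prime] (hqp : q ≠ p)
    {E F K₀ : Subgroup G} (hEp : IsPGroup p E) (hEc : ∀ a ∈ E, ∀ b ∈ E, a * b = b * a)
    (hFE : F ≤ E) (hFexp : ∀ a ∈ F, a ^ p = 1) (hFcard : p ^ 3 ≤ Nat.card F)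
    (hK₀ : ∀ Y : Subgroup G, (Nat.card Y).Coprime p → Y ≤ Subgroup.centralizer (E : Set G) →
      Y ≤ K₀)
    (hK₀N : K₀ ≤ Subgroup.normalizer (E : Set G))
    (θ : G → Subgroup G)
    (hθ : ∀ a ∈ F, a ≠ 1 → (Nat.card (θ a)).Coprime p ∧
        E ≤ Subgroup.normalizer (θ a : Set G) ∧
        ∀ T : Subgroup G, IsPGroup q T → E ≤ Subgroup.normalizer (T : Set G) →
          T ≤ Subgroup.centralizer ({a} : Set G) → T ≤ θ a)
    (Q₁ Q₂ : Subgroup G) (h₁ : Q₁ ∈ maxInvSubgroups ⊤ E {q})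
    (h₂ : Q₂ ∈ maxInvSubgroups ⊤ E {q}) :
    ∃ k ∈ K₀, Q₂ = Q₁.map (MulAut.conj k).toMonoidHom := by
  have hpp : p.Prime := Fact.out
  have hqq : q.Prime := Fact.out
  induction hn : Nat.card G - Nat.card (Q₁ ⊓ Q₂ : Subgroup G) using Nat.strong_induction_on
    generalizing Q₁ Q₂ with
  | _ n ih =>
    by_cases heq : Q₁ = Q₂
    · exact ⟨1, K₀.one_mem, by rw [map_conj_one]; exact heq.symm⟩
    have hQ₁p : IsPGroup q Q₁ := isPGroup_of_isPi_singleton h₁.1.2.1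
    have hQ₂p : IsPGroup q Q₂ := isPGroup_of_isPi_singleton h₂.1.2.1
    have hD₁ : Q₁ ⊓ Q₂ < Q₁ := by
      refine lt_of_le_of_ne inf_le_left fun h => heq ?_
      have : Q₁ ≤ Q₂ := by rw [← h]; exact inf_le_right
      exact (h₁.2 Q₂ h₂.1 this).symm
    have hD₂ : Q₁ ⊓ Q₂ < Q₂ := by
      refine lt_of_le_of_ne inf_le_right fun h => heq ?_
      have : Q₂ ≤ Q₁ := by rw [← h]; exact inf_le_left
      exact h₂.2 Q₁ h₁.1 this
    have hDp : IsPGroup q ↥(Q₁ ⊓ Q₂) := hQ₁p.to_le inf_le_left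
    have hEN : E ≤ Subgroup.normalizer ((Q₁ ⊓ Q₂ : Subgroup G) : Set G) :=
      (le_inf h₁.1.2.2 h₂.1.2.2).trans Subgroup.inf_normalizer_le_normalizer_inf
    have hENN : E ≤ Subgroup.normalizer
        ((Subgroup.normalizer ((Q₁ ⊓ Q₂ : Subgroup G) : Set G) : Subgroup G) : Set G) :=
      hEN.trans Subgroup.le_normalizer
    have hER₁ : E ≤ Subgroup.normalizer
        ((Q₁ ⊓ Subgroup.normalizer ((Q₁ ⊓ Q₂ : Subgroup G) : Set G) : Subgroup G) : Set G) :=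
      (le_inf h₁.1.2.2 hENN).trans Subgroup.inf_normalizer_le_normalizer_inf
    have hER₂ : E ≤ Subgroup.normalizer
        ((Q₂ ⊓ Subgroup.normalizer ((Q₁ ⊓ Q₂ : Subgroup G) : Set G) : Subgroup G) : Set G) :=
      (le_inf h₂.1.2.2 hENN).trans Subgroup.inf_normalizer_le_normalizer_inf
    have hlt₁ : Q₁ ⊓ Q₂ < Q₁ ⊓ Subgroup.normalizer ((Q₁ ⊓ Q₂ : Subgroup G) : Set G) :=
      lt_inf_normalizer hQ₁p hD₁
    have hlt₂ : Q₁ ⊓ Q₂ < Q₂ ⊓ Subgroup.normalizer ((Q₁ ⊓ Q₂ : Subgroup G) : Set G) :=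
      lt_inf_normalizer hQ₂p hD₂
    -- `F` acts coprimely on `q`-groups
    have hFc : IsMulCommutative F :=
      ⟨⟨fun a b => Subtype.ext (hEc a (hFE a.2) b (hFE b.2))⟩⟩
    have hcopF : ∀ R : Subgroup G, IsPGroup q R → ∀ F' : Subgroup G, F' ≤ F →
        (Nat.card F').Coprime (Nat.card R) := by
      intro R hR F' hF'
      obtain ⟨n, hn⟩ := IsPGroup.iff_card.mp hR
      obtain ⟨m, hm⟩ := IsPGroup.iff_card.mp ((hEp.to_le hFE).to_le hF')
      rw [hn, hm]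
      exact Nat.Coprime.pow m n ((Nat.coprime_primes hpp hqq).mpr (Ne.symm hqp))
    -- a cocyclic subgroup `B₁` of `F` with fixed points on `R₁` outside `D`
    obtain ⟨B₁, ⟨-, hB₁F, a₁, ha₁F, hB₁a⟩, hB₁D⟩ : ∃ B ∈ {B : Subgroup G | ⊥ ≤ B ∧ B ≤ F ∧
        ∃ a ∈ F, B ⊔ Subgroup.zpowers a = F},
        ¬ (Q₁ ⊓ Subgroup.normalizer ((Q₁ ⊓ Q₂ : Subgroup G) : Set G)) ⊓
          Subgroup.centralizer (B : Set G) ≤ Q₁ ⊓ Q₂ := by
      by_contra hcon
      push Not at hcon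
      have h1 : genCo F ⊥ (Q₁ ⊓ Subgroup.normalizer ((Q₁ ⊓ Q₂ : Subgroup G) : Set G))
          ≤ Q₁ ⊓ Q₂ := iSup₂_le hcon
      rw [genCo_eq ⊥ bot_le _ (hFE.trans hER₁)
        (hcopF _ (hQ₁p.to_le inf_le_left) F le_rfl) bot_le] at h1
      exact (not_le_of_gt hlt₁) h1
    have hB₁card : p ^ 2 ≤ Nat.card B₁ := by
      have hz : Subgroup.zpowers a₁ ≤ Subgroup.normalizer (B₁ : Set G) := by
        apply le_normalizer_of_conj_mem
        intro g hg y hy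
        have hgF : g ∈ F := by
          rw [← hB₁a]; exact Subgroup.mem_sup_right hg
        have := hEc g (hFE hgF) y (hFE (hB₁F hy))
        rw [this, mul_inv_cancel_right]; exact hy
      have h1 := card_sup_le_of_le_normalizer hz
      rw [hB₁a] at h1
      have h2 : Nat.card (Subgroup.zpowers a₁) ≤ p := by
        rw [Nat.card_zpowers]
        exact Nat.le_of_dvd hpp.pos (orderOf_dvd_of_pow_eq_one (hFexp a₁ ha₁F))
      have h3 : p ^ 3 ≤ Nat.card B₁ * p := hFcard.trans (h1.trans (Nat.mul_le_mul_left _ h2))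
      have h4 : p ^ 2 * p ≤ Nat.card B₁ * p := by
        have : p ^ 2 * p = p ^ 3 := by ring
        rw [this]; exact h3
      exact Nat.le_of_mul_le_mul_right h4 hpp.pos
    have hB₁nc : ¬ IsCyclic ↥B₁ := by
      intro hc
      obtain ⟨g, hg⟩ := hc.exists_generator
      have h1 : orderOf g = Nat.card B₁ := orderOf_eq_card_of_forall_mem_zpowers hg
      have h2 : g ^ p = 1 := Subtype.ext (by
        rw [Subgroup.coe_pow]; exact hFexp _ (hB₁F g.2))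
      have h3 : orderOf g ≤ p := Nat.le_of_dvd hpp.pos (orderOf_dvd_of_pow_eq_one h2)
      have h4 : p < p ^ 2 := by
        have := hpp.one_lt
        calc p = p * 1 := (mul_one p).symm
          _ < p * p := Nat.mul_lt_mul_of_pos_left this hpp.pos
          _ = p ^ 2 := (pow_two p).symm
      omega
    have hB₁c : IsMulCommutative B₁ :=
      ⟨⟨fun a b => Subtype.ext (hEc a (hFE (hB₁F a.2)) b (hFE (hB₁F b.2)))⟩⟩
    -- an element `a ∈ B₁` with fixed points on `R₂` outside `D`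
    obtain ⟨a, ⟨haB, ha1⟩, haD⟩ : ∃ a ∈ {a : G | a ∈ B₁ ∧ a ≠ 1},
        ¬ (Q₂ ⊓ Subgroup.normalizer ((Q₁ ⊓ Q₂ : Subgroup G) : Set G)) ⊓
          Subgroup.centralizer {a} ≤ Q₁ ⊓ Q₂ := by
      by_contra hcon
      push Not at hcon
      have h1 : genCent B₁ (Q₂ ⊓ Subgroup.normalizer ((Q₁ ⊓ Q₂ : Subgroup G) : Set G))
          ≤ Q₁ ⊓ Q₂ := iSup₂_le hcon
      rw [genCent_eq hB₁nc _ _ rfl ((hB₁F.trans hFE).trans hER₂)
        (hcopF _ (hQ₂p.to_le inf_le_left) B₁ hB₁F)] at h1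
      exact (not_le_of_gt hlt₂) h1
    have haF : a ∈ F := hB₁F haB
    have haE : a ∈ E := hFE haF
    have hT₁D : ¬ (Q₁ ⊓ Subgroup.normalizer ((Q₁ ⊓ Q₂ : Subgroup G) : Set G)) ⊓
        Subgroup.centralizer {a} ≤ Q₁ ⊓ Q₂ := fun h =>
      hB₁D ((inf_le_inf_left _
        (Subgroup.centralizer_le (Set.singleton_subset_iff.mpr haB))).trans h)
    obtain ⟨hθcop, hEθ, hθmax⟩ := hθ a haF ha1
    have hECa : E ≤ Subgroup.normalizer
        ((Subgroup.centralizer ({a} : Set G) : Subgroup G) : Set G) :=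
      fun e he => mem_normalizer_centralizer_singleton (hEc a haE e he)
    have hET₁ : E ≤ Subgroup.normalizer
        (((Q₁ ⊓ Subgroup.normalizer ((Q₁ ⊓ Q₂ : Subgroup G) : Set G)) ⊓
          Subgroup.centralizer {a} : Subgroup G) : Set G) :=
      (le_inf hER₁ hECa).trans Subgroup.inf_normalizer_le_normalizer_inf
    have hET₂ : E ≤ Subgroup.normalizer
        (((Q₂ ⊓ Subgroup.normalizer ((Q₁ ⊓ Q₂ : Subgroup G) : Set G)) ⊓
          Subgroup.centralizer {a} : Subgroup G) : Set G) :=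
      (le_inf hER₂ hECa).trans Subgroup.inf_normalizer_le_normalizer_inf
    have hT₁p : IsPGroup q ↥((Q₁ ⊓ Subgroup.normalizer ((Q₁ ⊓ Q₂ : Subgroup G) : Set G)) ⊓
        Subgroup.centralizer {a}) := hQ₁p.to_le (inf_le_left.trans inf_le_left)
    have hT₂p : IsPGroup q ↥((Q₂ ⊓ Subgroup.normalizer ((Q₁ ⊓ Q₂ : Subgroup G) : Set G)) ⊓
        Subgroup.centralizer {a}) := hQ₂p.to_le (inf_le_left.trans inf_le_left)
    have hT₁θ := hθmax _ hT₁p hET₁ inf_le_right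
    have hT₂θ := hθmax _ hT₂p hET₂ inf_le_right
    -- the `p'`-group `Y = D (θ a ∩ N(D))`
    have hY₀N : θ a ⊓ Subgroup.normalizer ((Q₁ ⊓ Q₂ : Subgroup G) : Set G)
        ≤ Subgroup.normalizer ((Q₁ ⊓ Q₂ : Subgroup G) : Set G) := inf_le_right
    have hYcop : (Nat.card ↥((Q₁ ⊓ Q₂) ⊔
        (θ a ⊓ Subgroup.normalizer ((Q₁ ⊓ Q₂ : Subgroup G) : Set G)))).Coprime p := by
      have h1 := card_sup_dvd_of_le_normalizer hY₀N
      have h2 : (Nat.card ↥(Q₁ ⊓ Q₂)).Coprime p := by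
        obtain ⟨n, hn⟩ := IsPGroup.iff_card.mp hDp
        rw [hn]
        exact Nat.Coprime.pow_left n ((Nat.coprime_primes hqq hpp).mpr hqp)
      have h3 : (Nat.card ↥(θ a ⊓ Subgroup.normalizer ((Q₁ ⊓ Q₂ : Subgroup G) : Set G))).Coprime p :=
        Nat.Coprime.coprime_dvd_left (Subgroup.card_dvd_of_le inf_le_left) hθcop
      exact Nat.Coprime.coprime_dvd_left h1 (Nat.Coprime.mul_left h2 h3)
    have hEY : E ≤ Subgroup.normalizer (((Q₁ ⊓ Q₂) ⊔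
        (θ a ⊓ Subgroup.normalizer ((Q₁ ⊓ Q₂ : Subgroup G) : Set G)) : Subgroup G) : Set G) :=
      le_normalizer_sup' hEN ((le_inf hEθ hENN).trans Subgroup.inf_normalizer_le_normalizer_inf)
    -- the `q`-subgroups `Tᵢ D`
    have hT₁N : (Q₁ ⊓ Subgroup.normalizer ((Q₁ ⊓ Q₂ : Subgroup G) : Set G)) ⊓
        Subgroup.centralizer {a} ≤ Subgroup.normalizer ((Q₁ ⊓ Q₂ : Subgroup G) : Set G) :=
      inf_le_left.trans inf_le_right
    have hT₂N : (Q₂ ⊓ Subgroup.normalizer ((Q₁ ⊓ Q₂ : Subgroup G) : Set G)) ⊓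
        Subgroup.centralizer {a} ≤ Subgroup.normalizer ((Q₁ ⊓ Q₂ : Subgroup G) : Set G) :=
      inf_le_left.trans inf_le_right
    have hU₁p := hT₁p.to_sup_of_normal_right' hDp hT₁N
    have hU₂p := hT₂p.to_sup_of_normal_right' hDp hT₂N
    have hEU₁ := le_normalizer_sup' hET₁ hEN
    have hEU₂ := le_normalizer_sup' hET₂ hEN
    have hU₁Y : ((Q₁ ⊓ Subgroup.normalizer ((Q₁ ⊓ Q₂ : Subgroup G) : Set G)) ⊓
        Subgroup.centralizer {a}) ⊔ (Q₁ ⊓ Q₂) ≤ (Q₁ ⊓ Q₂) ⊔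
        (θ a ⊓ Subgroup.normalizer ((Q₁ ⊓ Q₂ : Subgroup G) : Set G)) :=
      sup_le ((le_inf hT₁θ hT₁N).trans le_sup_right) le_sup_left
    have hU₂Y : ((Q₂ ⊓ Subgroup.normalizer ((Q₁ ⊓ Q₂ : Subgroup G) : Set G)) ⊓
        Subgroup.centralizer {a}) ⊔ (Q₁ ⊓ Q₂) ≤ (Q₁ ⊓ Q₂) ⊔
        (θ a ⊓ Subgroup.normalizer ((Q₁ ⊓ Q₂ : Subgroup G) : Set G)) :=
      sup_le ((le_inf hT₂θ hT₂N).trans le_sup_right) le_sup_left
    obtain ⟨k, hk, Q₃, hQ₃, hRQ₃, hRQ₃'⟩ :=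
      exists_bridge' hEp hK₀ hYcop hEY hU₁Y hU₂Y hU₁p hU₂p hEU₁ hEU₂
    -- first application of the induction hypothesis: `Q₁` and `Q₃`
    have hlt₁' : Q₁ ⊓ Q₂ < Q₁ ⊓ Q₃ := by
      refine lt_of_le_of_ne (le_inf inf_le_left (le_sup_right.trans hRQ₃)) fun h => hT₁D ?_
      exact (le_inf (inf_le_left.trans inf_le_left) (le_sup_left.trans hRQ₃)).trans h.ge
    have hcard₁ : Nat.card ↥(Q₁ ⊓ Q₂) < Nat.card (Q₁ ⊓ Q₃ : Subgroup G) :=
      card_lt_card_of_lt hlt₁'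
    have hle₁ : Nat.card (Q₁ ⊓ Q₃ : Subgroup G) ≤ Nat.card G := Subgroup.card_le_card_group _
    have key : ∀ (g d d' n : ℕ), g - d = n → d < d' → d' ≤ g → g - d' < n := by
      intros; omega
    obtain ⟨k₁, hk₁, hk₁Q⟩ := ih (Nat.card G - Nat.card (Q₁ ⊓ Q₃ : Subgroup G))
      (key _ _ _ _ hn hcard₁ hle₁) Q₁ Q₃ h₁ hQ₃ rfl
    -- second application: `Q₃^k` and `Q₂`
    have hQ₃' : Q₃.map (MulAut.conj k).toMonoidHom ∈ maxInvSubgroups ⊤ E {q} :=
      map_conj_mem_maxInvSubgroups (hK₀N hk) hQ₃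
    have hlt₂' : Q₁ ⊓ Q₂ < Q₃.map (MulAut.conj k).toMonoidHom ⊓ Q₂ := by
      refine lt_of_le_of_ne (le_inf (le_sup_right.trans hRQ₃') inf_le_right) fun h => haD ?_
      exact (le_inf (le_sup_left.trans hRQ₃') (inf_le_left.trans inf_le_left)).trans h.ge
    have hcard₂ : Nat.card ↥(Q₁ ⊓ Q₂)
        < Nat.card (Q₃.map (MulAut.conj k).toMonoidHom ⊓ Q₂ : Subgroup G) :=
      card_lt_card_of_lt hlt₂'
    have hle₂ : Nat.card (Q₃.map (MulAut.conj k).toMonoidHom ⊓ Q₂ : Subgroup G) ≤ Nat.card G :=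
      Subgroup.card_le_card_group _
    obtain ⟨k₂, hk₂, hk₂Q⟩ := ih
      (Nat.card G - Nat.card (Q₃.map (MulAut.conj k).toMonoidHom ⊓ Q₂ : Subgroup G))
      (key _ _ _ _ hn hcard₂ hle₂)
      (Q₃.map (MulAut.conj k).toMonoidHom) Q₂ hQ₃' h₂ rfl
    refine ⟨k₂ * k * k₁, K₀.mul_mem (K₀.mul_mem hk₂ hk) hk₁, ?_⟩
    rw [hk₂Q, hk₁Q, map_conj_map_conj, map_conj_map_conj]

end Cfsg.Agent.Lib.Helper30
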